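import Cfsg.Agent.S8R.A

/-! 3-local recognition of `Sym(8)`: the non-fusion facts `nt1`, `nt2`. -/

set_option autoImplicit false

namespace Cfsg.Agent.S8R

open Equiv Subgroup

variable {G : Type*} [Group G] [Finite G] {ψ : K0 →* G} {s : G}

/-- With abelian Sylow 3-subgroups, a commuting pair of 3-elements can be moved to centralise a third one. -/
theorem q0_syl {H : Type*} [Group H] [Finite H] (h27 : ¬ 27 ∣ Nat.card H) {a b x : H} (ha : a ^ 3 = 1)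
    (hb : b ^ 3 = 1) (hx : x ^ 3 = 1) (ab : a * b = b * a) :
    ∃ c : H, c * a * c⁻¹ * x = x * (c * a * c⁻¹) ∧ c * b * c⁻¹ * x = x * (c * b * c⁻¹) := by
  have := Fact.mk Nat.prime_three
  have pg : ∀ {u : H}, u ^ 3 = 1 → IsPGroup 3 (zpowers u) := fun {u} hu =>
    IsPGroup.of_card_dvd_pow (n := 1) (by rw [Nat.card_zpowers, pow_one]; exact orderOf_dvd_of_pow_eq_one hu)
  obtain ⟨P, hP⟩ := ((pg ha).to_sup_of_normal_right' (pg hb) (zpowers_le.2 (centralizer_le_normalizer _ (by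
    rintro _ ⟨k, rfl⟩
    exact ((show Commute a b from ab).zpow_right k).symm.eq)))).exists_le_sylow
  obtain ⟨Q, hQ⟩ := (pg hx).exists_le_sylow
  obtain ⟨c, rfl⟩ := MulAction.exists_smul_eq H P Q
  have cm : ∀ u ∈ ((c • P : Sylow 3 H) : Subgroup H), ∀ w ∈ ((c • P : Sylow 3 H) : Subgroup H), u * w = w * u := by
    obtain ⟨n, hn⟩ := IsPGroup.iff_card.1 (c • P).2
    have h1 : 3 ^ n ∣ Nat.card H := hn ▸ card_subgroup_dvd_card _
    have h2 : IsMulCommutative ((c • P : Sylow 3 H) : Subgroup H) := by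
      rcases n with _ | _ | _ | n
      · have := isCyclic_of_card_dvd_prime (p := 3) (α := ((c • P : Sylow 3 H) : Subgroup H)) (by rw [hn]; simp)
        infer_instance
      · have := isCyclic_of_card_dvd_prime (p := 3) (α := ((c • P : Sylow 3 H) : Subgroup H)) (by rw [hn]; simp)
        infer_instance
      · exact IsPGroup.isMulCommutative_of_card_eq_prime_sq hn
      · exact absurd ((show 27 ∣ 3 ^ (n + 1 + 1 + 1) from ⟨3 ^ n, by ring⟩).trans h1) h27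
    exact fun u hu w hw => congrArg Subtype.val (h2.is_comm.comm ⟨u, hu⟩ ⟨w, hw⟩)
  have mem : ∀ u ∈ (P : Subgroup H), c * u * c⁻¹ ∈ ((c • P : Sylow 3 H) : Subgroup H) := fun u hu => by
    rw [Sylow.coe_subgroup_smul]
    exact ⟨u, hu, rfl⟩
  exact ⟨c, cm _ (mem a (hP (mem_sup_left (mem_zpowers a)))) _ (hQ (mem_zpowers x)),
    cm _ (mem b (hP (mem_sup_right (mem_zpowers b)))) _ (hQ (mem_zpowers x))⟩

omit [Finite G] in
theorem q0_three {e u : G} (he : e ^ 3 = 1) (hu : u ∈ zpowers e) : u = 1 ∨ u = e ∨ u = e⁻¹ := by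
  obtain ⟨k, rfl⟩ := hu
  have h3 : e ^ (3 : ℤ) = 1 := by exact_mod_cast he
  have h : e ^ k = e ^ (k % 3) := zpow_eq_zpow_emod k h3
  have h2 : e ^ (2 : ℤ) = e⁻¹ := eq_inv_of_mul_eq_one_left (by rw [← zpow_add_one]; exact h3)
  have : k % 3 = 0 ∨ k % 3 = 1 ∨ k % 3 = 2 := by omega
  simp only [h]
  rcases this with h | h | h <;> simp [h, h2]

/-- For `w ~ t` and a 3-element `x ∈ C(w)` there is a conjugate of `D` in `C(w) ⊓ C(x)`. -/
theorem F1.key (h : F1 ψ s) {w x : G} (hw : IsConj (ψ t0) w) (hx : x ^ 3 = 1) (c : w * x = x * w) :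
    ∃ a b : G, a ^ 3 = 1 ∧ b ^ 3 = 1 ∧ a * x = x * a ∧ b * x = x * b ∧ a * w = w * a ∧ b * w = w * b ∧
      ∀ e : G, (a = 1 ∨ a = e ∨ a = e⁻¹) → (b = 1 ∨ b = e ∨ b = e⁻¹) → False := by
  obtain ⟨g, rfl⟩ := isConj_iff.1 hw
  have mm : ∀ u : K0, u * t0 = t0 * u → g * ψ u * g⁻¹ ∈ centralizer ({g * ψ t0 * g⁻¹} : Set G) := fun u hu =>
    mem_centralizer_singleton_iff.2 (by
      calc _ = g * ψ (u * t0) * g⁻¹ := by rw [map_mul]; group
        _ = _ := by rw [hu, map_mul]; group)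
  have p3 : ∀ u : K0, u ^ 3 = 1 → ∀ k : G, (k * ψ u * k⁻¹) ^ 3 = 1 := fun u hu k => by
    rw [conj_pow, ← map_pow, hu, map_one, mul_one, mul_inv_cancel]
  obtain ⟨c, c1, c2⟩ := q0_syl (H := centralizer ({g * ψ t0 * g⁻¹} : Set G))
    (fun hd => h.s27 (hd.trans (card_subgroup_dvd_card _))) (a := ⟨_, mm z0 (by decide)⟩) (b := ⟨_, mm y0 (by decide)⟩)
    (x := ⟨x, mem_centralizer_singleton_iff.2 c.symm⟩) (Subtype.ext (p3 z0 (by decide) g))
    (Subtype.ext (p3 y0 (by decide) g)) (Subtype.ext hx) (Subtype.ext (by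
      change g * ψ z0 * g⁻¹ * (g * ψ y0 * g⁻¹) = g * ψ y0 * g⁻¹ * (g * ψ z0 * g⁻¹)
      calc _ = g * ψ (z0 * y0) * g⁻¹ := by rw [map_mul]; group
        _ = _ := by rw [show z0 * y0 = y0 * z0 by decide, map_mul]; group))
  have e1 : ∀ u : G, (c : G) * (g * u * g⁻¹) * (c : G)⁻¹ = (c * g) * u * (c * g)⁻¹ := fun u => by group
  have ne : ∀ u : K0, (c * g) * ψ u * (c * g)⁻¹ = 1 → u = 1 := fun u hu =>
    h.inj (by rwa [conj_eq_one_iff, ← map_one ψ] at hu)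
  refine ⟨(c * g) * ψ z0 * (c * g)⁻¹, (c * g) * ψ y0 * (c * g)⁻¹, p3 _ (by decide) _, p3 _ (by decide) _,
    e1 _ ▸ congrArg Subtype.val c1, e1 _ ▸ congrArg Subtype.val c2,
    e1 _ ▸ mem_centralizer_singleton_iff.1 (c * ⟨_, mm z0 (by decide)⟩ * c⁻¹).2,
    e1 _ ▸ mem_centralizer_singleton_iff.1 (c * ⟨_, mm y0 (by decide)⟩ * c⁻¹).2, fun e ha hb => ?_⟩
  have k1 : (c * g) * ψ (z0 * y0) * (c * g)⁻¹ = (c * g) * ψ z0 * (c * g)⁻¹ * ((c * g) * ψ y0 * (c * g)⁻¹) := by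
    rw [map_mul]; group
  have k2 : (c * g) * ψ (z0 * y0⁻¹) * (c * g)⁻¹ = (c * g) * ψ z0 * (c * g)⁻¹ * ((c * g) * ψ y0 * (c * g)⁻¹)⁻¹ := by
    rw [map_mul, map_inv]; group
  rcases ha with ha | ha | ha
  · exact absurd (ne _ ha) (by decide)
  all_goals rcases hb with hb | hb | hb
  · exact absurd (ne _ hb) (by decide)
  · exact absurd (ne _ (by rw [k2, ha, hb, mul_inv_cancel])) (by decide)
  · exact absurd (ne _ (by rw [k1, ha, hb, mul_inv_cancel])) (by decide)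
  · exact absurd (ne _ hb) (by decide)
  · exact absurd (ne _ (by rw [k1, ha, hb, inv_mul_cancel])) (by decide)
  · exact absurd (ne _ (by rw [k2, ha, hb, mul_inv_cancel])) (by decide)

theorem q0_d1 : ∀ a : K0, a * z0 = z0 * a → a * (q0 * t0) = q0 * t0 * a → a ^ 3 = 1 →
    a = 1 ∨ a = z0 ∨ a = z0⁻¹ := by decide +kernel

set_option synthInstance.maxSize 4096 in
set_option synthInstance.maxHeartbeats 400000 in
theorem q0_d2 : ∀ a : K0, a * (z0 * y0) = z0 * y0 * a → a ^ 3 = 1 →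
    (a = 1 ∨ a = z0 * y0 ∨ a = (z0 * y0)⁻¹) ∨ ∃ i j : Fin 3, z0 = a ^ i.1 * (z0 * y0) ^ j.1 := by decide +kernel

set_option synthInstance.maxSize 4096 in
set_option synthInstance.maxHeartbeats 400000 in
theorem q0_d3 : ∀ a : K0, a * z0 = z0 * a → a * (z0 * y0) = z0 * y0 * a → a * a = 1 → a = 1 ∨ a = t0 := by
  decide +kernel

omit [Finite G] in
theorem F1.cz (h : F1 ψ s) {g : G} (c : g * ψ z0 = ψ z0 * g) : g ∈ ψ.range :=
  h.nz g (by rw [c, mul_inv_cancel_right]; exact mem_zpowers _)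

omit [Finite G] in
theorem F1.cy3 (h : F1 ψ s) {a : G} (a3 : a ^ 3 = 1) (c : a * ψ (z0 * y0) = ψ (z0 * y0) * a) : a ∈ ψ.range := by
  have c' : a⁻¹ * ψ (z0 * y0) = ψ (z0 * y0) * a⁻¹ := (show Commute a _ from c).inv_left.eq
  rcases h.ny a (by rw [c, mul_inv_cancel_right]; exact mem_zpowers _) with h1 | h1
  · exact h.nz a h1
  rcases h.ny a⁻¹ (by rw [c', mul_inv_cancel_right]; exact mem_zpowers _) with h2 | h2
  · exact inv_mem_iff.1 (h.nz _ h2)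
  have y3 : ψ y0 ^ 3 = 1 := by rw [← map_pow, show y0 ^ 3 = 1 by decide, map_one]
  have z1 : ψ z0 ≠ 1 := fun e => absurd (h.inj (e.trans (map_one ψ).symm)) (by decide)
  have ea : a⁻¹ * a⁻¹ = a := by
    rw [← mul_inv_rev, inv_eq_iff_mul_eq_one, ← pow_three', a3]
  have k : a⁻¹ * ψ z0 * a⁻¹⁻¹ = a * ψ z0 * a⁻¹ ∨ a⁻¹ * ψ z0 * a⁻¹⁻¹ = (a * ψ z0 * a⁻¹)⁻¹ := by
    rcases q0_three y3 h1 with e1 | e1 | e1
    · exact absurd (conj_eq_one_iff.1 e1) z1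
    all_goals rcases q0_three y3 h2 with e2 | e2 | e2
    · exact absurd (conj_eq_one_iff.1 e2) z1
    · exact Or.inl (e2.trans e1.symm)
    · exact Or.inr (by rw [e1, e2])
    · exact absurd (conj_eq_one_iff.1 e2) z1
    · exact Or.inr (by rw [e1, e2, inv_inv])
    · exact Or.inl (e2.trans e1.symm)
  rw [← ea]
  refine h.nz _ ?_
  have e : a⁻¹ * a⁻¹ * ψ z0 * (a⁻¹ * a⁻¹)⁻¹ = a⁻¹ * (a⁻¹ * ψ z0 * a⁻¹⁻¹) * a := by
    simp only [mul_inv_rev, inv_inv, mul_assoc]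
  rw [e]
  rcases k with k | k <;> rw [k]
  · rw [show a⁻¹ * (a * ψ z0 * a⁻¹) * a = ψ z0 by group]
    exact mem_zpowers _
  · rw [show a⁻¹ * (a * ψ z0 * a⁻¹)⁻¹ * a = (ψ z0)⁻¹ by group]
    exact inv_mem (mem_zpowers _)

theorem F1.f1' (h : F1 ψ s) : F1' ψ s := by
  have p3 : ∀ u : K0, ψ u ^ 3 = 1 ↔ u ^ 3 = 1 := fun u => by rw [← map_pow, ← map_one ψ, h.inj.eq_iff]
  have cm : ∀ u w : K0, ψ u * ψ w = ψ w * ψ u ↔ u * w = w * u := fun u w => by
    rw [← map_mul, ← map_mul, h.inj.eq_iff]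
  have tr : ∀ {u e : K0}, (u = 1 ∨ u = e ∨ u = e⁻¹) → ψ u = 1 ∨ ψ u = ψ e ∨ ψ u = (ψ e)⁻¹ := by
    rintro u e (rfl | rfl | rfl) <;> simp
  refine { h with nt1 := fun hc => ?_, nt2 := fun w hw c => ?_ }
  · obtain ⟨a, b, a3, b3, ax, bx, aw, bw, hn⟩ := h.key hc ((p3 z0).2 (by decide)) ((cm _ _).2 (by decide))
    obtain ⟨a, rfl⟩ := h.cz ax
    obtain ⟨b, rfl⟩ := h.cz bx
    exact hn (ψ z0) (tr (q0_d1 a ((cm _ _).1 ax) ((cm _ _).1 aw) ((p3 _).1 a3)))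
      (tr (q0_d1 b ((cm _ _).1 bx) ((cm _ _).1 bw) ((p3 _).1 b3)))
  · obtain ⟨a, b, a3, b3, ax, bx, aw, bw, hn⟩ := h.key hw ((p3 (z0 * y0)).2 (by decide)) c
    obtain ⟨a, rfl⟩ := h.cy3 a3 ax
    obtain ⟨b, rfl⟩ := h.cy3 b3 bx
    have k : ∀ u : K0, ψ u * w = w * ψ u → (∃ i j : Fin 3, z0 = u ^ i.1 * (z0 * y0) ^ j.1) →
        w * ψ z0 = ψ z0 * w := by
      rintro u hu ⟨i, j, e⟩
      have : Commute w (ψ (u ^ i.1 * (z0 * y0) ^ j.1)) := by
        rw [map_mul, map_pow, map_pow]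
        exact ((show Commute w (ψ u) from hu.symm).pow_right _).mul_right
          ((show Commute w (ψ (z0 * y0)) from c).pow_right _)
      rw [← e] at this
      exact this.eq
    have wz : w * ψ z0 = ψ z0 * w := by
      rcases q0_d2 a ((cm _ _).1 ax) ((p3 _).1 a3) with ha | ha
      · rcases q0_d2 b ((cm _ _).1 bx) ((p3 _).1 b3) with hb | hb
        · exact (hn _ (tr ha) (tr hb)).elim
        · exact k b bw hb
      · exact k a aw ha
    obtain ⟨g, hg⟩ := isConj_iff.1 hw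
    have w2 : w * w = 1 := by
      rw [← hg]
      calc _ = g * ψ (t0 * t0) * g⁻¹ := by rw [map_mul]; group
        _ = 1 := by rw [show t0 * t0 = 1 by decide, map_one]; group
    obtain ⟨u, rfl⟩ := h.cz wz
    rcases q0_d3 u ((cm _ _).1 wz) ((cm _ _).1 c) (h.inj (by rw [map_mul, w2, map_one])) with e | e
    · rw [e, map_one, conj_eq_one_iff, ← map_one ψ, h.inj.eq_iff] at hg
      exact absurd hg (by decide)
    · rw [e]

end Cfsg.Agent.S8R
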