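import Cfsg.Agent.S8R.A
import Cfsg.Agent.A8R.PA

/-! The frame `F0` (all fields of `F1` but `dich`) from the 3-local hypotheses. -/

set_option autoImplicit false

namespace Cfsg.Agent.S8R

open Equiv Subgroup Cfsg.Agent.BG
open Cfsg.Agent.A8R (pa1_A pa1_B pa1_C pa1_pow pa_cc pa_le)

variable {G : Type*} [Group G]

/-- All fields of `F1` but `dich`. -/
structure F0 (ψ : K0 →* G) (s : G) : Prop where
  inj : Function.Injective ψ
  nz : ∀ g : G, g * ψ z0 * g⁻¹ ∈ zpowers (ψ z0) → g ∈ ψ.range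
  ss : s * s = 1
  sz : s * ψ z0 * s⁻¹ = ψ y0
  st : s * ψ t0 * s⁻¹ = ψ t0
  sr : s * ψ r0 * s⁻¹ = ψ q0 ∨ s * ψ r0 * s⁻¹ = ψ (q0 * t0)
  ny : ∀ g : G, g * ψ (z0 * y0) * g⁻¹ ∈ zpowers (ψ (z0 * y0)) →
    g * ψ z0 * g⁻¹ ∈ zpowers (ψ z0) ∨ g * ψ z0 * g⁻¹ ∈ zpowers (ψ y0)
  hy : Nat.card (centralizer ({ψ (z0 * y0)} : Set G)) = 36
  s27 : ¬ 27 ∣ Nat.card G
  h9 : ∀ i : G, orderOf i = 2 → 9 ∣ Nat.card (centralizer ({i} : Set G)) → IsConj (ψ t0) i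

theorem qa1_D : ∀ i : Fin 3, (z0 ^ i.val).2 = 1 ∧ (z0 ^ i.val ≠ 1 → z0 ^ i.val = z0 ∨ z0 ^ i.val = z0⁻¹) := by decide +kernel

theorem qa1_l {l : K0} (h3 : l ^ 3 = 1) (h1 : l ≠ 1) (hn : ∀ g : K0, g * l * g⁻¹ ∈ zpowers l) : l = z0 ∨ l = z0⁻¹ := by
  have e1 : l.1 ^ 3 = 1 := congrArg Prod.fst h3
  have e2 : l.2 ^ 3 = 1 := congrArg Prod.snd h3
  have e3 : l.2 = 1 := by
    obtain ⟨i, hi⟩ := pa1_pow h3 (hn A8R.y0.1)
    obtain ⟨j, hj⟩ := pa1_pow h3 (hn A8R.v0.1)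
    exact pa1_B _ e2 ⟨i, congrArg Prod.snd hi⟩ ⟨j, congrArg Prod.snd hj⟩
  obtain ⟨i, hi⟩ := pa1_C _ e1
  have e4 : l = z0 ^ i.val := Prod.ext hi (e3.trans (qa1_D i).1.symm)
  rw [e4] at h1 ⊢
  exact (qa1_D i).2 h1

theorem qa1_m {m : K0} (h3 : m ^ 3 = 1) (h1 : m ∉ zpowers z0) :
    ∃ (c : K0) (i : ℕ), m = z0 ^ i * (c * y0 * c⁻¹) ∧ c * z0 * c⁻¹ = z0 := by
  have e1 : m.1 ^ 3 = 1 := congrArg Prod.fst h3
  have e2 : m.2 ^ 3 = 1 := congrArg Prod.snd h3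
  obtain ⟨i, hi⟩ := pa1_C _ e1
  have z2 : (z0 ^ i.val).2 = 1 := (qa1_D i).1
  have n1 : m.2 ≠ 1 := fun e => h1 (by
    rw [show m = z0 ^ i.val from Prod.ext hi (e.trans z2.symm)]
    exact pow_mem (mem_zpowers _) _)
  obtain ⟨c, hc, -⟩ := pa1_A _ e2 n1
  refine ⟨(1, c), i, Prod.ext ?_ ?_, Prod.ext ?_ ?_⟩
  · show m.1 = z0.1 ^ i.val * (1 * 1 * 1⁻¹)
    rw [hi, inv_one, mul_one, mul_one, mul_one]; rfl
  · show m.2 = (z0 ^ i.val).2 * (c * (swap 0 2 * swap 0 1) * c⁻¹)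
    rw [z2, hc, one_mul]
  · show 1 * z0.1 * 1⁻¹ = z0.1
    simp
  · show c * 1 * c⁻¹ = 1
    simp

theorem qa1_psi [Finite G] {D : Subgroup G} {y z : G} (hgen : closure {y, z} = D)
    (hcomm : IsMulCommutative D) (hcard : Nat.card D = 9) (hexp : ∀ a ∈ D, a ^ 3 = 1)
    (eL : normalizer (zpowers z : Set G) ≃* K0) :
    ∃ ψ : K0 →* G, Function.Injective ψ ∧ ψ.range = normalizer (zpowers z : Set G) ∧ zpowers (ψ z0) = zpowers z ∧
      closure {ψ z0, ψ y0} = D := by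
  have hy : y ∈ D := hgen ▸ subset_closure (by simp)
  have hz : z ∈ D := hgen ▸ subset_closure (by simp)
  have yz : y * z = z * y := congrArg Subtype.val (hcomm.is_comm.comm ⟨y, hy⟩ ⟨z, hz⟩)
  have small : ∀ x ∈ D, y ∈ zpowers x → z ∈ zpowers x → False := fun x hx h1 h2 => by
    have h : D ≤ zpowers x := by
      rw [← hgen, closure_le]; rintro _ (rfl | rfl) <;> assumption
    have h3 := card_le_of_le h
    rw [hcard, Nat.card_zpowers] at h3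
    have := Nat.le_of_dvd (by norm_num) (orderOf_dvd_of_pow_eq_one (hexp x hx))
    omega
  have zN : z ∈ normalizer (zpowers z : Set G) := le_normalizer (mem_zpowers z)
  have yN : y ∈ normalizer (zpowers z : Set G) := centralizer_le_normalizer _ (by
    rintro _ ⟨k, rfl⟩
    exact (Commute.zpow_left yz.symm k).eq)
  let ψ0 : K0 →* G := (normalizer (zpowers z : Set G)).subtype.comp eL.symm.toMonoidHom
  have i0 : Function.Injective ψ0 := (subtype_injective _).comp eL.symm.injective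
  have r0 : ψ0.range = normalizer (zpowers z : Set G) := by
    rw [MonoidHom.range_comp, MonoidHom.range_eq_top.2 eL.symm.surjective, ← MonoidHom.range_eq_map, range_subtype]
  have el : ψ0 (eL ⟨z, zN⟩) = z := by simp [ψ0]
  have em : ψ0 (eL ⟨y, yN⟩) = y := by simp [ψ0]
  generalize eL ⟨z, zN⟩ = l at el
  generalize eL ⟨y, yN⟩ = m at em
  have mz : ∀ {a b : K0}, ψ0 a ∈ zpowers (ψ0 b) ↔ a ∈ zpowers b := fun {a b} => by
    rw [← MonoidHom.map_zpowers, mem_map_iff_mem i0]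
  have hl : zpowers l = zpowers z0 := by
    rcases qa1_l (l := l) (i0 (by rw [map_pow, el, hexp z hz, map_one])) (fun e => small y hy (mem_zpowers y) (by
      rw [← el, e, map_one]; exact one_mem _)) (fun g => by
      rw [← mz, map_mul, map_mul, map_inv, el]
      exact (mem_normalizer_iff.1 (r0 ▸ ⟨g, rfl⟩ : ψ0 g ∈ normalizer (zpowers z : Set G)) z).1 (mem_zpowers z)) with e | e
    · rw [e]
    · rw [e, zpowers_inv]
  have e0 : zpowers (ψ0 z0) = zpowers z := by rw [← MonoidHom.map_zpowers, ← hl, MonoidHom.map_zpowers, el]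
  obtain ⟨c, i, hm, hc⟩ := qa1_m (m := m) (i0 (by rw [map_pow, em, hexp y hy, map_one])) fun e =>
    small z hz (by rw [← em, ← e0, mz]; exact e) (mem_zpowers z)
  have k1 : (ψ0.comp (MulAut.conj c).toMonoidHom) z0 = ψ0 z0 := congrArg ψ0 hc
  have k2 : y = ψ0 z0 ^ i * (ψ0.comp (MulAut.conj c).toMonoidHom) y0 := by
    rw [← em, hm, map_mul, map_pow]; rfl
  refine ⟨ψ0.comp (MulAut.conj c).toMonoidHom, i0.comp (MulAut.conj c).injective, ?_, by rw [k1, e0], ?_⟩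
  · rw [MonoidHom.range_comp, MonoidHom.range_eq_top.2 (MulAut.conj c).surjective, ← MonoidHom.range_eq_map, r0]
  · rw [k1]
    have zD : ψ0 z0 ∈ D := zpowers_le.2 hz (e0 ▸ mem_zpowers _)
    refine le_antisymm ((closure_le _).2 ?_) (hgen ▸ (closure_le _).2 ?_)
    · rintro _ (rfl | rfl)
      · exact zD
      · exact (mul_mem_cancel_left (pow_mem zD i)).1 (k2 ▸ hy)
    · rintro _ (rfl | rfl)
      · rw [SetLike.mem_coe, k2]
        exact mul_mem (pow_mem (subset_closure (by simp)) _) (subset_closure (by simp))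
      · exact zpowers_le.2 (subset_closure (by simp)) (e0 ▸ mem_zpowers _ : _ ∈ zpowers (ψ0 z0))

/-- the Sylow 3-subgroup of the model -/
def qa1_D0 : Subgroup K0 where
  carrier := {l | ∃ i j : Fin 3, l = z0 ^ (i : ℕ) * y0 ^ (j : ℕ)}
  one_mem' := ⟨0, 0, by decide +kernel⟩
  mul_mem' := by
    rintro _ _ ⟨i, j, rfl⟩ ⟨k, l, rfl⟩
    exact ⟨i + k, j + l, by revert i j k l; decide +kernel⟩
  inv_mem' := by
    rintro _ ⟨i, j, rfl⟩
    exact ⟨-i, -j, by revert i j; decide +kernel⟩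

/-- `⟨r, q, t⟩` -/
def qa1_E0 : Subgroup K0 where
  carrier := {l | ∃ i j k : Fin 2, l = r0 ^ (i : ℕ) * q0 ^ (j : ℕ) * t0 ^ (k : ℕ)}
  one_mem' := ⟨0, 0, 0, by decide +kernel⟩
  mul_mem' := by
    rintro _ _ ⟨i, j, k, rfl⟩ ⟨i', j', k', rfl⟩
    exact ⟨i + i', j + j', k + k', by revert i j k i' j' k'; decide +kernel⟩
  inv_mem' := by
    rintro _ ⟨i, j, k, rfl⟩
    exact ⟨i, j, k, by revert i j k; decide +kernel⟩

theorem qa1_el {ψ : K0 →* G} {d : G} (hd : d ∈ closure ({ψ z0, ψ y0} : Set G)) :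
    ∃ i j : Fin 3, d = ψ (z0 ^ (i : ℕ) * y0 ^ (j : ℕ)) := by
  have : closure ({ψ z0, ψ y0} : Set G) ≤ qa1_D0.map ψ := by
    rw [closure_le]
    rintro _ (rfl | rfl)
    · exact ⟨_, ⟨1, 0, by decide +kernel⟩, rfl⟩
    · exact ⟨_, ⟨0, 1, by decide +kernel⟩, rfl⟩
  obtain ⟨_, ⟨i, j, rfl⟩, rfl⟩ := this hd
  exact ⟨i, j, rfl⟩

theorem qa1_mem {ψ : K0 →* G} (i j : ℕ) : ψ (z0 ^ i * y0 ^ j) ∈ closure ({ψ z0, ψ y0} : Set G) := by
  rw [map_mul, map_pow, map_pow]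
  exact mul_mem (pow_mem (subset_closure (by simp)) _) (pow_mem (subset_closure (by simp)) _)

theorem qa1_nm [Finite G] {ψ : K0 →* G} {l : K0} (hl : l ∈ qa1_E0) :
    ψ l ∈ normalizer (closure ({ψ z0, ψ y0} : Set G) : Set G) := by
  refine mem_normalizer_fintype fun d hd => ?_
  obtain ⟨i, j, rfl⟩ := qa1_el hd
  obtain ⟨u, v, w, rfl⟩ := hl
  have k : ∀ (u v w : Fin 2) (i j : Fin 3), ∃ i' j' : Fin 3, r0 ^ (u : ℕ) * q0 ^ (v : ℕ) * t0 ^ (w : ℕ) *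
    (z0 ^ (i : ℕ) * y0 ^ (j : ℕ)) * (r0 ^ (u : ℕ) * q0 ^ (v : ℕ) * t0 ^ (w : ℕ))⁻¹ = z0 ^ (i' : ℕ) * y0 ^ (j' : ℕ) := by
    decide +kernel
  obtain ⟨i', j', e⟩ := k u v w i j
  rw [← map_inv, ← map_mul, ← map_mul, e]
  exact qa1_mem _ _

theorem qa1_tri [Finite G] {ψ : K0 →* G} {d : G} (hd : d ∈ closure ({ψ z0, ψ y0} : Set G)) :
    d ∈ zpowers (ψ z0) ∨ d ∈ zpowers (ψ y0) ∨
    ∃ h ∈ normalizer (closure ({ψ z0, ψ y0} : Set G) : Set G), h * ψ (z0 * y0) * h⁻¹ = d := by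
  obtain ⟨i, j, rfl⟩ := qa1_el hd
  have k : ∀ i j : Fin 3, j = 0 ∨ i = 0 ∨ ∃ u v w : Fin 2, r0 ^ (u : ℕ) * q0 ^ (v : ℕ) * t0 ^ (w : ℕ) * (z0 * y0) *
      (r0 ^ (u : ℕ) * q0 ^ (v : ℕ) * t0 ^ (w : ℕ))⁻¹ = z0 ^ (i : ℕ) * y0 ^ (j : ℕ) := by decide +kernel
  rcases k i j with rfl | rfl | ⟨u, v, w, e⟩
  · left; simp
  · right; left; simp
  · right; right
    exact ⟨ψ _, qa1_nm ⟨u, v, w, rfl⟩, by rw [← map_inv, ← map_mul, ← map_mul, e]⟩

set_option synthInstance.maxSize 100000 in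
set_option synthInstance.maxHeartbeats 400000 in
theorem qa1_x : ∀ a : DihedralGroup 4 × Multiplicative (ZMod 2), a * a = 1 → a ≠ 1 → ∀ b, b * b = 1 → b ≠ 1 → b ≠ a →
    a * b = b * a → ∀ c, c * c = 1 → c ≠ 1 → c ≠ a → c ≠ b → c ≠ a * b → a * c = c * a → b * c = c * b →
    ∃ x, x * x = 1 ∧ (∀ i j k : Fin 2, x ≠ a ^ (i : ℕ) * b ^ (j : ℕ) * c ^ (k : ℕ)) ∧ ∀ i j k : Fin 2, ∃ i' j' k' : Fin 2,
      x * (a ^ (i : ℕ) * b ^ (j : ℕ) * c ^ (k : ℕ)) * x⁻¹ = a ^ (i' : ℕ) * b ^ (j' : ℕ) * c ^ (k' : ℕ) := by decide +kernel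

theorem qa1_s0 [Finite G] {ψ : K0 →* G} (hi : Function.Injective ψ) (D : Subgroup G) (hD : closure ({ψ z0, ψ y0} : Set G) = D)
    (hcard : Nat.card D = 9) (hexp : ∀ a ∈ D, a ^ 3 = 1)
    (eN : normalizer (D : Set G) ⧸ D.subgroupOf (normalizer (D : Set G)) ≃* DihedralGroup 4 × Multiplicative (ZMod 2)) :
    ∃ s ∈ normalizer (D : Set G), s * s = 1 ∧ s ∉ qa1_E0.map ψ ∧ ∀ e ∈ qa1_E0.map ψ, s * e * s⁻¹ ∈ qa1_E0.map ψ := by
  have := Nat.fact_prime_two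
  let q : normalizer (D : Set G) →* DihedralGroup 4 × Multiplicative (ZMod 2) := eN.toMonoidHom.comp (QuotientGroup.mk' _)
  have hq : ∀ n, q n = 1 ↔ (n : G) ∈ D := fun n => by
    simp only [q, MonoidHom.comp_apply, MulEquiv.coe_toMonoidHom, QuotientGroup.mk'_apply, EmbeddingLike.map_eq_one_iff,
      QuotientGroup.eq_one_iff, mem_subgroupOf]
  have hN : ∀ l ∈ qa1_E0, ψ l ∈ normalizer (D : Set G) := fun l hl => hD ▸ qa1_nm hl
  have hE : IsPGroup 2 ((qa1_E0.map ψ).subgroupOf (normalizer (D : Set G))) := by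
    rintro ⟨n, _, ⟨i, j, k, rfl⟩, e⟩
    refine ⟨1, Subtype.ext (Subtype.ext ?_)⟩
    show n.1 ^ 2 ^ 1 = 1
    have e' : ψ _ = n.1 := e
    rw [← e', ← map_pow, ← map_one ψ]; congr 1; clear e e'; revert i j k; decide +kernel
  obtain ⟨P, hP⟩ := hE.exists_le_sylow
  have cN : Nat.card (normalizer (D : Set G)) = 2 ^ 4 * 9 := by
    rw [card_eq_card_quotient_mul_card_subgroup (D.subgroupOf _), Nat.card_congr eN.toEquiv,
      Nat.card_congr (subgroupOfEquivOfLe le_normalizer).toEquiv, hcard, Nat.card_prod, DihedralGroup.nat_card]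
    simp
  let f := q.comp (P : Subgroup (normalizer (D : Set G))).subtype
  have fi : Function.Injective f := (injective_iff_map_eq_one f).2 fun a ha => by
    obtain ⟨k, hk⟩ := P.isPGroup' a
    have h3 : a ^ 3 = 1 := Subtype.ext (Subtype.ext (hexp _ ((hq _).1 ha)))
    have := Nat.dvd_gcd (orderOf_dvd_of_pow_eq_one hk) (orderOf_dvd_of_pow_eq_one h3)
    rwa [(by norm_num : Nat.Coprime 2 3).pow_left k, Nat.dvd_one, orderOf_eq_one_iff] at this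
  have fs : Function.Surjective f := ((Nat.bijective_iff_injective_and_card f).2 ⟨fi, le_antisymm
    (Nat.card_le_card_of_injective f fi) (by
      have := Nat.le_of_dvd Nat.card_pos (P.pow_dvd_card_of_pow_dvd_card (n := 4) (cN ▸ dvd_mul_right _ _))
      rw [Nat.card_prod, DihedralGroup.nat_card]
      simpa using this)⟩).2
  let φ : qa1_E0 →* P :=
    { toFun := fun l => ⟨⟨ψ l, hN l l.2⟩, hP (mem_map_of_mem ψ l.2)⟩
      map_one' := Subtype.ext (Subtype.ext (map_one ψ))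
      map_mul' := fun a b => Subtype.ext (Subtype.ext (map_mul ψ a.1 b.1)) }
  have φi : Function.Injective (f.comp φ) := fi.comp fun a b e => Subtype.ext (hi (congrArg (fun x : P => x.1.1) e))
  let a : qa1_E0 := ⟨r0, 1, 0, 0, by decide +kernel⟩
  let b : qa1_E0 := ⟨q0, 0, 1, 0, by decide +kernel⟩
  let c : qa1_E0 := ⟨t0, 0, 0, 1, by decide +kernel⟩
  have o1 : ∀ {u : qa1_E0}, u.1 * u.1 = 1 → f.comp φ u * f.comp φ u = 1 := fun h => by
    rw [← map_mul, ← map_one (f.comp φ)]; exact congrArg _ (Subtype.ext h)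
  have o2 : ∀ {u v : qa1_E0}, u.1 ≠ v.1 → f.comp φ u ≠ f.comp φ v := fun h e => h (congrArg Subtype.val (φi e))
  have o3 : ∀ {u v : qa1_E0}, u.1 * v.1 = v.1 * u.1 → f.comp φ u * f.comp φ v = f.comp φ v * f.comp φ u := fun h => by
    rw [← map_mul, ← map_mul]; exact congrArg _ (Subtype.ext h)
  have o4 : ∀ {u : qa1_E0}, u.1 ≠ 1 → f.comp φ u ≠ 1 := fun h => map_one (f.comp φ) ▸ o2 (v := 1) h
  obtain ⟨x, x2, xn, xc⟩ := qa1_x (f.comp φ a) (o1 (by decide +kernel)) (o4 (by decide +kernel)) (f.comp φ b)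
    (o1 (by decide +kernel)) (o4 (by decide +kernel)) (o2 (by decide +kernel)) (o3 (by decide +kernel)) (f.comp φ c)
    (o1 (by decide +kernel)) (o4 (by decide +kernel)) (o2 (by decide +kernel)) (o2 (by decide +kernel))
    (map_mul (f.comp φ) a b ▸ o2 (v := a * b) (by decide +kernel)) (o3 (by decide +kernel)) (o3 (by decide +kernel))
  obtain ⟨s, rfl⟩ := fs x
  have w : ∀ i j k : ℕ, f.comp φ a ^ i * f.comp φ b ^ j * f.comp φ c ^ k = f (φ (a ^ i * b ^ j * c ^ k)) := fun i j k => by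
    simp only [← map_pow, ← map_mul]; rfl
  refine ⟨s.1.1, s.1.2, congrArg (fun x : P => x.1.1) (fi (by rw [map_mul, x2, map_one]) : s * s = 1), ?_, ?_⟩
  · rintro ⟨_, ⟨i, j, k, rfl⟩, e⟩
    refine xn i j k ?_
    rw [w]
    exact congrArg f (Subtype.ext (Subtype.ext e.symm))
  · rintro _ ⟨_, ⟨i, j, k, rfl⟩, rfl⟩
    obtain ⟨i', j', k', e⟩ := xc i j k
    rw [w, w, ← map_inv, ← map_mul, ← map_mul] at e
    exact ⟨_, ⟨i', j', k', rfl⟩, (congrArg (fun x : P => x.1.1) (fi e)).symm⟩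

set_option synthInstance.maxSize 100000 in
set_option synthInstance.maxHeartbeats 400000 in
theorem qa1_k1 : ∀ a : Perm (Fin 3), (∃ i j k : Fin 2, a * r0.1 * a⁻¹ = (r0 ^ (i : ℕ) * q0 ^ (j : ℕ) * t0 ^ (k : ℕ)).1) →
    ∀ b : Perm (Fin 5), (∃ i j : Fin 3, b * y0.2 * b⁻¹ = (z0 ^ (i : ℕ) * y0 ^ (j : ℕ)).2) →
    (∃ i j k : Fin 2, b * q0.2 * b⁻¹ = (r0 ^ (i : ℕ) * q0 ^ (j : ℕ) * t0 ^ (k : ℕ)).2) →
    ∃ i j k : Fin 2, (a, b) = r0 ^ (i : ℕ) * q0 ^ (j : ℕ) * t0 ^ (k : ℕ) := by decide +kernel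

set_option synthInstance.maxSize 100000 in
set_option synthInstance.maxHeartbeats 400000 in
theorem qa1_k2 : ∀ a : Perm (Fin 3), a * z0.1 = z0.1 * a → a * a = 1 → ∀ b : Perm (Fin 5), b * y0.2 = y0.2 * b → b * b = 1 →
    (a, b) = (1 : K0) ∨ (a, b) = t0 := by decide +kernel

set_option synthInstance.maxSize 100000 in
set_option synthInstance.maxHeartbeats 400000 in
theorem qa1_k3 : ∀ u v : Fin 3, z0 ^ (u : ℕ) * y0 ^ (v : ℕ) ≠ 1 → ∀ i j k : Fin 2,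
    r0 ^ (i : ℕ) * q0 ^ (j : ℕ) * t0 ^ (k : ℕ) * (z0 ^ (u : ℕ) * y0 ^ (v : ℕ)) =
      z0 ^ (u : ℕ) * y0 ^ (v : ℕ) * (r0 ^ (i : ℕ) * q0 ^ (j : ℕ) * t0 ^ (k : ℕ)) → r0 ^ (i : ℕ) * q0 ^ (j : ℕ) * t0 ^ (k : ℕ) ≠ 1 →
    ∀ i' j' k' : Fin 2, r0 ^ (i' : ℕ) * q0 ^ (j' : ℕ) * t0 ^ (k' : ℕ) * (z0 ^ (u : ℕ) * y0 ^ (v : ℕ)) =
      z0 ^ (u : ℕ) * y0 ^ (v : ℕ) * (r0 ^ (i' : ℕ) * q0 ^ (j' : ℕ) * t0 ^ (k' : ℕ)) →
    r0 ^ (i' : ℕ) * q0 ^ (j' : ℕ) * t0 ^ (k' : ℕ) ≠ 1 →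
    r0 ^ (i : ℕ) * q0 ^ (j : ℕ) * t0 ^ (k : ℕ) ≠ r0 ^ (i' : ℕ) * q0 ^ (j' : ℕ) * t0 ^ (k' : ℕ) →
    z0 ^ (u : ℕ) * y0 ^ (v : ℕ) = z0 ^ (u : ℕ) ∨ z0 ^ (u : ℕ) * y0 ^ (v : ℕ) = y0 ∨ z0 ^ (u : ℕ) * y0 ^ (v : ℕ) = y0⁻¹ := by
  decide +kernel

theorem qa1_s1 {ψ : K0 →* G} (hi : Function.Injective ψ) {s : G} (ss : s * s = 1) (sz : s * ψ z0 * s⁻¹ = ψ y0)
    (hE : ∀ e ∈ qa1_E0.map ψ, s * e * s⁻¹ ∈ qa1_E0.map ψ) :
    s * ψ t0 * s⁻¹ = ψ t0 ∧ (s * ψ r0 * s⁻¹ = ψ q0 ∨ s * ψ r0 * s⁻¹ = ψ (q0 * t0)) := by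
  have sy : s * ψ y0 * s⁻¹ = ψ z0 := by
    rw [← sz]
    calc _ = s * s * ψ z0 * (s * s)⁻¹ := by group
      _ = _ := by rw [ss]; group
  have tr : ∀ {a a' b b' c c' : K0}, s * ψ a * s⁻¹ = ψ a' → s * ψ b * s⁻¹ = ψ b' → s * ψ c * s⁻¹ = ψ c' → a * b * a⁻¹ = c →
      a' * b' * a'⁻¹ = c' := fun e1 e2 e3 e => hi (by
    rw [map_mul, map_mul, map_inv, ← e1, ← e2, ← e3, ← e, map_mul, map_mul, map_inv]; group)
  have n1 : ∀ {a a' : K0}, s * ψ a * s⁻¹ = ψ a' → a ≠ 1 → a' ≠ 1 := fun e h e' => h (hi (by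
    rw [e', map_one, mul_inv_eq_one, mul_eq_left] at e; rw [e, map_one]))
  have zi : s * ψ z0⁻¹ * s⁻¹ = ψ y0⁻¹ := by rw [map_inv, map_inv, ← sz]; group
  constructor
  · obtain ⟨_, ⟨i, j, k, rfl⟩, e⟩ := hE _ (mem_map_of_mem ψ (show t0 ∈ qa1_E0 from ⟨0, 0, 1, by decide +kernel⟩))
    have k1 := tr e.symm sz sz (by decide +kernel)
    have k2 := tr e.symm sy sy (by decide +kernel)
    have k3 := n1 e.symm (by decide +kernel)
    rw [← e]; congr 1; clear e; revert i j k; decide +kernel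
  · obtain ⟨_, ⟨i, j, k, rfl⟩, e⟩ := hE _ (mem_map_of_mem ψ (show r0 ∈ qa1_E0 from ⟨1, 0, 0, by decide +kernel⟩))
    have k1 := tr e.symm sz zi (by decide +kernel)
    have k2 := tr e.symm sy sy (by decide +kernel)
    rw [← e, hi.eq_iff, hi.eq_iff]; clear e; revert i j k; decide +kernel

theorem exists_F0 [Finite G] (P : Sylow 3 G) (D : Subgroup G) (hDP : D = P) (y z : G) (hgen : closure {y, z} = D)
    (hcomm : IsMulCommutative D) (hcard : Nat.card D = 9) (hexp : ∀ a ∈ D, a ^ 3 = 1)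
    (eN : normalizer (D : Set G) ⧸ D.subgroupOf (normalizer (D : Set G)) ≃* DihedralGroup 4 × Multiplicative (ZMod 2))
    (hycard : Nat.card (centralizer ({y} : Set G)) = 36)
    (Ny : Subgroup G) (hNy : Ny = normalizer (zpowers y : Set G)) (hyNn : (D.subgroupOf Ny).Normal)
    (eC : centralizer ({z} : Set G) ≃* Multiplicative (ZMod 3) × Perm (Fin 5))
    (eL : normalizer (zpowers z : Set G) ≃* Perm (Fin 3) × Perm (Fin 5)) : ∃ (ψ : K0 →* G) (s : G), F0 ψ s := by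
  have : Fact (Nat.Prime 3) := ⟨Nat.prime_three⟩
  obtain ⟨ψ, hi, hr, hz, hD⟩ := qa1_psi hgen hcomm hcard hexp eL
  have nrm : ∀ {g w : G}, g * w * g⁻¹ ∈ zpowers w → g ∈ normalizer (zpowers w : Set G) := fun {g w} hg =>
    mem_normalizer_fintype fun n hn => by
      obtain ⟨k, rfl⟩ := hn
      have := zpow_mem hg k
      rwa [conj_zpow] at this
  have nz : ∀ g : G, g * ψ z0 * g⁻¹ ∈ zpowers (ψ z0) → g ∈ ψ.range := fun g hg => by rw [hr, ← hz]; exact nrm hg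
  have cz : Nat.card (centralizer ({ψ z0} : Set G)) = 360 := by
    rw [le_antisymm (pa_le (hz ▸ mem_zpowers z)) (pa_le (hz ▸ mem_zpowers (ψ z0))), Nat.card_congr eC.toEquiv, Nat.card_prod,
      Nat.card_perm]
    simp [Nat.factorial]
  have hyD : y ∈ D := hgen ▸ subset_closure (by simp)
  have zD : ψ z0 ∈ D := hD ▸ subset_closure (by simp)
  have yD : ψ y0 ∈ D := hD ▸ subset_closure (by simp)
  have hyN : D ≤ Ny := fun d hd => hNy ▸ nrm (by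
    have : d * y = y * d := congrArg Subtype.val (hcomm.is_comm.comm ⟨d, hd⟩ ⟨y, hyD⟩)
    rw [this, mul_inv_cancel_right]; exact mem_zpowers y)
  obtain ⟨s, sN, ss, sE, sn⟩ := qa1_s0 hi D hD hcard hexp eN
  have snz : s * ψ z0 * s⁻¹ ∉ zpowers (ψ z0) := fun h => by
    obtain ⟨k, rfl⟩ := nz s h
    obtain ⟨_, ⟨i, j, l, rfl⟩, e1⟩ := sn _ (mem_map_of_mem ψ (show r0 ∈ qa1_E0 from ⟨1, 0, 0, by decide +kernel⟩))
    obtain ⟨_, ⟨i', j', l', rfl⟩, e2⟩ := sn _ (mem_map_of_mem ψ (show q0 ∈ qa1_E0 from ⟨0, 1, 0, by decide +kernel⟩))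
    obtain ⟨u, v, e3⟩ := qa1_el (hD ▸ (mem_normalizer_iff.1 sN _).1 yD)
    rw [← map_inv, ← map_mul, ← map_mul, hi.eq_iff] at e1 e2 e3
    exact sE (mem_map_of_mem ψ (qa1_k1 k.1 ⟨i, j, l, congrArg Prod.fst e1.symm⟩ k.2 ⟨u, v, congrArg Prod.snd e3⟩
      ⟨i', j', l', congrArg Prod.snd e2.symm⟩))
  have sD : s * ψ z0 * s⁻¹ ∈ D := (mem_normalizer_iff.1 sN _).1 zD
  obtain ⟨s, ss, sz, sn⟩ : ∃ s : G, s * s = 1 ∧ s * ψ z0 * s⁻¹ = ψ y0 ∧ ∀ e ∈ qa1_E0.map ψ, s * e * s⁻¹ ∈ qa1_E0.map ψ := by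
    obtain ⟨u, v, e3⟩ := qa1_el (hD ▸ sD)
    obtain ⟨_, ⟨i, j, l, rfl⟩, e1⟩ := sn _ (mem_map_of_mem ψ (show t0 ∈ qa1_E0 from ⟨0, 0, 1, by decide +kernel⟩))
    obtain ⟨_, ⟨i', j', l', rfl⟩, e2⟩ := sn _ (mem_map_of_mem ψ (show q0 ∈ qa1_E0 from ⟨0, 1, 0, by decide +kernel⟩))
    have tr : ∀ {a a' b b' : K0}, ψ a' = s * ψ a * s⁻¹ → ψ b' = s * ψ b * s⁻¹ → a * b = b * a → a' * b' = b' * a' :=
      fun {a a' b b'} e1 e2 e => hi (by
        rw [map_mul, map_mul, e1, e2]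
        calc _ = s * ψ (a * b) * s⁻¹ := by rw [map_mul]; group
          _ = _ := by rw [e, map_mul]; group)
    have ne : ∀ {a a' b b' : K0}, ψ a' = s * ψ a * s⁻¹ → ψ b' = s * ψ b * s⁻¹ → a ≠ b → a' ≠ b' :=
      fun {a a' b b'} e1 e2 n e => n (hi (by rw [e, e2] at e1; simpa using e1.symm))
    have o : ψ 1 = s * ψ 1 * s⁻¹ := by simp
    rcases qa1_k3 u v (ne e3.symm o (by decide +kernel)) i j l (tr e1 e3.symm (by decide +kernel)) (ne e1 o (by decide +kernel))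
      i' j' l' (tr e2 e3.symm (by decide +kernel)) (ne e2 o (by decide +kernel)) (ne e1 e2 (by decide +kernel)) with k | k | k
    · exact absurd (by rw [e3, k, map_pow]; exact pow_mem (mem_zpowers _) _) snz
    · exact ⟨s, ss, e3.trans (congrArg ψ k), sn⟩
    · have qE : ψ q0 ∈ qa1_E0.map ψ := mem_map_of_mem ψ (show q0 ∈ qa1_E0 from ⟨0, 1, 0, by decide +kernel⟩)
      refine ⟨ψ q0 * s * (ψ q0)⁻¹, ?_, ?_, fun e he => ?_⟩
      · calc _ = ψ q0 * (s * s) * (ψ q0)⁻¹ := by group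
          _ = 1 := by rw [ss]; group
      · calc _ = ψ q0 * (s * ψ (q0⁻¹ * z0 * q0) * s⁻¹) * (ψ q0)⁻¹ := by rw [map_mul, map_mul, map_inv]; group
          _ = _ := by
            rw [show q0⁻¹ * z0 * q0 = z0 by decide +kernel, e3, k, ← map_inv, ← map_mul, ← map_mul]
            congr 1; decide +kernel
      · have := mul_mem (mul_mem qE (sn _ (mul_mem (mul_mem (inv_mem qE) he) qE))) (inv_mem qE)
        convert this using 1; group
  obtain ⟨st, sr⟩ := qa1_s1 hi ss sz sn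
  have cy : Nat.card (centralizer ({ψ y0} : Set G)) = 360 := by rw [← sz, pa_cc, cz]
  obtain ⟨h, hh, e⟩ : ∃ h ∈ normalizer (D : Set G), h * ψ (z0 * y0) * h⁻¹ = y := by
    rcases qa1_tri (hD ▸ hyD) with h | h | h
    · have := card_le_of_le (pa_le h); omega
    · have := card_le_of_le (pa_le h); omega
    · rwa [hD] at h
  have czy : Nat.card (centralizer ({ψ (z0 * y0)} : Set G)) = 36 := by rw [← pa_cc h, e, hycard]
  refine ⟨ψ, s, hi, nz, ss, sz, st, sr, fun g hg => ?_, czy, fun h27 => ?_, fun i hi2 hd => ?_⟩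
  · have h1 : h * g * h⁻¹ ∈ Ny := by
      rw [hNy]
      apply nrm
      obtain ⟨k, hk⟩ := hg
      refine ⟨k, ?_⟩
      simp only at hk ⊢
      rw [← e, conj_zpow, hk]; group
    have h2 := (normal_subgroupOf_iff_le_normalizer hyN).1 hyNn h1
    have h3 : g ∈ normalizer (D : Set G) := by simpa [mul_assoc] using mul_mem (mul_mem (inv_mem hh) h2) hh
    have h4 : g * ψ z0 * g⁻¹ ∈ D := (mem_normalizer_iff.1 h3 _).1 zD
    rcases qa1_tri (hD ▸ h4) with h | h | ⟨k, -, hk⟩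
    · exact Or.inl h
    · exact Or.inr h
    · have := pa_cc k (ψ (z0 * y0))
      rw [hk, pa_cc, cz, czy] at this
      omega
  · have := P.pow_dvd_card_of_pow_dvd_card (n := 3) h27
    rw [← hDP, hcard] at this
    omega
  · obtain ⟨K, hK⟩ := Sylow.exists_subgroup_card_pow_prime (G := centralizer ({i} : Set G)) 3 (n := 2) hd
    have hR : Nat.card (K.map (centralizer ({i} : Set G)).subtype) = 3 ^ 2 := by
      rw [card_map_of_injective (subtype_injective _), hK]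
    obtain ⟨P', hP'⟩ := (IsPGroup.of_card hR).exists_le_sylow
    obtain ⟨g, rfl⟩ := MulAction.exists_smul_eq G P P'
    have hc : Nat.card ((g • P : Sylow 3 G) : Subgroup G) = 9 := by
      rw [Sylow.card_eq_multiplicity, ← P.card_eq_multiplicity, ← hDP, hcard]
    have e := eq_of_le_of_card_ge hP' (by rw [hc, hR]; rfl)
    have hm : ∀ d ∈ D, g⁻¹ * i * g * d = d * (g⁻¹ * i * g) := fun d hd => by
      have h1 : g * d * g⁻¹ ∈ ((g • P : Sylow 3 G) : Subgroup G) := by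
        rw [Sylow.coe_subgroup_smul]
        exact smul_mem_pointwise_smul d (MulAut.conj g) _ (hDP ▸ hd)
      rw [← e] at h1
      have h2 := mem_centralizer_singleton_iff.1 (map_subtype_le _ h1)
      calc _ = g⁻¹ * (i * (g * d * g⁻¹)) * g := by group
        _ = _ := by rw [← h2]; group
    have ii : i * i = 1 := by rw [← sq, ← hi2, pow_orderOf_eq_one]
    obtain ⟨k, hk⟩ := nz (g⁻¹ * i * g) (by rw [hm _ zD, mul_inv_cancel_right]; exact mem_zpowers _)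
    have k1 : k * z0 = z0 * k := hi (by rw [map_mul, map_mul, hk, hm _ zD])
    have k2 : k * y0 = y0 * k := hi (by rw [map_mul, map_mul, hk, hm _ yD])
    have k3 : k * k = 1 := hi (by
      rw [map_mul, hk, map_one]
      calc _ = g⁻¹ * (i * i) * g := by group
        _ = 1 := by rw [ii]; group)
    rcases qa1_k2 k.1 (congrArg Prod.fst k1) (congrArg Prod.fst k3) k.2 (congrArg Prod.snd k2) (congrArg Prod.snd k3) with k4 | k4
    · have k5 : k = 1 := k4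
      rw [k5, map_one] at hk
      have : i = 1 := by
        calc _ = g * (g⁻¹ * i * g) * g⁻¹ := by group
          _ = 1 := by rw [← hk]; group
      rw [this, orderOf_one] at hi2
      omega
    · have k5 : k = t0 := k4
      exact isConj_iff.2 ⟨g, by rw [← k5, hk]; group⟩

end Cfsg.Agent.S8R
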