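import Cfsg.Agent.S8R.QB1
import Cfsg.Agent.S8R.QB2

/-! The `Sym(8)` case of the first frame. -/

set_option autoImplicit false

namespace Cfsg.Agent.S8R

open Equiv

theorem F1'.toS8 {G : Type*} [Group G] [Finite G] {ψ : K0 →* G} {s : G} (h : F1' ψ s) (e : s * ψ r0 * s⁻¹ = ψ q0) :
    ∃ φ, FS ψ s φ :=
  let ⟨_, ha, h35⟩ := h.qb1 e (h.dichR e)
  h.toS8_of e ha h35

end Cfsg.Agent.S8R
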