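import Cfsg.Agent.S8R.A

/-! The relation `(a₃ a₅)² = 1` in the `Sym(8)` case. -/

set_option autoImplicit false

namespace Cfsg.Agent.S8R

open Equiv Subgroup Cfsg.Agent.BG

def qbAp (n i : ℕ) : ℕ := Nat.mod (Nat.div n (Nat.pow 8 i)) 8
def qbCode (x : Perm (Fin 6)) : ℕ := x 0 + 8 * x 1 + 64 * x 2 + 512 * x 3 + 4096 * x 4 + 32768 * x 5
def qbL : List ℕ := [153224, 178312, 117384, 181448, 152776, 173832, 109320, 83784, 80200, 181840, 153168, 178256, 117328, 180888, 152216, 172824, 82776, 169632, 105120, 169184, 71520, 50856, 47272, 50408, 42792, 181889, 153217, 178305, 117377, 181441, 152769, 173825, 109313, 83777, 80193, 181770, 153098, 178186, 117258, 180762, 152090, 169506, 104994, 50730, 47146, 180363, 151691, 172299, 82251, 180307, 151635, 168099, 69987, 49323, 41259, 165516, 101004, 165068, 67404, 165460, 100948, 164508, 66396, 34476, 34028, 18061, 14477, 17613, 9997, 18005, 14421,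 17053, 8989, 5797, 5349]
def qbC (a b : ℕ) : Bool := Nat.beq (qbAp a (qbAp b 0)) (qbAp b (qbAp a 0)) && Nat.beq (qbAp a (qbAp b 1)) (qbAp b (qbAp a 1)) && Nat.beq (qbAp a (qbAp b 2)) (qbAp b (qbAp a 2)) && Nat.beq (qbAp a (qbAp b 3)) (qbAp b (qbAp a 3)) && Nat.beq (qbAp a (qbAp b 4)) (qbAp b (qbAp a 4)) && Nat.beq (qbAp a (qbAp b 5)) (qbAp b (qbAp a 5))
def qbB (a b : ℕ) : Bool := Nat.beq (qbAp a (qbAp b (qbAp a 0))) (qbAp b (qbAp a (qbAp b 0))) && Nat.beq (qbAp a (qbAp b (qbAp a 1))) (qbAp b (qbAp a (qbAp b 1))) && Nat.beq (qbAp a (qbAp b (qbAp a 2))) (qbAp b (qbAp a (qbAp b 2))) && Nat.beq (qbAp a (qbAp b (qbAp a 3))) (qbAp b (qbAp a (qbAp b 3))) && Nat.beq (qbAp a (qbAp b (qbAp a 4))) (qbAp b (qbAp a (qbAp b 4))) && Nat.beq (qbAp a (qbAp b (qbAp a 5))) (qbAp b (qbAp a (qbAp b 5)))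
def qbD (a b c : ℕ) : Bool := Nat.beq (qbAp a (qbAp b (qbAp a (qbAp c 0)))) (qbAp c (qbAp a (qbAp b (qbAp a 0)))) && Nat.beq (qbAp a (qbAp b (qbAp a (qbAp c 1)))) (qbAp c (qbAp a (qbAp b (qbAp a 1)))) && Nat.beq (qbAp a (qbAp b (qbAp a (qbAp c 2)))) (qbAp c (qbAp a (qbAp b (qbAp a 2)))) && Nat.beq (qbAp a (qbAp b (qbAp a (qbAp c 3)))) (qbAp c (qbAp a (qbAp b (qbAp a 3)))) && Nat.beq (qbAp a (qbAp b (qbAp a (qbAp c 4)))) (qbAp c (qbAp a (qbAp b (qbAp a 4)))) && Nat.beq (qbAp a (qbAp b (qbAp a (qbAp c 5)))) (qbAp c (qbAp a (qbAp b (qbAp a 5))))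

theorem qb_chk : (qbL.all fun b7 => qbL.all fun b6 => !(qbB b7 b6) || Nat.beq b7 b6 || qbL.all fun b4 =>
    !(qbC b4 b7) || !(qbC b4 b6) || Nat.beq b4 b7 || qbL.all fun b5 => !(qbC b5 b7) || !(qbB b5 b6) || !(qbB b5 b4) ||
    Nat.beq b5 b7 || Nat.beq b5 b4 || qbL.all fun b3 => !(qbC b3 b7) || !(qbC b3 b6) || !(qbB b3 b4) || Nat.beq b3 b4 ||
    qbC b3 b5 || qbD b4 b3 b5) = true := by decide +kernel

theorem qb_ap (x : Perm (Fin 6)) (i : Fin 6) : qbAp (qbCode x) i = x i := by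
  have := (x 0).2; have := (x 1).2; have := (x 2).2; have := (x 3).2; have := (x 4).2; have := (x 5).2
  show qbCode x / 8 ^ (i : ℕ) % 8 = x i
  unfold qbCode
  fin_cases i <;> simp <;> omega

theorem qb_inj {x y : Perm (Fin 6)} (h : qbCode x = qbCode y) : x = y :=
  Equiv.ext fun i => Fin.ext (by rw [← qb_ap, h, qb_ap])

theorem qb_mem (x : Perm (Fin 6)) (h : x * x = 1) (h1 : x ≠ 1) : qbCode x ∈ qbL := by
  have k : ∀ a b : Fin 6, a ≠ b → ∀ c, a ≠ c → b ≠ c → ∀ d, a ≠ d → b ≠ d → c ≠ d → ∀ e, a ≠ e → b ≠ e → c ≠ e → d ≠ e →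
      ∀ f : Fin 6, ∀ n : ℕ, n = a + 8 * b + 64 * c + 512 * d + 4096 * e + 32768 * f → (∀ i : Fin 6, qbAp n (qbAp n i) = i) →
      n = qbCode 1 ∨ n ∈ qbL := by
    simp only [forall_eq]
    decide +kernel
  have n : ∀ i j, i ≠ j → x i ≠ x j := fun i j => x.injective.ne
  exact (k _ _ (n 0 1 (by decide)) _ (n 0 2 (by decide)) (n 1 2 (by decide)) _ (n 0 3 (by decide)) (n 1 3 (by decide))
    (n 2 3 (by decide)) _ (n 0 4 (by decide)) (n 1 4 (by decide)) (n 2 4 (by decide)) (n 3 4 (by decide)) (x 5) _ rfl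
    fun i => by
      change qbAp (qbCode x) (qbAp (qbCode x) i) = i
      rw [qb_ap, qb_ap, ← Perm.mul_apply, h, Perm.one_apply]).resolve_left fun e => h1 (qb_inj e)

theorem qb_all {P : Fin 6 → Prop} : (((((P 0 ∧ P 1) ∧ P 2) ∧ P 3) ∧ P 4) ∧ P 5) ↔ ∀ i, P i :=
  ⟨fun h i => by fin_cases i <;> simp_all, fun h => by simp_all⟩

theorem qb_C (x y : Perm (Fin 6)) : qbC (qbCode x) (qbCode y) = true ↔ x * y = y * x := by
  simp only [qbC, Bool.and_eq_true, Nat.beq_eq]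
  exact (qb_all (P := fun i => qbAp (qbCode x) (qbAp (qbCode y) i) = qbAp (qbCode y) (qbAp (qbCode x) i))).trans (by
    simp only [qb_ap, Perm.ext_iff, Perm.mul_apply, Fin.ext_iff])

theorem qb_B (x y : Perm (Fin 6)) : qbB (qbCode x) (qbCode y) = true ↔ x * y * x = y * x * y := by
  simp only [qbB, Bool.and_eq_true, Nat.beq_eq]
  exact (qb_all (P := fun i => qbAp (qbCode x) (qbAp (qbCode y) (qbAp (qbCode x) i)) =
    qbAp (qbCode y) (qbAp (qbCode x) (qbAp (qbCode y) i)))).trans (by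
      simp only [qb_ap, Perm.ext_iff, Perm.mul_apply, Fin.ext_iff])

theorem qb_D (x y z : Perm (Fin 6)) : qbD (qbCode x) (qbCode y) (qbCode z) = true ↔ x * y * x * z = z * (x * y * x) := by
  simp only [qbD, Bool.and_eq_true, Nat.beq_eq]
  exact (qb_all (P := fun i => qbAp (qbCode x) (qbAp (qbCode y) (qbAp (qbCode x) (qbAp (qbCode z) i))) =
    qbAp (qbCode z) (qbAp (qbCode x) (qbAp (qbCode y) (qbAp (qbCode x) i))))).trans (by
      simp only [qb_ap, Perm.ext_iff, Perm.mul_apply, Fin.ext_iff])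

theorem qb_s6 {b3 b4 b5 b6 b7 : Perm (Fin 6)} (s3 : b3 * b3 = 1) (s4 : b4 * b4 = 1) (s5 : b5 * b5 = 1) (s6 : b6 * b6 = 1)
    (s7 : b7 * b7 = 1) (n3 : b3 ≠ 1) (n4 : b4 ≠ 1) (n5 : b5 ≠ 1) (n6 : b6 ≠ 1) (n7 : b7 ≠ 1)
    (r76 : b7 * b6 * b7 = b6 * b7 * b6) (d76 : b7 ≠ b6) (c47 : b4 * b7 = b7 * b4) (c46 : b4 * b6 = b6 * b4) (d47 : b4 ≠ b7)
    (c57 : b5 * b7 = b7 * b5) (r56 : b5 * b6 * b5 = b6 * b5 * b6) (r54 : b5 * b4 * b5 = b4 * b5 * b4) (d57 : b5 ≠ b7)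
    (d54 : b5 ≠ b4) (c37 : b3 * b7 = b7 * b3) (c36 : b3 * b6 = b6 * b3) (r34 : b3 * b4 * b3 = b4 * b3 * b4) (d34 : b3 ≠ b4) :
    b3 * b5 = b5 * b3 ∨ b4 * b3 * b4 * b5 = b5 * (b4 * b3 * b4) := by
  have k := qb_chk
  have ne : ∀ {x y : Perm (Fin 6)}, x ≠ y → ¬ qbCode x = qbCode y := fun h e => h (qb_inj e)
  simp only [List.all_eq_true, Bool.or_eq_true, Bool.not_eq_true', Nat.beq_eq, or_assoc] at k
  have f : ∀ {b : Bool}, b = true → ¬ b = false := fun h => by simp [h]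
  have k1 := ((k _ (qb_mem _ s7 n7) _ (qb_mem _ s6 n6)).resolve_left (f ((qb_B _ _).2 r76))).resolve_left (ne d76)
  have k2 := (((k1 _ (qb_mem _ s4 n4)).resolve_left (f ((qb_C _ _).2 c47))).resolve_left
    (f ((qb_C _ _).2 c46))).resolve_left (ne d47)
  have k3 := (((((k2 _ (qb_mem _ s5 n5)).resolve_left (f ((qb_C _ _).2 c57))).resolve_left
    (f ((qb_B _ _).2 r56))).resolve_left (f ((qb_B _ _).2 r54))).resolve_left (ne d57)).resolve_left (ne d54)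
  exact (((((k3 _ (qb_mem _ s3 n3)).resolve_left (f ((qb_C _ _).2 c37))).resolve_left
    (f ((qb_C _ _).2 c36))).resolve_left (f ((qb_B _ _).2 r34))).resolve_left (ne d34)).imp (qb_C _ _).1 (qb_D _ _ _).1

theorem qb_cj {x y : Perm (Fin 6)} (x2 : x * x = 1) (x1 : x ≠ 1) (xs : Perm.sign x = 1) (y2 : y * y = 1) (y1 : y ≠ 1)
    (ys : Perm.sign y = 1) : IsConj x y := by
  have k : ∀ x : Perm (Fin 6), x * x = 1 → x ≠ 1 → Perm.sign x = 1 → x.cycleType = Multiset.replicate 2 2 := fun x x2 x1 xs => by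
    have h1 : orderOf x = 2 := orderOf_eq_prime (by rw [sq, x2]) x1
    obtain ⟨n, hn⟩ := Perm.cycleType_prime_order (h1 ▸ Nat.prime_two)
    have h2 := Perm.sum_cycleType x
    have h3 := Perm.sign_of_cycleType x
    have h4 : x.support.card ≤ 6 := (Finset.card_le_univ _).trans (by simp)
    rw [hn, Multiset.sum_replicate, h1, smul_eq_mul] at h2 h3
    rw [xs, Multiset.card_replicate] at h3
    have : n ≤ 2 := by omega
    rw [hn, h1]
    interval_cases n <;> first | rfl | exact absurd h3 (by decide)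
  rw [Perm.isConj_iff_cycleType_eq, k x x2 x1 xs, k y y2 y1 ys]

end Cfsg.Agent.S8R
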