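import Cfsg.Agent.S8R.QB0

/-! The relation `(a₃ a₅)² = 1` in the `Sym(8)` case. -/

set_option autoImplicit false

namespace Cfsg.Agent.S8R

open Equiv Subgroup Cfsg.Agent.BG

theorem qb_eq {C : Type*} [Group C] {x y : C} (c : x * y = y * x) (b : x * y * x = y * x * y) : x = y :=
  mul_left_cancel (a := x * y) (by rw [b, c])

theorem qb_abs {C : Type*} [Group C] (F : C →* Perm (Fin 6)) (hs : Function.Surjective F) {r : C}
    (hk : ∀ g, F g = 1 → g = 1 ∨ g = r) (rc : ∀ g, g * r = r * g) (rr : r * r = 1) {a3 a4 a5 a6 a7 : C}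
    (s3 : a3 * a3 = 1) (s4 : a4 * a4 = 1) (s5 : a5 * a5 = 1) (s6 : a6 * a6 = 1) (s7 : a7 * a7 = 1)
    (r76 : a7 * a6 * a7 = a6 * a7 * a6) (d76 : a7 ≠ a6) (c47 : a4 * a7 = a7 * a4) (c46 : a4 * a6 = a6 * a4)
    (c57 : a5 * a7 = a7 * a5) (r56 : a5 * a6 * a5 = a6 * a5 * a6) (d56 : a5 ≠ a6) (r54 : a5 * a4 * a5 = a4 * a5 * a4)
    (d54 : a5 ≠ a4) (c37 : a3 * a7 = a7 * a3) (c36 : a3 * a6 = a6 * a3) (r34 : a3 * a4 * a3 = a4 * a3 * a4) (d34 : a3 ≠ a4) :
    (a3 * a5) ^ 2 = 1 ∨ (a4 * a3 * a4 * a5) ^ 2 = 1 := by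
  have m2 : ∀ {x y z w : C}, x * y = z * w → F x * F y = F z * F w := fun h => by simpa using congrArg F h
  have m3 : ∀ {x y : C}, x * y * x = y * x * y → F x * F y * F x = F y * F x * F y := fun h => by simpa using congrArg F h
  have m1 : ∀ {x : C}, x * x = 1 → F x * F x = 1 := fun h => by simpa using congrArg F h
  have A : ∀ {x y : C}, x * x = 1 → y * y = 1 → x * y * x = y * x * y → x ≠ y → F x ≠ F y := fun {x y} hx hy b n e => by
    rcases hk (x * y) (by rw [map_mul, e, m1 hy]) with h | h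
    · exact n (mul_right_cancel (h.trans hy.symm))
    · have : y = x * r := by rw [← h, ← mul_assoc, hx, one_mul]
      exact n (qb_eq (by rw [this, mul_assoc x r, ← rc]) b)
  have N : ∀ {x y : Perm (Fin 6)}, x * y * x = y * x * y → x ≠ y → x ≠ 1 := fun b n e => n (qb_eq (by rw [e]; simp) b)
  have S : ∀ {x y : Perm (Fin 6)}, x * y * x = y * x * y → Perm.sign x = Perm.sign y := fun b =>
    qb_eq (mul_comm _ _) (by simpa only [map_mul] using congrArg Perm.sign b)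
  have D76 := A s7 s6 r76 d76
  have D56 := A s5 s6 r56 d56
  have D54 := A s5 s4 r54 d54
  have D34 := A s3 s4 r34 d34
  have D47 : F a4 ≠ F a7 := fun e => D54 (qb_eq (by rw [e, m2 c57]) (m3 r54))
  have D57 : F a5 ≠ F a7 := fun e => D54 (qb_eq (by rw [e, m2 c47]) (m3 r54))
  have fin : ∀ a, a * a = 1 → a * a7 = a7 * a → a * a6 = a6 * a → a * a4 * a = a4 * a * a4 → F a * F a5 = F a5 * F a →
      (a * a5) ^ 2 = 1 := fun a sa c7 c6 r4 c5 => by
    have sq2 : ∀ {x y : Perm (Fin 6)}, x * x = 1 → y * y = 1 → x * y = y * x → x * y * (x * y) = 1 := fun {x y} h1 h2 h3 => by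
      rw [mul_assoc, ← mul_assoc y, ← h3, mul_assoc x, h2, mul_one, h1]
    have ne : ∀ {x y : Perm (Fin 6)}, y * y = 1 → x ≠ y → x * y ≠ 1 := fun h n e => n (mul_right_cancel (e.trans h.symm))
    have e4 := S (m3 r4)
    have e5 := S (m3 r54)
    have e6 := S (m3 r56)
    have e7 := S (m3 r76)
    obtain ⟨c, hc⟩ := isConj_iff.1 (qb_cj (sq2 (m1 sa) (m1 s5) c5)
      (ne (m1 s5) fun e => D56 (qb_eq (by rw [← e, m2 c6]) (m3 r56))) (by rw [map_mul, e4, e5, Int.units_mul_self])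
      (sq2 (m1 sa) (m1 s7) (m2 c7)) (ne (m1 s7) fun e => D47 (qb_eq (m2 c47) (by rw [← e, m3 r4])))
      (by rw [map_mul, e4, e7, ← e6, e5, Int.units_mul_self]))
    obtain ⟨g, rfl⟩ := hs c
    have q7 : a * a7 * (a * a7) = 1 := by rw [mul_assoc, ← mul_assoc a7, ← c7, mul_assoc a, s7, mul_one, sa]
    have : (g * (a * a5) * g⁻¹) ^ 2 = 1 := by
      rcases hk (g * (a * a5) * g⁻¹ * (a * a7)⁻¹) (by simp only [map_mul, map_inv, hc, mul_inv_cancel]) with h | h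
      · rw [mul_inv_eq_one.1 h, sq, q7]
      · rw [mul_inv_eq_iff_eq_mul.1 h, sq, mul_assoc, ← mul_assoc (a * a7), rc, mul_assoc, q7, mul_one, rr]
    rwa [conj_pow, conj_eq_one_iff] at this
  refine (qb_s6 (m1 s3) (m1 s4) (m1 s5) (m1 s6) (m1 s7) (N (m3 r34) D34) (N (m3 r34).symm D34.symm) (N (m3 r54) D54)
    (N (m3 r56).symm D56.symm) (N (m3 r76) D76) (m3 r76) D76 (m2 c47) (m2 c46) D47 (m2 c57) (m3 r56) (m3 r54) D57 D54
    (m2 c37) (m2 c36) (m3 r34) D34).imp (fin a3 s3 c37 c36 r34) fun h => fin _ ?_ ?_ ?_ ?_ (by simpa only [map_mul] using h)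
  · rw [mul_assoc, ← mul_assoc a4 (a4 * a3), ← mul_assoc a4 a4, s4, one_mul, mul_assoc, ← mul_assoc a3, s3, one_mul, s4]
  · exact ((Commute.mul_left (Commute.mul_left c47 c37) c47 : Commute _ _)).eq
  · exact ((Commute.mul_left (Commute.mul_left c46 c36) c46 : Commute _ _)).eq
  · calc a4 * a3 * a4 * a4 * (a4 * a3 * a4) = a4 * (a3 * (a4 * a4) * a4 * a3) * a4 := by simp only [mul_assoc]
      _ = a4 * (a4 * a3 * a4) * a4 := by rw [s4, mul_one, r34]

theorem F1'.qb1 {G : Type*} [Group G] [Finite G] {ψ : K0 →* G} {s : G} (h : F1' ψ s) (e : s * ψ r0 * s⁻¹ = ψ q0)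
    (hR : ∃ f : centralizer ({ψ t0} : Set G) →* Perm (Fin 6), Function.Surjective f ∧ ∀ g, f g = 1 ↔ g.1 = 1 ∨ g.1 = ψ t0) :
    ∃ a3 : G, (a3 = s * ψ (1, swap 2 3) * s⁻¹ ∨ a3 = ψ t0 * (s * ψ (1, swap 2 3) * s⁻¹) * ψ t0) ∧
      (a3 * ψ (1, swap 2 3)) ^ 2 = 1 := by
  obtain ⟨f, fs, fk⟩ := hR
  obtain ⟨σ, hσ⟩ : ∃ σ : K0 →* G, ∀ x, σ x = s * ψ x * s⁻¹ := ⟨(MulAut.conj s).toMonoidHom.comp ψ, fun _ => rfl⟩
  have si : s⁻¹ = s := inv_eq_of_mul_eq_one_right h.ss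
  have σi : Function.Injective σ := fun x y hxy => h.inj (by simpa [hσ] using hxy)
  have e1 : ψ q0 = σ r0 := by rw [hσ, e]
  have e2 : ψ t0 = σ t0 := by rw [hσ, h.st]
  have e3 : ψ r0 = σ q0 := by rw [hσ, ← e, si, ← mul_assoc, ← mul_assoc, h.ss, one_mul, mul_assoc, h.ss, mul_one]
  have e4 : ψ (1, swap 1 2) = σ (z0 * r0 * z0⁻¹) := by
    rw [map_mul, map_mul, map_inv, ← e1, hσ, h.sz, ← map_inv, ← map_mul, ← map_mul]
    exact congrArg ψ (by decide +kernel)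
  obtain ⟨c, hc⟩ : ∃ c : G, c * ψ r0 * c⁻¹ = ψ t0 := ⟨ψ v0 * s, by
    rw [mul_inv_rev, mul_assoc (ψ v0), mul_assoc (ψ v0), ← mul_assoc (s * ψ r0), e, ← map_inv, ← map_mul, ← map_mul]
    exact congrArg ψ (by decide +kernel)⟩
  have mc : ∀ {x y : G}, x * y = y * x → x ∈ centralizer {y} := fun h => mem_centralizer_singleton_iff.2 h
  let κ : centralizer ({ψ r0} : Set G) →* centralizer ({ψ t0} : Set G) :=
    ((MulAut.conj c).toMonoidHom.comp (Subgroup.subtype _)).codRestrict _ fun x => mc (by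
      show c * x * c⁻¹ * ψ t0 = ψ t0 * (c * x * c⁻¹)
      rw [← hc, conj_mul, conj_mul, mem_centralizer_singleton_iff.1 x.2])
  have P : ∀ (χ : K0 →* G) {x y z w : K0}, x * y = z * w → χ x * χ y = χ z * χ w := fun χ _ _ _ _ h => by
    simpa using congrArg χ h
  have P3 : ∀ (χ : K0 →* G) {x y : K0}, x * y * x = y * x * y → χ x * χ y * χ x = χ y * χ x * χ y := fun χ _ _ h => by
    simpa using congrArg χ h
  have P1 : ∀ (χ : K0 →* G) {x : K0}, x * x = 1 → χ x * χ x = 1 := fun χ _ h => by simpa using congrArg χ h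
  have key := qb_abs (f.comp κ) (fs.comp fun g => ⟨⟨c⁻¹ * g * c, mc (by
      have : g * (c * ψ r0 * c⁻¹) = c * ψ r0 * c⁻¹ * g := by rw [hc]; exact mem_centralizer_singleton_iff.1 g.2
      calc c⁻¹ * g * c * ψ r0 = c⁻¹ * (g * (c * ψ r0 * c⁻¹)) * c := by group
        _ = _ := by rw [this]; group)⟩, Subtype.ext (show c * (c⁻¹ * g * c) * c⁻¹ = g by group)⟩)
    (r := ⟨ψ r0, mc rfl⟩) (fun g hg => ((fk _).1 hg).imp (fun e => Subtype.ext (conj_eq_one_iff.1 e))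
      fun e => Subtype.ext ((MulAut.conj c).injective (e.trans hc.symm)))
    (fun g => Subtype.ext (mem_centralizer_singleton_iff.1 g.2)) (Subtype.ext (P1 ψ (by decide +kernel)))
    (a3 := ⟨σ (1, swap 2 3), mc (e3 ▸ P σ (by decide +kernel))⟩) (a4 := ⟨ψ t0, mc (P ψ (by decide +kernel))⟩)
    (a5 := ⟨ψ (1, swap 2 3), mc (P ψ (by decide +kernel))⟩) (a6 := ⟨ψ (1, swap 1 2), mc (P ψ (by decide +kernel))⟩)
    (a7 := ⟨ψ q0, mc (P ψ (by decide +kernel))⟩)
    (Subtype.ext (P1 σ (by decide +kernel))) (Subtype.ext (P1 ψ (by decide +kernel))) (Subtype.ext (P1 ψ (by decide +kernel)))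
    (Subtype.ext (P1 ψ (by decide +kernel))) (Subtype.ext (P1 ψ (by decide +kernel))) (Subtype.ext (P3 ψ (by decide +kernel)))
    (fun e => absurd (h.inj (congrArg Subtype.val e)) (by decide +kernel)) (Subtype.ext (P ψ (by decide +kernel)))
    (Subtype.ext (P ψ (by decide +kernel))) (Subtype.ext (P ψ (by decide +kernel))) (Subtype.ext (P3 ψ (by decide +kernel)))
    (fun e => absurd (h.inj (congrArg Subtype.val e)) (by decide +kernel)) (Subtype.ext (P3 ψ (by decide +kernel)))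
    (fun e => absurd (h.inj (congrArg Subtype.val e)) (by decide +kernel))
    (Subtype.ext (show σ _ * ψ q0 = ψ q0 * σ _ from e1 ▸ P σ (by decide +kernel)))
    (Subtype.ext (show σ _ * ψ _ = ψ _ * σ _ from e4 ▸ P σ (by decide +kernel)))
    (Subtype.ext (show σ _ * ψ t0 * σ _ = ψ t0 * σ _ * ψ t0 from e2 ▸ P3 σ (by decide +kernel)))
    (fun e => absurd (σi ((congrArg Subtype.val e).trans e2)) (by decide +kernel))
  rcases key with k | k
  · exact ⟨_, .inl (hσ _), congrArg Subtype.val k⟩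
  · exact ⟨ψ t0 * σ (1, swap 2 3) * ψ t0, .inr (by rw [← hσ]), congrArg Subtype.val k⟩

end Cfsg.Agent.S8R
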