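import Cfsg.Agent.S8R.A

/-! The index two subgroup in the `Sym(8)` case (helper27). -/

set_option autoImplicit false

namespace Cfsg.Agent.S8R

open Equiv Subgroup Cfsg.Agent.BG

variable {G : Type*} [Group G]

theorem qc1_coc (S : Subgroup G) (g : G) (q : G ⧸ S) : (g • q).out⁻¹ * g * q.out ∈ S := by
  rw [mul_assoc, ← QuotientGroup.eq, QuotientGroup.out_eq', ← smul_eq_mul,
    ← MulAction.Quotient.smul_mk, QuotientGroup.out_eq']

/-- The transfer as an explicit product. -/
noncomputable def qc1_trf (S : Subgroup G) [Fintype (G ⧸ S)] {A : Type*} [CommGroup A]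
    (φ : S →* A) : G →* A :=
  MonoidHom.mk' (fun g => ∏ q : G ⧸ S, φ ⟨_, qc1_coc S g q⟩) fun g h => by
    rw [← Equiv.prod_comp (MulAction.toPerm h) fun q => φ ⟨_, qc1_coc S g q⟩,
      ← Finset.prod_mul_distrib]
    refine Finset.prod_congr rfl fun q _ => ?_
    rw [← map_mul]
    congr 1
    ext
    simp [mul_smul, mul_assoc]

/-- An involution fixing exactly one coset of `S` and outside a subgroup of index two of `S`. -/
theorem qc1_idx [Finite G] {S : Subgroup G} (χ : S →* ℤˣ) {y : G} (hy : y * y = 1) (hyS : y ∈ S)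
    (h1 : χ ⟨y, hyS⟩ = -1) (hu : ∀ g : G, g⁻¹ * y * g ∈ S → g ∈ S) :
    ∃ H : Subgroup G, H.index = 2 ∧ y ∉ H := by
  classical
  haveI := Fintype.ofFinite (G ⧸ S)
  have hyy : ∀ q : G ⧸ S, y • y • q = q := fun q => by rw [← mul_smul, hy, one_smul]
  have hf : ∀ q : G ⧸ S, y • q = q → q.out ∈ S := fun q hq => hu _ (by
    have := qc1_coc S y q
    rwa [hq] at this)
  have hV : qc1_trf S χ y = -1 := by
    change ∏ q : G ⧸ S, χ ⟨_, qc1_coc S y q⟩ = -1
    have h0 : y • ((1 : G) : G ⧸ S) = ((1 : G) : G ⧸ S) := by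
      rw [MulAction.Quotient.smul_mk, QuotientGroup.eq]
      simpa using hyS
    have hs : (Finset.univ.filter fun q : G ⧸ S => y • q = q) = {((1 : G) : G ⧸ S)} := by
      ext q
      simp only [Finset.mem_filter, Finset.mem_univ, true_and, Finset.mem_singleton]
      refine ⟨fun hq => ?_, fun hq => hq ▸ h0⟩
      rw [← QuotientGroup.out_eq' q, QuotientGroup.eq]
      simpa using hf q hq
    rw [← Finset.prod_filter_mul_prod_filter_not Finset.univ (fun q : G ⧸ S => y • q = q),
      Finset.prod_involution (s := Finset.univ.filter fun q : G ⧸ S => ¬ y • q = q)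
        (fun q _ => y • q)
        (fun q _ => by
          rw [← map_mul, ← map_one χ]
          congr 1
          ext
          simp only [hyy, coe_mul, coe_one]
          calc _ = (y • q).out⁻¹ * (y * y) * (y • q).out := by group
            _ = 1 := by rw [hy]; group)
        (fun q hq _ => by simpa using hq) (fun q hq => by simpa [hyy, eq_comm] using hq)
        (fun q _ => hyy q), mul_one, hs, Finset.prod_singleton]
    have e : (⟨_, qc1_coc S y ((1 : G) : G ⧸ S)⟩ : S) =
        (⟨_, hf _ h0⟩ : S)⁻¹ * ⟨y, hyS⟩ * ⟨_, hf _ h0⟩ := Subtype.ext (by simp [h0])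
    rw [e, map_mul, map_mul, map_inv, h1, mul_comm, ← mul_assoc, mul_inv_cancel, one_mul]
  refine ⟨(qc1_trf S χ).ker, ?_, fun hm => ?_⟩
  · have : (qc1_trf S χ).range = ⊤ := by
      rw [eq_top_iff]
      intro u _
      rcases Int.units_eq_one_or u with rfl | rfl
      · exact one_mem _
      · exact ⟨y, hV⟩
    rw [Subgroup.index_ker, this, Subgroup.card_top, Nat.card_eq_fintype_card, Fintype.card_units_int]
  · rw [MonoidHom.mem_ker, hV] at hm
    exact absurd hm (by decide)

theorem qc1_cls {i : Perm (Fin 8)} (hi : orderOf i = 2) : IsConj i (swap 6 7) ∨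
    IsConj i (swap 3 4 * swap 6 7) ∨ IsConj i (swap 0 3 * swap 1 4 * swap 2 5) ∨
    IsConj i (swap 0 3 * swap 1 4 * swap 2 5 * swap 6 7) := by
  obtain ⟨n, hn⟩ := Perm.cycleType_prime_order (hi ▸ Nat.prime_two)
  have h2 := Perm.sum_cycleType i
  have h4 : i.support.card ≤ 8 := (Finset.card_le_univ _).trans (by simp)
  rw [hn, Multiset.sum_replicate, hi, smul_eq_mul] at h2
  have o : ∀ x : Perm (Fin 8), x ^ 2 = 1 → x ≠ 1 → orderOf x = 2 := fun x a b => orderOf_eq_prime a b
  have h5 : n = 0 ∨ n = 1 ∨ n = 2 ∨ n = 3 := by omega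
  rcases h5 with rfl | rfl | rfl | rfl
  · exact Or.inl (A8R.pn_conj Nat.prime_two hi (o _ (by decide +kernel) (by decide +kernel))
      (h2.symm.trans (by decide +kernel)))
  · exact Or.inr (Or.inl (A8R.pn_conj Nat.prime_two hi (o _ (by decide +kernel) (by decide +kernel))
      (h2.symm.trans (by decide +kernel))))
  · exact Or.inr (Or.inr (Or.inl (A8R.pn_conj Nat.prime_two hi
      (o _ (by decide +kernel) (by decide +kernel)) (h2.symm.trans (by decide +kernel)))))
  · exact Or.inr (Or.inr (Or.inr (A8R.pn_conj Nat.prime_two hi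
      (o _ (by decide +kernel) (by decide +kernel)) (h2.symm.trans (by decide +kernel)))))

/-- The conjugates of `t` in the range are the transpositions. -/
theorem FS.conj_swap {ψ : K0 →* G} {s : G} {φ : Perm (Fin 8) →* G} (h : FS ψ s φ)
    {i : Perm (Fin 8)} (c : IsConj (ψ t0) (φ i)) : IsConj i (swap 6 7) := by
  have hi : orderOf i = 2 := by
    obtain ⟨g, hg⟩ := isConj_iff.1 c
    rw [← orderOf_injective φ h.injφ, ← hg, ← h.et]
    have := (MulAut.conj g).orderOf_eq (φ (swap 6 7))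
    rw [MulAut.conj_apply] at this
    rw [this, orderOf_injective φ h.injφ]
    exact orderOf_eq_prime (by decide +kernel) (by decide +kernel)
  have ey : ψ (z0 * y0) = φ (swap 0 2 * swap 0 1 * (swap 3 5 * swap 3 4)) := by
    rw [map_mul ψ, map_mul φ (swap 0 2 * swap 0 1), h.ez, h.ey]
  have key : ∀ w : Perm (Fin 8), IsConj i w → w * (swap 0 2 * swap 0 1 * (swap 3 5 * swap 3 4)) =
      (swap 0 2 * swap 0 1 * (swap 3 5 * swap 3 4)) * w → w = swap 6 7 := by
    intro w cw e
    apply h.injφ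
    rw [h.et]
    exact h.nt2 _ (c.trans (φ.map_isConj cw)) (by rw [ey, ← map_mul, e, map_mul])
  rcases qc1_cls hi with a | a | a | a
  · exact a
  · have := c.trans (φ.map_isConj a)
    rw [map_mul, h.eq, h.et, ← map_mul] at this
    exact absurd this h.nt1
  · exact absurd (key _ a (by decide +kernel)) (by decide +kernel)
  · exact absurd (key _ a (by decide +kernel)) (by decide +kernel)

theorem FS.idx2 [Finite G] {ψ : K0 →* G} {s : G} {φ : Perm (Fin 8) →* G} (h : FS ψ s φ) :
    ∃ H : Subgroup G, H.index = 2 ∧ ψ t0 ∉ H := by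
  have hm : ψ t0 ∈ φ.range := ⟨_, h.et⟩
  refine qc1_idx (S := φ.range)
    (Perm.sign.comp (MonoidHom.ofInjective h.injφ).symm.toMonoidHom) ?_ hm ?_ ?_
  · rw [← map_mul, show t0 * t0 = 1 by decide +kernel, map_one]
  · have : (MonoidHom.ofInjective h.injφ).symm ⟨ψ t0, hm⟩ = swap 6 7 := by
      rw [MulEquiv.symm_apply_eq]
      exact Subtype.ext h.et.symm
    change Perm.sign ((MonoidHom.ofInjective h.injφ).symm ⟨ψ t0, hm⟩) = -1
    rw [this, Perm.sign_swap (by decide)]
  · rintro g ⟨i, hi⟩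
    have c : IsConj (ψ t0) (φ i) := isConj_iff.2 ⟨g⁻¹, by rw [hi, inv_inv]⟩
    obtain ⟨c, hc⟩ := isConj_iff.1 (h.conj_swap c)
    have e : φ c * (g⁻¹ * ψ t0 * g) * (φ c)⁻¹ = ψ t0 := by
      rw [← hi, ← map_inv, ← map_mul, ← map_mul, hc, h.et]
    have m := h.ct (g * (φ c)⁻¹) (by
      calc g * (φ c)⁻¹ * ψ t0 = g * (φ c)⁻¹ * (φ c * (g⁻¹ * ψ t0 * g) * (φ c)⁻¹) := by rw [e]
        _ = _ := by group)
    have := φ.range.mul_mem m ⟨c, rfl⟩
    rwa [inv_mul_cancel_right] at this

end Cfsg.Agent.S8R
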