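import Cfsg.Agent.S8R.A
import Cfsg.Agent.A8R.PG0

/-! The `Alt(8)` frame inside the index 2 subgroup, `FS.f2`, and `FS.fin_of`. (helper28) -/

set_option autoImplicit false

namespace Cfsg.Agent.S8R

open Equiv Subgroup Cfsg.Agent.A8R

variable {G : Type*} [Group G] {ψ : K0 →* G} {s : G} {φ : Perm (Fin 8) →* G}

theorem FS.qc_mem (h : FS ψ s φ) {H : Subgroup G} (hi : H.index = 2) (ht : ψ t0 ∉ H) (σ : Perm (Fin 8)) :
    φ σ ∈ H ↔ Perm.sign σ = 1 := by
  have := H.normal_of_index_eq_two hi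
  induction σ using Perm.swap_induction_on with
  | one => simp
  | swap_mul f x y e ih =>
    have k : φ (swap x y) ∉ H := fun m => by
      obtain ⟨c, hc⟩ := isConj_iff.1 (Perm.isConj_swap e (show (6 : Fin 8) ≠ 7 by decide))
      refine ht ?_
      rw [← h.et, ← hc, map_mul, map_mul, map_inv]
      exact this.conj_mem _ m _
    have ih' : φ f ∈ H ↔ Perm.sign f = 1 := ih
    rw [map_mul, mul_mem_iff_of_index_two hi, ih', map_mul, Perm.sign_swap e]
    rcases Int.units_eq_one_or (Perm.sign f) with a | a <;> simp [a, k]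

theorem FS.qc_n3 (h : FS ψ s φ) (x : A8) (hx : orderOf x = 3) (g : G)
    (hg : g * φ x * g⁻¹ ∈ zpowers (φ x)) : g ∈ φ.range := by
  have e1 : φ pz.1 = ψ z0 := h.ez
  have e2 : φ py.1 = ψ y0 := h.ey
  have nz : ∀ g : G, g * ψ z0 * g⁻¹ ∈ zpowers (ψ z0) → g ∈ φ.range := fun g hg => h.le (h.nz g hg)
  have e12 : φ (pz * py).1 = ψ (z0 * y0) := by rw [Subgroup.coe_mul, map_mul, map_mul, e1, e2]
  have ny : ∀ g : G, g * ψ (z0 * y0) * g⁻¹ ∈ zpowers (ψ (z0 * y0)) → g ∈ φ.range := by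
    intro g hg
    rcases h.ny g hg with h1 | h1
    · exact nz g h1
    · obtain ⟨k, hk⟩ := mem_zpowers_iff.1 h1
      have h2 : (s⁻¹ * g) * ψ z0 * (s⁻¹ * g)⁻¹ ∈ zpowers (ψ z0) := by
        refine mem_zpowers_iff.2 ⟨k, ?_⟩
        rw [← h.sz, conj_zpow] at hk
        calc ψ z0 ^ k = s⁻¹ * (s * ψ z0 ^ k * s⁻¹) * s := by group
          _ = _ := by rw [hk]; group
      have h3 := φ.range.mul_mem h.sm (nz _ h2)
      rwa [mul_inv_cancel_left] at h3
  have back : ∀ (c : Perm (Fin 8)) (g : G), φ c * g * (φ c)⁻¹ ∈ φ.range → g ∈ φ.range := by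
    intro c g hg
    have := φ.range.mul_mem (φ.range.mul_mem (φ.range.inv_mem ⟨c, rfl⟩) hg) ⟨c, rfl⟩
    have e : (φ c)⁻¹ * (φ c * g * (φ c)⁻¹) * φ c = g := by group
    rwa [e] at this
  rcases cls3 x hx with hc | hc
  · obtain ⟨c, hc⟩ := isConj_iff.1 hc
    have hc' : φ c * φ x * (φ c)⁻¹ = ψ z0 := by
      rw [← e1, ← hc, Subgroup.coe_mul, Subgroup.coe_mul, Subgroup.coe_inv, map_mul, map_mul, map_inv]
    exact back c g (nz _ (pg_conj hc' hg))
  · obtain ⟨c, hc⟩ := isConj_iff.1 hc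
    have hc' : φ c * φ x * (φ c)⁻¹ = ψ (z0 * y0) := by
      rw [← e12, ← hc, Subgroup.coe_mul, Subgroup.coe_mul, Subgroup.coe_inv, map_mul, map_mul, map_inv]
    exact back c g (ny _ (pg_conj hc' hg))

theorem qc_card (H : Subgroup G) (x : H) :
    Nat.card (centralizer ({x} : Set H)) = Nat.card (H.subgroupOf (centralizer ({x.1} : Set G))) := by
  refine Nat.card_congr ⟨fun a => ⟨⟨a.1.1, mem_centralizer_singleton_iff.2
      (congrArg Subtype.val (mem_centralizer_singleton_iff.1 a.2))⟩, a.1.2⟩,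
    fun a => ⟨⟨a.1.1, a.2⟩, mem_centralizer_singleton_iff.2 (Subtype.ext (mem_centralizer_singleton_iff.1 a.1.2))⟩,
    fun _ => rfl, fun _ => rfl⟩

theorem FS.f2 [Finite G] (h : FS ψ s φ) {H : Subgroup G} (hi : H.index = 2) (ht : ψ t0 ∉ H) :
    ∃ ρ : A8 →* H, (∀ x, (ρ x).1 = φ x.1) ∧ F2 ρ := by
  have hn := H.normal_of_index_eq_two hi
  let ρ : A8 →* H := (φ.comp A8.subtype).codRestrict H fun x =>
    (h.qc_mem hi ht x.1).2 (Perm.mem_alternatingGroup.1 x.2)
  have hρ : ∀ x, (ρ x).1 = φ x.1 := fun _ => rfl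
  have inj : Function.Injective ρ := fun a b e => Subtype.ext (h.injφ (by rw [← hρ, ← hρ, e]))
  have h9 : ∀ i : H, orderOf i = 2 → ¬ 9 ∣ Nat.card (centralizer ({i} : Set H)) := fun i o d => by
    rw [qc_card] at d
    obtain ⟨c, hc⟩ := isConj_iff.1 (h.h9 i.1 (by rw [Subgroup.orderOf_coe, o])
      (d.trans (card_subgroup_dvd_card _))).symm
    exact ht (hc ▸ hn.conj_mem _ i.2 c)
  refine ⟨ρ, hρ, inj, fun x hx g hg => ?_, h9, ?_⟩
  · obtain ⟨k, hk⟩ := mem_zpowers_iff.1 hg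
    obtain ⟨σ, e⟩ := h.qc_n3 x hx g.1 (mem_zpowers_iff.2 ⟨k, by simpa [hρ] using congrArg Subtype.val hk⟩)
    exact ⟨⟨σ, Perm.mem_alternatingGroup.2 ((h.qc_mem hi ht σ).1 (e ▸ g.2))⟩, Subtype.ext e⟩
  · have := Fact.mk Nat.prime_three
    have oz : orderOf (ρ pz) = 3 := by
      rw [orderOf_injective ρ inj]; exact orderOf_eq_prime (by decide +kernel) (by decide +kernel)
    have oy : orderOf (ρ (pz * py)) = 3 := by
      rw [orderOf_injective ρ inj]; exact orderOf_eq_prime (by decide +kernel) (by decide +kernel)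
    have ov : orderOf (ρ pv) = 2 := by
      rw [orderOf_injective ρ inj]; exact orderOf_eq_prime (by decide +kernel) (by decide +kernel)
    refine nc oz oy ov (Commute.map (show pz * pv = pv * pz by decide +kernel) ρ)
      (Commute.map (show pz * py * pt = pt * (pz * py) by decide +kernel) ρ) h9 ?_ ?_
    · have m : ∀ l : A8, l * pz = pz * l → ρ l ∈ centralizer ({ρ pz} : Set H) := fun l hl => by
        rw [mem_centralizer_singleton_iff, ← map_mul, ← map_mul, hl]
      refine pg_four (e := (⟨ρ pv, m pv (by decide +kernel)⟩ : centralizer ({ρ pz} : Set H)))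
        (f := ⟨ρ pv2, m _ (by decide +kernel)⟩) (Subtype.ext ?_) (Subtype.ext ?_) (Subtype.ext ?_) (fun e => ?_)
        (fun e => ?_) (fun e => ?_)
      · change ρ pv * ρ pv = 1
        rw [← map_mul, show pv * pv = 1 by decide +kernel, map_one]
      · change ρ pv2 * ρ pv2 = 1
        rw [← map_mul, show pv2 * pv2 = 1 by decide +kernel, map_one]
      · change ρ pv2 * ρ pv = ρ pv * ρ pv2
        rw [← map_mul, ← map_mul, show pv2 * pv = pv * pv2 by decide +kernel]
      · have e' : ρ pv = ρ 1 := by rw [map_one]; exact congrArg Subtype.val e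
        exact absurd (inj e') (by decide +kernel)
      · have e' : ρ pv2 = ρ 1 := by rw [map_one]; exact congrArg Subtype.val e
        exact absurd (inj e') (by decide +kernel)
      · have e' : ρ pv = ρ pv2 := congrArg Subtype.val e
        exact absurd (inj e') (by decide +kernel)
    · have e12 : (ρ (pz * py)).1 = ψ (z0 * y0) := by
        rw [hρ, Subgroup.coe_mul, map_mul, map_mul, ← h.ez, ← h.ey]; rfl
      rw [qc_card, e12]
      have m : ψ t0 ∈ centralizer ({ψ (z0 * y0)} : Set G) := by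
        rw [mem_centralizer_singleton_iff, ← map_mul, ← map_mul, show t0 * (z0 * y0) = z0 * y0 * t0 by decide +kernel]
      have c := (H.subgroupOf (centralizer ({ψ (z0 * y0)} : Set G))).card_mul_index
      have d : (H.subgroupOf (centralizer ({ψ (z0 * y0)} : Set G))).index ∣ 2 := hi ▸ relIndex_dvd_index_of_normal H _
      rcases (Nat.dvd_prime Nat.prime_two).1 d with a | a
      · exact absurd ((index_eq_one.1 a).ge (mem_top ⟨_, m⟩)) ht
      · rw [a, h.hy] at c
        omega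

theorem FS.fin_of [Finite G] (h : FS ψ s φ) {H : Subgroup G} (hi : H.index = 2) (ht : ψ t0 ∉ H)
    (surj : ∀ ρ : A8 →* H, F2 ρ → Function.Surjective ρ) : Nonempty (G ≃* Perm (Fin 8)) := by
  obtain ⟨ρ, hρ, f⟩ := h.f2 hi ht
  have k : ∀ g ∈ H, g ∈ φ.range := fun g hg => by
    obtain ⟨x, e⟩ := surj ρ f ⟨g, hg⟩
    exact ⟨x.1, (hρ x).symm.trans (congrArg Subtype.val e)⟩
  refine ⟨(MulEquiv.ofBijective φ ⟨h.injφ, fun g => ?_⟩).symm⟩
  by_cases m : g ∈ H
  · exact k g m
  · have := φ.range.mul_mem (k (g * ψ t0) ((mul_mem_iff_of_index_two hi).2 (iff_of_false m ht)))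
      (φ.range.inv_mem ⟨_, h.et⟩)
    rwa [mul_inv_cancel_right] at this

end Cfsg.Agent.S8R
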