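import Cfsg.Agent.S8R.A

/-! The exceptional case of the 3-local recognition of `Sym(8)`: `C(t)` normalizes `D`. -/

set_option autoImplicit false

namespace Cfsg.Agent.S8R

open Equiv Subgroup Cfsg.Agent.BG

/-- the facts in `Sym(6)` -/
def S6P : Prop := ∀ {z y q s : Perm (Fin 6)}, z^3 = 1 → z ≠ 1 → s*s = 1 → s*z*s⁻¹ = y → z*y = y*z → y ≠ z → y ≠ z⁻¹ → q*q = 1 →
  q*z = z*q → q*y*q⁻¹ = y⁻¹ → ∃ e, e^3 = 1 ∧ e*q = q*e ∧ e*z ≠ z*e ∧ (e*z⁻¹)^2 = 1 ∧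
  (∀ e', e'^3 = 1 → e'*q = q*e' → e' ≠ z → (e'*z⁻¹)^2 = 1 → e' = e ∨ e' = z*e*z⁻¹ ∨ e' = z*z*e*(z*z)⁻¹) ∧
  (s*q*s⁻¹*(e*z⁻¹))^2 ≠ 1 ∧ (s*q*s⁻¹*(e*z⁻¹))^4 = 1 ∧ (∃ c, c*(q*s)*c⁻¹ = s*q*s⁻¹*(e*z⁻¹)*q) ∧
  ∃ d, d*(q*(s*q*s⁻¹*(e*z⁻¹))^2)*d⁻¹ ≠ 1 ∧ d*(q*(s*q*s⁻¹*(e*z⁻¹))^2)*d⁻¹*(z*y) = z*y*(d*(q*(s*q*s⁻¹*(e*z⁻¹))^2)*d⁻¹)

variable {G : Type*} [Group G] [Finite G] {ψ : K0 →* G} {s : G}

theorem qd2_sign : ∀ g : Perm (Fin 6), g ^ 6 = 1 → g ^ 2 ≠ 1 → g ^ 3 ≠ 1 → Perm.sign g = -1 := by decide +kernel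

theorem qd2_nsq {a z : Perm (Fin 6)} (z3 : z ^ 3 = 1) (z1 : z ≠ 1) (h4 : a * a * (a * a) = 1) (h2 : a * a ≠ 1)
    (hc : a * a * z = z * (a * a)) : False := by
  have c : Commute (a * a) z := hc
  have q2 : (a * a) ^ 2 = 1 := by rw [sq, h4]
  have := qd2_sign (a * a * z) (by
      have e1 : (a * a) ^ 6 = 1 := (pow_mul (a * a) 2 3).trans (by rw [q2, one_pow])
      have e2 : z ^ 6 = 1 := (pow_mul z 3 2).trans (by rw [z3, one_pow])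
      rw [c.mul_pow, e1, e2, one_mul])
    (by
      rw [c.mul_pow, q2, one_mul]
      exact fun e => z1 (by rw [pow_succ, e, one_mul] at z3; exact z3))
    (by rw [c.mul_pow, z3, mul_one, pow_succ, q2, one_mul]; exact h2)
  have hz : Perm.sign z = 1 := by
    have := congrArg Perm.sign z3
    rw [map_pow, map_one] at this
    rcases Int.units_eq_one_or (Perm.sign z) with e | e
    · exact e
    · rw [e] at this; exact absurd this (by decide)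
  rw [map_mul, map_mul, hz, Int.units_mul_self, mul_one] at this
  exact absurd this (by decide)

theorem F1'.qd2 (h : F1' ψ s) (s6 : S6P) (e : s * ψ r0 * s⁻¹ = ψ (q0 * t0)) (f : centralizer ({ψ t0} : Set G) →* Perm (Fin 6))
    (fs : Function.Surjective f) (fk : ∀ g, f g = 1 ↔ g.1 = 1 ∨ g.1 = ψ t0) : False := by
  have si : s⁻¹ = s := inv_eq_of_mul_eq_one_right h.ss
  have mem : ∀ {g : G}, g * ψ t0 = ψ t0 * g → g ∈ centralizer ({ψ t0} : Set G) := fun e => mem_centralizer_singleton_iff.2 e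
  have ct : ∀ g : centralizer ({ψ t0} : Set G), g.1 * ψ t0 = ψ t0 * g.1 := fun g => mem_centralizer_singleton_iff.1 g.2
  have m2 : ∀ {a b c d : K0}, a * b = c * d → ψ a * ψ b = ψ c * ψ d := fun e => by rw [← map_mul, ← map_mul, e]
  have m1 : ∀ {a b c : K0}, a * b * a⁻¹ = c → ψ a * ψ b * (ψ a)⁻¹ = ψ c := fun e => by rw [← map_inv, ← map_mul, ← map_mul, e]
  have tt : ψ t0 * ψ t0 = 1 := by rw [← map_mul, show t0 * t0 = 1 by decide, map_one]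
  have t1 : ψ t0 ≠ 1 := fun e => absurd (h.inj (e.trans (map_one ψ).symm)) (by decide)
  have ker : ∀ a b : centralizer ({ψ t0} : Set G), f a = f b → a.1 = b.1 ∨ a.1 = b.1 * ψ t0 := fun a b e => by
    rcases (fk (b⁻¹ * a)).1 (by rw [map_mul, map_inv, e, inv_mul_cancel]) with e | e
    · exact .inl (inv_mul_eq_one.1 e).symm
    · exact .inr (inv_mul_eq_iff_eq_mul.1 e)
  have un : ∀ a b : centralizer ({ψ t0} : Set G), a.1 ^ 3 = 1 → b.1 ^ 3 = 1 → f a = f b → a.1 = b.1 := fun a b ha hb e =>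
    (ker a b e).resolve_right fun e => t1 (by
      rwa [e, Commute.mul_pow (ct b), hb, one_mul, pow_succ, sq, tt, one_mul] at ha)
  have ne : ∀ {a : K0} (ha), a ≠ 1 → a ≠ t0 → f ⟨ψ a, ha⟩ ≠ 1 := fun ha a1 a2 e =>
    ((fk _).1 e).elim (fun e => a1 (h.inj (e.trans (map_one ψ).symm))) fun e => a2 (h.inj e)
  set Z : centralizer ({ψ t0} : Set G) := ⟨ψ z0, mem (m2 (by decide))⟩ with hZ
  set Y : centralizer ({ψ t0} : Set G) := ⟨ψ y0, mem (m2 (by decide))⟩ with hY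
  set Q : centralizer ({ψ t0} : Set G) := ⟨ψ q0, mem (m2 (by decide))⟩ with hQ
  set S : centralizer ({ψ t0} : Set G) := ⟨s, mem (mul_inv_eq_iff_eq_mul.1 h.st)⟩ with hS
  have z3 : ψ z0 ^ 3 = 1 := by rw [← map_pow, show z0 ^ 3 = 1 by decide, map_one]
  have Z3 : f Z ^ 3 = 1 := by rw [← map_pow, show Z ^ 3 = 1 from Subtype.ext z3, map_one]
  have Z1 : f Z ≠ 1 := ne _ (by decide) (by decide)
  have qq : ψ q0 * ψ q0 = 1 := by rw [← map_mul, show q0 * q0 = 1 by decide, map_one]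
  have QZ : f Q * f Z = f Z * f Q := by rw [← map_mul, ← map_mul]; exact congrArg f (Subtype.ext (m2 (by decide)))
  have QQ : f Q * f Q = 1 := by rw [← map_mul, show Q * Q = 1 from Subtype.ext qq, map_one]
  obtain ⟨e0, e3, eq, ez, ex, eu, -, -, ⟨c0, hc⟩, d0, hd1, hd⟩ := s6 (z := f Z) (y := f Y) (q := f Q) (s := f S) Z3 Z1
    (by rw [← map_mul, show S * S = 1 from Subtype.ext h.ss, map_one])
    (by rw [← map_inv, ← map_mul, ← map_mul]; exact congrArg f (Subtype.ext h.sz))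
    (by rw [← map_mul, ← map_mul]; exact congrArg f (Subtype.ext (m2 (by decide))))
    (fun e => ne (a := y0 * z0⁻¹) (mem (m2 (by decide))) (by decide) (by decide) (by
      rw [← mul_inv_eq_one, ← map_inv, ← map_mul] at e; rw [← e]; exact congrArg f (Subtype.ext (by simp [hY, hZ]))))
    (fun e => ne (a := y0 * z0) (mem (m2 (by decide))) (by decide) (by decide) (by
      rw [← mul_eq_one_iff_eq_inv, ← map_mul] at e; rw [← e]; exact congrArg f (Subtype.ext (by simp [hY, hZ]))))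
    QQ QZ
    (by rw [← map_inv, ← map_inv, ← map_mul, ← map_mul]; exact congrArg f (Subtype.ext ((m1 (by decide)).trans (map_inv ψ y0))))
  obtain ⟨E0, rfl⟩ := fs e0
  obtain ⟨c, rfl⟩ := fs c0
  obtain ⟨d, rfl⟩ := fs d0
  obtain ⟨E, E3, hE⟩ : ∃ E : centralizer ({ψ t0} : Set G), E.1 ^ 3 = 1 ∧ f E0 = f E := by
    refine ⟨E0 ^ 4, ?_, by rw [map_pow, pow_succ, e3, one_mul]⟩
    rw [coe_pow, ← pow_mul, mul_comm, pow_mul]
    rcases (fk (E0 ^ 3)).1 (by rw [map_pow, e3]) with e | e <;> rw [coe_pow] at e <;> rw [e]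
    · exact one_pow _
    · rw [show 4 = 2 * 2 from rfl, pow_mul, sq (ψ t0), tt, one_pow]
  rw [hE] at e3 eq ez ex eu hc hd1 hd
  have kq : ψ v0 * ψ q0 * (ψ v0)⁻¹ = ψ t0 := m1 (by decide)
  have kt : ψ v0 * ψ t0 * (ψ v0)⁻¹ = ψ q0 := m1 (by decide)
  have kz : ψ v0 * ψ z0 * (ψ v0)⁻¹ = ψ z0 := m1 (by decide)
  have kk : ψ v0 * ψ v0 = 1 := by rw [← map_mul, show v0 * v0 = 1 by decide, map_one]
  have Eq : E.1 * ψ q0 = ψ q0 * E.1 := by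
    rcases ker (E * Q * E⁻¹) Q (by rw [map_mul, map_mul, map_inv, eq, mul_inv_cancel_right]) with e | e
    · exact mul_inv_eq_iff_eq_mul.1 e
    · exact absurd ((isConj_iff.2 ⟨_, kt⟩).trans (isConj_iff.2 ⟨E.1, e.trans (map_mul ψ q0 t0).symm⟩)) h.nt1
  have cj : ∀ {a b c : G}, a * b = b * a → ψ v0 * b * (ψ v0)⁻¹ = c → ψ v0 * a * (ψ v0)⁻¹ * c = c * (ψ v0 * a * (ψ v0)⁻¹) :=
    fun {a b c} e1 e2 => by
      rw [← e2, show ψ v0 * a * (ψ v0)⁻¹ * (ψ v0 * b * (ψ v0)⁻¹) = ψ v0 * (a * b) * (ψ v0)⁻¹ by group, e1]; group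
  set E' : centralizer ({ψ t0} : Set G) := ⟨ψ v0 * E.1 * (ψ v0)⁻¹, mem (cj Eq kq)⟩ with hE'
  have E'3 : E'.1 ^ 3 = 1 := by show (ψ v0 * E.1 * (ψ v0)⁻¹) ^ 3 = 1; rw [conj_pow, E3, mul_one, mul_inv_cancel]
  have nEZ : E.1 * ψ z0 ≠ ψ z0 * E.1 := fun e => ez (by rw [← map_mul, ← map_mul]; exact congrArg f (Subtype.ext e))
  have ki : (ψ v0)⁻¹ = ψ v0 := inv_eq_of_mul_eq_one_right kk
  have kkk : ∀ a : G, ψ v0 * (ψ v0 * a * (ψ v0)⁻¹) * (ψ v0)⁻¹ = a := fun a => by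
    rw [show ψ v0 * (ψ v0 * a * (ψ v0)⁻¹) * (ψ v0)⁻¹ = ψ v0 * ψ v0 * a * (ψ v0 * ψ v0)⁻¹ by group, kk]; group
  have xk : (E' * Z⁻¹).1 * (E' * Z⁻¹).1 = ψ v0 * ((E * Z⁻¹) ^ 2).1 * (ψ v0)⁻¹ := by
    show ψ v0 * E.1 * (ψ v0)⁻¹ * (ψ z0)⁻¹ * (ψ v0 * E.1 * (ψ v0)⁻¹ * (ψ z0)⁻¹) = ψ v0 * (E.1 * (ψ z0)⁻¹) ^ 2 * (ψ v0)⁻¹
    conv_lhs => rw [← kz]
    rw [sq]; group
  have kE : ψ v0 * E.1 * (ψ v0)⁻¹ = E.1 := by
    have zk : ∀ n : ℕ, ψ v0 * ψ z0 ^ n * (ψ v0)⁻¹ = ψ z0 ^ n := fun n => by rw [← conj_pow, kz]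
    have key : ∀ n : ℕ, f E' = f Z ^ n * f E * (f Z ^ n)⁻¹ → ψ z0 ^ (2 * n) * E.1 = E.1 * ψ z0 ^ (2 * n) := fun n e => by
      have e1 : ψ v0 * E.1 * (ψ v0)⁻¹ = ψ z0 ^ n * E.1 * (ψ z0 ^ n)⁻¹ :=
        un E' (Z ^ n * E * (Z ^ n)⁻¹) E'3 (by
          show (ψ z0 ^ n * E.1 * (ψ z0 ^ n)⁻¹) ^ 3 = 1; rw [conj_pow, E3, mul_one, mul_inv_cancel])
          (by rw [e, map_mul, map_mul, map_inv, map_pow])
      have e2 := kkk E.1
      rw [e1, show ψ v0 * (ψ z0 ^ n * E.1 * (ψ z0 ^ n)⁻¹) * (ψ v0)⁻¹ = (ψ v0 * ψ z0 ^ n * (ψ v0)⁻¹) * (ψ v0 * E.1 * (ψ v0)⁻¹) *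
        (ψ v0 * ψ z0 ^ n * (ψ v0)⁻¹)⁻¹ by group, zk, e1] at e2
      rw [← mul_inv_eq_iff_eq_mul, two_mul, pow_add]
      conv_rhs => rw [← e2]
      group
    rcases eu (f E') (by rw [← map_pow, show E' ^ 3 = 1 from Subtype.ext E'3, map_one])
      (by rw [← map_mul, ← map_mul]; exact congrArg f (Subtype.ext (cj (ct E) kt)))
      (fun e => nEZ (by
        have e1 : ψ v0 * E.1 * (ψ v0)⁻¹ = ψ z0 := un E' Z E'3 z3 e
        rw [← kkk E.1, e1, kz]))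
      (by
        rcases (fk ((E * Z⁻¹) ^ 2)).1 (by rw [map_pow, map_mul, map_inv, ex]) with e | e <;> rw [e] at xk
        · rw [← map_inv, ← map_mul, sq, ← map_mul, show E' * Z⁻¹ * (E' * Z⁻¹) = 1 from Subtype.ext (xk.trans (by simp)), map_one]
        · have : f (E' * Z⁻¹) * f (E' * Z⁻¹) = f Q := by rw [← map_mul]; exact congrArg f (Subtype.ext (xk.trans kt))
          exact (qd2_nsq (a := f (E' * Z⁻¹)) Z3 Z1 (by rw [this, QQ]) (by rw [this]; exact ne _ (by decide) (by decide))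
            (by rw [this, QZ])).elim) with e | e | e
    · exact un E' E E'3 E3 e
    · have := key 1 (by rw [pow_one, e])
      refine (nEZ ?_).elim
      have c : Commute (ψ z0 ^ (2 * 1)) E.1 := this
      have := (c.pow_left 2).eq
      rw [← pow_mul, show 2 * 1 * 2 = 3 + 1 from rfl, pow_succ, z3, one_mul] at this
      exact this.symm
    · have := key 2 (by rw [sq, e])
      rw [show 2 * 2 = 3 + 1 from rfl, pow_succ, z3, one_mul] at this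
      exact (nEZ this.symm).elim
  have q' : s * ψ q0 * s⁻¹ = ψ (r0 * t0) := by
    have : s * (s * ψ r0 * s⁻¹) * s⁻¹ = ψ r0 := by
      rw [show s * (s * ψ r0 * s⁻¹) * s⁻¹ = s * s * ψ r0 * (s * s)⁻¹ by group, h.ss]; group
    rw [map_mul, ← this, e, map_mul, show s * (ψ q0 * ψ t0) * s⁻¹ = s * ψ q0 * s⁻¹ * (s * ψ t0 * s⁻¹) by group, h.st, mul_assoc _ _ (ψ t0),
      tt, mul_one]
  obtain ⟨x, hx⟩ : ∃ x, x = E.1 * (ψ z0)⁻¹ := ⟨_, rfl⟩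
  have xq : Commute x (ψ q0) := hx ▸ (show Commute E.1 (ψ q0) from Eq).mul_left (Commute.inv_left (m2 (by decide)))
  have xt : Commute x (ψ t0) := hx ▸ ct (E * Z⁻¹)
  have kx : ψ v0 * x * (ψ v0)⁻¹ = x := by
    rw [hx]; conv_rhs => rw [← kE, ← kz]
    group
  have pq : Commute (ψ (r0 * t0) * x) (ψ q0) := (show Commute (ψ (r0 * t0)) (ψ q0) from m2 (by decide)).mul_left xq
  have pt : Commute (ψ (r0 * t0) * x) (ψ t0) := (show Commute (ψ (r0 * t0)) (ψ t0) from m2 (by decide)).mul_left xt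
  have q2 : ψ q0 ^ 2 = 1 := by rw [sq, qq]
  have t2 : ψ t0 ^ 2 = 1 := by rw [sq, tt]
  have kw : ψ v0 * (ψ (r0 * t0) * x) ^ 2 * (ψ v0)⁻¹ = (ψ (r0 * t0) * x) ^ 2 := by
    have : ψ v0 * (ψ (r0 * t0) * x) * (ψ v0)⁻¹ = ψ (r0 * t0) * x * ψ q0 * ψ t0 := by
      rw [show ψ v0 * (ψ (r0 * t0) * x) * (ψ v0)⁻¹ = ψ v0 * ψ (r0 * t0) * (ψ v0)⁻¹ * (ψ v0 * x * (ψ v0)⁻¹) by group, kx,
        m1 (c := r0 * t0 * q0 * t0) (by decide), map_mul, map_mul, mul_assoc _ (ψ t0) x, ← xt.eq, ← mul_assoc,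
        mul_assoc _ (ψ q0) x, ← xq.eq, ← mul_assoc]
    rw [← conj_pow, this, (pt.mul_left (m2 (by decide))).mul_pow, pq.mul_pow, q2, t2, mul_one, mul_one]
  have cw : c.1 * ψ (q0 * (r0 * t0)) * c.1⁻¹ = (ψ (r0 * t0) * x) ^ 2 := by
    have e0 : ψ (q0 * (r0 * t0)) = (ψ q0 * s) ^ 2 := by rw [map_mul, ← q', si, sq]; group
    have e1 : (S * Q * S⁻¹ * (E * Z⁻¹) * Q).1 = ψ (r0 * t0) * x * ψ q0 := by rw [← q', hx]; rfl
    rw [e0, ← conj_pow]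
    rcases ker (c * (Q * S) * c⁻¹) (S * Q * S⁻¹ * (E * Z⁻¹) * Q) (by simpa only [map_mul, map_inv] using hc) with e | e <;>
      rw [e1] at e <;> rw [show c.1 * (ψ q0 * s) * c.1⁻¹ = _ from e]
    · rw [pq.mul_pow, q2, mul_one]
    · rw [(pt.mul_left (m2 (by decide))).mul_pow, pq.mul_pow, q2, t2, mul_one, mul_one]
  have c1 : IsConj (ψ t0) (ψ q0 * (ψ (r0 * t0) * x) ^ 2) := by
    refine (isConj_iff.2 ⟨_, kt⟩).trans ((isConj_iff.2 ⟨_, q'⟩).trans ((isConj_iff.2 ⟨ψ v0, m1 (c := t0 * (q0 * (r0 * t0))) (by decide)⟩).trans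
      ((isConj_iff.2 ⟨c.1, ?_⟩ : IsConj _ (ψ t0 * (ψ (r0 * t0) * x) ^ 2)).trans (isConj_iff.2 ⟨ψ v0, ?_⟩))))
    · rw [← cw, map_mul, ← mul_assoc, ct c]; group
    · rw [← kt]; conv_rhs => rw [← kw]
      group
  set W : centralizer ({ψ t0} : Set G) := d * (Q * (S * Q * S⁻¹ * (E * Z⁻¹)) ^ 2) * d⁻¹ with hW
  have eW : W.1 = d.1 * (ψ q0 * (ψ (r0 * t0) * x) ^ 2) * d.1⁻¹ := by rw [← q', hx]; rfl
  have fW : f W = f d * (f Q * (f S * f Q * (f S)⁻¹ * (f E * (f Z)⁻¹)) ^ 2) * (f d)⁻¹ := by simp only [hW, map_mul, map_inv, map_pow]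
  rw [← fW] at hd1 hd
  have y3 : (Z * Y).1 ^ 3 = 1 := by
    show (ψ z0 * ψ y0) ^ 3 = 1; rw [← map_mul, ← map_pow, show (z0 * y0) ^ 3 = 1 by decide, map_one]
  have := un (W * (Z * Y) * W⁻¹) (Z * Y) (by show (W.1 * (Z * Y).1 * W.1⁻¹) ^ 3 = 1; rw [conj_pow, y3, mul_one, mul_inv_cancel]) y3
    (by rw [map_mul f (W * _), map_mul f W, map_mul f Z, map_inv, hd, mul_inv_cancel_right])
  exact hd1 ((fk W).2 (.inr (h.nt2 _ (c1.trans (isConj_iff.2 ⟨d.1, eW.symm⟩)) (by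
    rw [map_mul]; exact mul_inv_eq_iff_eq_mul.1 this))))

theorem F1'.f3' (h : F1' ψ s) (s6 : S6P) (e : s * ψ r0 * s⁻¹ = ψ (q0 * t0)) : F3 ψ s where
  toF1' := h
  sr' := e
  ct g hg := by
    rcases h.dich with l | ⟨f, fs, fk⟩
    · have si : s⁻¹ = s := inv_eq_of_mul_eq_one_right h.ss
      rcases l g⁻¹ (show Commute g (ψ t0) from hg).inv_left.eq with m | m
      · exact .inl (inv_mem_iff.1 (h.nz _ m))
      · refine .inr (inv_mem_iff.1 (h.nz _ ?_))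
        obtain ⟨k, hk⟩ := m
        refine ⟨k, ?_⟩
        beta_reduce at hk ⊢
        rw [show (g * s)⁻¹ * ψ z0 * (g * s)⁻¹⁻¹ = s⁻¹ * (g⁻¹ * ψ z0 * g⁻¹⁻¹) * s by group, ← hk, ← h.sz, conj_zpow]; group
    · exact (h.qd2 s6 e f fs fk).elim

end Cfsg.Agent.S8R
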