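import Cfsg.Agent.S8R.QD1
import Cfsg.Agent.S8R.QD2

/-! The exceptional frame `F3`. -/

set_option autoImplicit false

namespace Cfsg.Agent.S8R

theorem F1'.f3 {G : Type*} [Group G] [Finite G] {ψ : K0 →* G} {s : G} (h : F1' ψ s) (e : s * ψ r0 * s⁻¹ = ψ (q0 * t0)) : F3 ψ s :=
  h.f3' (fun a b c d e f g h i j => s6 a b c d e f g h i j) e

end Cfsg.Agent.S8R
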