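import Cfsg.Agent.S8R.A

/-! The exceptional case: `[v', v] ∈ {1, j}` (`F3.x_cases`), and `[v', v] = 1` gives `[L, L'] = 1` (`F3.f4_of`). -/

set_option autoImplicit false

namespace Cfsg.Agent.S8R

open Equiv Subgroup Cfsg.Agent.BG

theorem qe1_words : ∀ σ : Perm (Fin 5), Perm.sign σ = 1 → ∃ i : Fin 5, ∃ j : Fin 3, ∃ k l : Fin 2,
    σ = (y0.2 * v0.2) ^ i.1 * (y0.2 * y0.2 * v0.2 * y0.2 * v0.2 * y0.2) ^ j.1 * (q0.2 * t0.2) ^ k.1 * v0.2 ^ l.1 := by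
  decide +kernel

theorem qe1_gen (K : Subgroup K0) (hy : y0 ∈ K) (ha : q0 * t0 ∈ K) (hb : v0 ∈ K) : L0 ≤ K := by
  rintro ⟨a, σ⟩ ⟨h1, h2⟩
  obtain rfl : a = 1 := mem_bot.1 h1
  obtain ⟨i, j, k, l, e⟩ := qe1_words σ (Perm.mem_alternatingGroup.1 h2)
  have : ((1 : Perm (Fin 3)), σ) =
      (y0 * v0) ^ i.1 * (y0 * y0 * v0 * y0 * v0 * y0) ^ j.1 * (q0 * t0) ^ k.1 * v0 ^ l.1 :=
    Prod.ext (by simp [y0, v0, q0, t0]) e
  rw [this]
  exact mul_mem (mul_mem (mul_mem (pow_mem (mul_mem hy hb) _)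
    (pow_mem (mul_mem (mul_mem (mul_mem (mul_mem (mul_mem hy hy) hb) hy) hb) hy) _)) (pow_mem ha _)) (pow_mem hb _)

theorem qe1_c3 : ∀ a : Perm (Fin 3), a * r0.1 = r0.1 * a → a = 1 ∨ a = r0.1 := by decide +kernel

theorem qe1_c5 : ∀ b : Perm (Fin 5), b * t0.2 = t0.2 * b → b * (q0.2 * t0.2) = q0.2 * t0.2 * b →
    b = 1 ∨ b = q0.2 * t0.2 ∨ b = t0.2 ∨ b = t0.2 * (q0.2 * t0.2) := by decide +kernel

theorem qe1_c (k : K0) (h1 : k * t0 = t0 * k) (h2 : k * r0 = r0 * k) (h3 : k * (q0 * t0) = q0 * t0 * k) :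
    ∃ ζ, (ζ = 1 ∨ ζ = r0 ∨ ζ = q0 * t0 ∨ ζ = r0 * (q0 * t0)) ∧ (k = ζ ∨ k = t0 * ζ) := by
  obtain ⟨a, b⟩ := k
  rcases qe1_c3 a (congrArg Prod.fst h2) with rfl | rfl <;>
    rcases qe1_c5 b (congrArg Prod.snd h1) (congrArg Prod.snd h3) with rfl | rfl | rfl | rfl
  · exact ⟨1, .inl rfl, .inl rfl⟩
  · exact ⟨_, .inr (.inr (.inl rfl)), .inl (by decide +kernel)⟩
  · exact ⟨1, .inl rfl, .inr (by decide +kernel)⟩
  · exact ⟨_, .inr (.inr (.inl rfl)), .inr (by decide +kernel)⟩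
  · exact ⟨_, .inr (.inl rfl), .inl rfl⟩
  · exact ⟨_, .inr (.inr (.inr rfl)), .inl (by decide +kernel)⟩
  · exact ⟨_, .inr (.inl rfl), .inr (by decide +kernel)⟩
  · exact ⟨_, .inr (.inr (.inr rfl)), .inr (by decide +kernel)⟩

variable {G : Type*} [Group G] {ψ : K0 →* G} {s : G}

namespace F3
variable (h : F3 ψ s)
include h

theorem qe_si : s⁻¹ = s := inv_eq_of_mul_eq_one_right h.ss
theorem qe_back {a b : G} (e : s * a * s⁻¹ = b) : s * b * s⁻¹ = a := by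
  rw [← e, h.qe_si]
  calc s * (s * a * s) * s = s * s * a * (s * s) := by group
    _ = a := by rw [h.ss, one_mul, mul_one]
omit h in
theorem qe_cm {a b : K0} (e : a * b = b * a) : Commute (ψ a) (ψ b) := (show Commute a b from e).map ψ
omit h in
theorem qe_cj {a b : G} (e : Commute a b) : Commute (s * a * s⁻¹) (s * b * s⁻¹) := e.map (MulAut.conj s)
/-- `v` centralizes `r` -/
theorem qe_vr : Commute (s * ψ v0 * s⁻¹) (ψ r0) :=
  h.qe_back h.sr' ▸ qe_cj (qe_cm (a := v0) (b := q0 * t0) (by decide +kernel))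
/-- `v` centralizes `r'` -/
theorem qe_vr' : Commute (s * ψ v0 * s⁻¹) (ψ (q0 * t0)) :=
  h.sr' ▸ qe_cj (qe_cm (a := v0) (b := r0) (by decide +kernel))
theorem qe_tv' : ψ t0 * ψ v0 = ψ v0 * ψ (q0 * t0) * ψ t0 := by
  rw [← map_mul, ← map_mul, ← map_mul]; exact congrArg ψ (by decide +kernel)
theorem qe_tv : ψ t0 * (s * ψ v0 * s⁻¹) = s * ψ v0 * s⁻¹ * ψ r0 * ψ t0 := by
  have := congrArg (MulAut.conj s) h.qe_tv'
  simp only [map_mul (MulAut.conj s), MulAut.conj_apply] at this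
  rwa [h.st, h.qe_back h.sr'] at this
theorem qe_vv : s * ψ v0 * s⁻¹ * (s * ψ v0 * s⁻¹) = 1 := by
  rw [conj_mul, ← map_mul, show v0 * v0 = 1 by decide +kernel, map_one, mul_one, mul_inv_cancel]

/-- `C(t, r, r') = ⟨t⟩ Z` -/
theorem qe_cent {g : G} (h1 : g * ψ t0 = ψ t0 * g) (h2 : g * ψ r0 = ψ r0 * g)
    (h3 : g * ψ (q0 * t0) = ψ (q0 * t0) * g) :
    ∃ ζ, (ζ = 1 ∨ ζ = r0 ∨ ζ = q0 * t0 ∨ ζ = r0 * (q0 * t0)) ∧ (g = ψ ζ ∨ g = ψ (t0 * ζ)) := by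
  rcases h.ct g h1 with ⟨k, rfl⟩ | ⟨k, e⟩
  · simp only [← map_mul] at h1 h2 h3
    obtain ⟨ζ, a, b⟩ := qe1_c k (h.inj h1) (h.inj h2) (h.inj h3)
    exact ⟨ζ, a, b.imp (congrArg ψ) (congrArg ψ)⟩
  · have e1 : ψ (k * (q0 * t0)) = ψ (r0 * k) := by
      rw [map_mul, map_mul ψ r0, e, ← h.sr', h.qe_si]
      calc g * s * (s * ψ r0 * s) = g * (s * s) * ψ r0 * s := by group
        _ = _ := by rw [h.ss, mul_one, h2, mul_assoc]
    have e2 := congrArg Prod.fst (h.inj e1)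
    exact absurd (mul_right_cancel (b := k.1) (e2.symm.trans (by simp [q0, t0] : _ = 1 * k.1))) (by decide +kernel)

theorem x_cases : ψ v0 * (s * ψ v0 * s⁻¹) * ψ v0 * (s * ψ v0 * s⁻¹) = 1 ∨
    ψ v0 * (s * ψ v0 * s⁻¹) * ψ v0 * (s * ψ v0 * s⁻¹) = ψ (r0 * (q0 * t0)) := by
  have sv := h.qe_back (a := ψ v0) rfl
  have c1 := h.qe_vr
  have c2 := h.qe_vr'
  have t1 := h.qe_tv
  have vv := h.qe_vv
  generalize s * ψ v0 * s⁻¹ = v at *
  have c3 : Commute (ψ v0) (ψ r0) := qe_cm (by decide +kernel)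
  have c4 : Commute (ψ v0) (ψ (q0 * t0)) := qe_cm (by decide +kernel)
  have c5 : Commute (ψ r0) (ψ (q0 * t0)) := qe_cm (by decide +kernel)
  have rr : ψ r0 * ψ r0 = 1 := by rw [← map_mul, show r0 * r0 = 1 by decide +kernel, map_one]
  have rr' : ψ (q0 * t0) * ψ (q0 * t0) = 1 := by
    rw [← map_mul, show q0 * t0 * (q0 * t0) = 1 by decide +kernel, map_one]
  have ww : ψ v0 * ψ v0 = 1 := by rw [← map_mul, show v0 * v0 = 1 by decide +kernel, map_one]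
  have tt : ψ t0 * ψ t0 = 1 := by rw [← map_mul, show t0 * t0 = 1 by decide +kernel, map_one]
  have t2 := h.qe_tv'
  have k1 : ψ t0 * (ψ v0 * v) = ψ v0 * v * (ψ (q0 * t0) * ψ r0) * ψ t0 := by
    rw [← mul_assoc, t2, mul_assoc, t1, mul_assoc (ψ v0), ← mul_assoc (ψ (q0 * t0)), ← mul_assoc (ψ (q0 * t0)),
      ← c2.eq]
    group
  have c6 : Commute (ψ (q0 * t0) * ψ r0) (ψ v0 * v) :=
    (c4.symm.mul_right c2.symm).mul_left (c3.symm.mul_right c1.symm)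
  have jj : ψ (q0 * t0) * ψ r0 * (ψ (q0 * t0) * ψ r0) = 1 := by
    rw [mul_assoc, ← mul_assoc (ψ r0), c5.eq, mul_assoc, rr, mul_one, rr']
  obtain ⟨ζ, hζ, e⟩ := h.qe_cent (g := ψ v0 * v * ψ v0 * v) (by
      symm
      calc ψ t0 * (ψ v0 * v * ψ v0 * v) = ψ t0 * (ψ v0 * v) * (ψ v0 * v) := by group
        _ = ψ v0 * v * (ψ (q0 * t0) * ψ r0) * ψ t0 * (ψ v0 * v) := by rw [k1]
        _ = ψ v0 * v * (ψ (q0 * t0) * ψ r0) * (ψ t0 * (ψ v0 * v)) := by group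
        _ = ψ v0 * v * (ψ (q0 * t0) * ψ r0 * (ψ v0 * v)) * (ψ (q0 * t0) * ψ r0) * ψ t0 := by rw [k1]; group
        _ = ψ v0 * v * (ψ v0 * v) * (ψ (q0 * t0) * ψ r0 * (ψ (q0 * t0) * ψ r0)) * ψ t0 := by rw [c6.eq]; group
        _ = _ := by rw [jj]; group)
    (((c3.mul_left c1).mul_left c3).mul_left c1).eq (((c4.mul_left c2).mul_left c4).mul_left c2).eq
  have cζ : Commute v (ψ ζ) ∧ ψ ζ * ψ ζ = 1 ∧ Commute (ψ t0) (ψ ζ) := by
    rcases hζ with rfl | rfl | rfl | rfl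
    · simp
    · exact ⟨c1, rr, qe_cm (by decide +kernel)⟩
    · exact ⟨c2, rr', qe_cm (by decide +kernel)⟩
    · exact ⟨map_mul ψ r0 _ ▸ c1.mul_right c2, by
        rw [← map_mul, show r0 * (q0 * t0) * (r0 * (q0 * t0)) = 1 by decide +kernel, map_one],
        qe_cm (by decide +kernel)⟩
  have xv : ψ v0 * v * ψ v0 * v * v * (ψ v0 * v * ψ v0 * v * v) = 1 := by
    rw [mul_assoc _ v v, vv, mul_one]
    calc _ = ψ v0 * (v * (ψ v0 * ψ v0) * v) * ψ v0 := by group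
      _ = 1 := by rw [ww, mul_one, vv, mul_one, ww]
  rcases e with e | e
  · have sx : s * ψ ζ * s⁻¹ = ψ ζ := by
      have e1 : s * ψ ζ * s⁻¹ = v * ψ v0 * v * ψ v0 := by
        rw [← e, ← conj_mul, ← conj_mul, ← conj_mul, sv, h.qe_back sv]
      rw [e1, ← inv_eq_of_mul_eq_one_right cζ.2.1, ← e, eq_inv_iff_mul_eq_one]
      calc _ = v * (ψ v0 * (v * (ψ v0 * ψ v0) * v) * ψ v0) * v := by group
        _ = 1 := by rw [ww, mul_one, vv, mul_one, ww, mul_one, vv]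
    rcases hζ with rfl | rfl | rfl | rfl
    · exact .inl (e.trans (map_one ψ))
    · exact absurd (h.inj (h.sr'.symm.trans sx)) (by decide +kernel)
    · exact absurd (h.inj ((h.qe_back h.sr').symm.trans sx)) (by decide +kernel)
    · exact .inr e
  · rw [e, map_mul] at xv
    have : ψ r0 = 1 := by
      have e1 : ψ t0 * ψ ζ * v * (ψ t0 * ψ ζ * v) = ψ t0 * v * ψ t0 * (ψ ζ * ψ ζ) * v := by
        rw [mul_assoc (ψ t0) (ψ ζ) v, ← cζ.1.eq]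
        calc _ = ψ t0 * v * (ψ ζ * ψ t0) * (v * ψ ζ) := by group
          _ = _ := by rw [← cζ.2.2.eq, cζ.1.eq]; group
      rw [e1, cζ.2.1, mul_one, t1, mul_assoc _ (ψ t0) (ψ t0), tt, mul_one, c1.eq, mul_assoc, vv, mul_one] at xv
      exact xv
    exact absurd (h.inj (this.trans (map_one ψ).symm)) (by decide +kernel)

theorem f4_of (e : ψ v0 * (s * ψ v0 * s⁻¹) * ψ v0 * (s * ψ v0 * s⁻¹) = 1) : F4 ψ s := by
  have ww : ψ v0 * ψ v0 = 1 := by rw [← map_mul, show v0 * v0 = 1 by decide +kernel, map_one]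
  have c0 : Commute (ψ v0) (s * ψ v0 * s⁻¹) := by
    have := eq_inv_of_mul_eq_one_left (by rw [← e]; group : ψ v0 * (s * ψ v0 * s⁻¹) * (ψ v0 * (s * ψ v0 * s⁻¹)) = 1)
    rwa [mul_inv_rev, inv_eq_of_mul_eq_one_right ww, inv_eq_of_mul_eq_one_right h.qe_vv] at this
  have k : ∀ a ∈ L0, Commute (ψ a) (s * ψ v0 * s⁻¹) := fun a ha =>
    mem_centralizer_singleton_iff.1 (qe1_gen ((centralizer {s * ψ v0 * s⁻¹}).comap ψ)
      (mem_centralizer_singleton_iff.2 (h.sz ▸ qe_cj (qe_cm (a := z0) (b := v0) (by decide +kernel))))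
      (mem_centralizer_singleton_iff.2 h.qe_vr'.symm) (mem_centralizer_singleton_iff.2 c0) ha)
  refine ⟨h, fun a ha b hb => (mem_centralizer_singleton_iff.1
    (qe1_gen ((centralizer {ψ a}).comap ((MulAut.conj s).toMonoidHom.comp ψ)) (mem_centralizer_singleton_iff.2 ?_)
      (mem_centralizer_singleton_iff.2 ?_) (mem_centralizer_singleton_iff.2 (k a ha).symm) hb)).symm⟩
  · change s * ψ y0 * s⁻¹ * ψ a = ψ a * (s * ψ y0 * s⁻¹)
    rw [h.qe_back h.sz]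
    exact qe_cm (Prod.ext (by rw [Prod.fst_mul, Prod.fst_mul, mem_bot.1 ha.1, mul_one, one_mul]) (by simp [z0]))
  · change s * ψ (q0 * t0) * s⁻¹ * ψ a = ψ a * (s * ψ (q0 * t0) * s⁻¹)
    rw [h.qe_back h.sr']
    exact qe_cm (Prod.ext (by rw [Prod.fst_mul, Prod.fst_mul, mem_bot.1 ha.1, mul_one, one_mul]) (by simp [r0]))

/-- `F3.f4` modulo QE2 (`F3.nj`). -/
theorem f4_of_nj (nj : ψ v0 * (s * ψ v0 * s⁻¹) * ψ v0 * (s * ψ v0 * s⁻¹) = ψ (r0 * (q0 * t0)) → False) : F4 ψ s :=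
  h.f4_of (h.x_cases.resolve_right nj)

end F3

end Cfsg.Agent.S8R
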