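import Cfsg.Agent.BG.Base4

/-! Abstract part of the exclusion of the commutator `[v', v] = j`. -/

set_option autoImplicit false

namespace Cfsg.Agent.S8R

open Subgroup Cfsg.Agent.BG

variable {G : Type*} [Group G]

/-- membership in the four-group `{1, r, p, rp}` -/
def InZ (r p x : G) : Prop := x = 1 ∨ x = r ∨ x = p ∨ x = r * p

/-- relations of the group of order 32 and the involution `s` -/
structure Rel (r p t v u s : G) : Prop where
  rr : r * r = 1
  pp : p * p = 1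
  tt : t * t = 1
  vv : v * v = 1
  uu : u * u = 1
  ss : s * s = 1
  pr : p * r = r * p
  tr : t * r = r * t
  tp : t * p = p * t
  vr : v * r = r * v
  vp : v * p = p * v
  ur : u * r = r * u
  up : u * p = p * u
  vt : v * t = r * (t * v)
  ut : u * t = p * (t * u)
  uv : u * v = r * (p * (v * u))
  sr : s * r = p * s
  sp : s * p = r * s
  st : s * t = t * s
  sv : s * v = u * s
  su : s * u = v * s
  r1 : r ≠ 1
  p1 : p ≠ 1
  rp : r ≠ p
  ctz : ∀ g : G, g * t = t * g → g * r = r * g → g * p = p * g → ∃ ζ, InZ r p ζ ∧ (g = ζ ∨ g = ζ * t)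
  c1 : ∀ ζ, InZ r p ζ → ¬ IsConj t ζ
  c2 : ∀ ζ, InZ r p ζ → ¬ IsConj t (ζ * v)
  c3 : ∀ ζ, InZ r p ζ → ¬ IsConj t (ζ * u)
  rj : IsConj r (r * p)
  U : ∀ a b : G, a * t = t * a → b * t = t * b → a * a * (a * a) = 1 → b * b * (b * b) = 1 → a * a ≠ 1 → b * b ≠ 1 →
    a * a * (b * b) = b * b * (a * a) → a * a = b * b

theorem as2 {a b c : G} (h : a * b = c) (x : G) : a * (b * x) = c * x := by rw [← mul_assoc, h]

theorem inv_of {a : G} (h : a * a = 1) : a⁻¹ = a := inv_eq_of_mul_eq_one_right h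

variable {r p t v u s : G}

/-- normal form rules -/
theorem Rel.nf (h : Rel r p t v u s) :
    (∀ a b c : G, a * b * c = a * (b * c)) ∧
    (∀ a : G, 1 * a = a) ∧
    (∀ a : G, a * 1 = a) ∧
    (∀ a b : G, (a * b)⁻¹ = b⁻¹ * a⁻¹) ∧
    (1 : G)⁻¹ = 1 ∧
    r⁻¹ = r ∧
    p⁻¹ = p ∧
    t⁻¹ = t ∧
    v⁻¹ = v ∧
    u⁻¹ = u ∧
    s⁻¹ = s ∧
    r * r = 1 ∧
    (∀ x : G, r * (r * x) = (1) * x) ∧
    p * p = 1 ∧
    (∀ x : G, p * (p * x) = (1) * x) ∧
    t * t = 1 ∧
    (∀ x : G, t * (t * x) = (1) * x) ∧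
    v * v = 1 ∧
    (∀ x : G, v * (v * x) = (1) * x) ∧
    u * u = 1 ∧
    (∀ x : G, u * (u * x) = (1) * x) ∧
    s * s = 1 ∧
    (∀ x : G, s * (s * x) = (1) * x) ∧
    p * r = r * p ∧
    (∀ x : G, p * (r * x) = (r * p) * x) ∧
    t * r = r * t ∧
    (∀ x : G, t * (r * x) = (r * t) * x) ∧
    t * p = p * t ∧
    (∀ x : G, t * (p * x) = (p * t) * x) ∧
    v * r = r * v ∧
    (∀ x : G, v * (r * x) = (r * v) * x) ∧
    v * p = p * v ∧
    (∀ x : G, v * (p * x) = (p * v) * x) ∧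
    u * r = r * u ∧
    (∀ x : G, u * (r * x) = (r * u) * x) ∧
    u * p = p * u ∧
    (∀ x : G, u * (p * x) = (p * u) * x) ∧
    v * t = r * (t * v) ∧
    (∀ x : G, v * (t * x) = (r * (t * v)) * x) ∧
    u * t = p * (t * u) ∧
    (∀ x : G, u * (t * x) = (p * (t * u)) * x) ∧
    u * v = r * (p * (v * u)) ∧
    (∀ x : G, u * (v * x) = (r * (p * (v * u))) * x) ∧
    s * r = p * s ∧
    (∀ x : G, s * (r * x) = (p * s) * x) ∧
    s * p = r * s ∧
    (∀ x : G, s * (p * x) = (r * s) * x) ∧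
    s * t = t * s ∧
    (∀ x : G, s * (t * x) = (t * s) * x) ∧
    s * v = u * s ∧
    (∀ x : G, s * (v * x) = (u * s) * x) ∧
    s * u = v * s ∧
    (∀ x : G, s * (u * x) = (v * s) * x) :=
  ⟨mul_assoc, one_mul, mul_one, mul_inv_rev, inv_one, inv_of h.rr, inv_of h.pp, inv_of h.tt, inv_of h.vv, inv_of h.uu, inv_of h.ss, h.rr, as2 h.rr, h.pp, as2 h.pp, h.tt, as2 h.tt, h.vv, as2 h.vv, h.uu, as2 h.uu, h.ss, as2 h.ss, h.pr, as2 h.pr, h.tr, as2 h.tr, h.tp, as2 h.tp, h.vr, as2 h.vr, h.vp, as2 h.vp, h.ur, as2 h.ur, h.up, as2 h.up, h.vt, as2 h.vt, h.ut, as2 h.ut, h.uv, as2 h.uv, h.sr, as2 h.sr, h.sp, as2 h.sp, h.st, as2 h.st, h.sv, as2 h.sv, h.su, as2 h.su⟩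

theorem Rel.j1 (h : Rel r p t v u s) : r * p ≠ 1 := fun e => h.rp (by
  have : r * (r * p) = r := by rw [e, mul_one]
  rw [as2 h.rr, one_mul] at this; exact this.symm)

theorem Rel.jr (h : Rel r p t v u s) : r * p ≠ r := fun e => h.p1 (by simpa using e)
theorem Rel.jp (h : Rel r p t v u s) : r * p ≠ p := fun e => h.r1 (by simpa using e)

theorem Rel.zsq (h : Rel r p t v u s) {a : G} (ha : InZ r p a) : a * a = 1 := by
  rcases ha with rfl | rfl | rfl | rfl <;> simp only [h.nf]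

theorem Rel.zmul (h : Rel r p t v u s) {a b : G} (ha : InZ r p a) (hb : InZ r p b) : InZ r p (a * b) := by
  rcases ha with e | e | e | e <;> rcases hb with e' | e' | e' | e' <;> rw [e, e'] <;> (try simp only [h.nf]) <;> simp [InZ]

theorem zcomm {a g : G} (ha : InZ r p a) (h1 : g * r = r * g) (h2 : g * p = p * g) : g * a = a * g := by
  rcases ha with rfl | rfl | rfl | rfl
  · simp
  · exact h1
  · exact h2
  · rw [← mul_assoc, h1, mul_assoc, h2, mul_assoc]

/-- the 2-subgroup `P₀` -/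
def Rel.P0 (h : Rel r p t v u s) : Subgroup G where
  carrier := {g | g * r = r * g ∧ g * p = p * g ∧ ∃ ζ, InZ r p ζ ∧ g * t = ζ * (t * g)}
  one_mem' := ⟨by simp, by simp, 1, Or.inl rfl, by simp⟩
  mul_mem' := by
    rintro a b ⟨a1, a2, ζ, hζ, a3⟩ ⟨b1, b2, ξ, hξ, b3⟩
    refine ⟨by rw [mul_assoc, b1, ← mul_assoc, a1, mul_assoc], by rw [mul_assoc, b2, ← mul_assoc, a2, mul_assoc],
      ξ * ζ, h.zmul hξ hζ, ?_⟩
    rw [mul_assoc, b3, as2 (zcomm hξ a1 a2), mul_assoc, ← mul_assoc a, a3]; simp only [mul_assoc]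
  inv_mem' := by
    rintro a ⟨a1, a2, ζ, hζ, a3⟩
    have b1 : a⁻¹ * r = r * a⁻¹ := (show Commute a r from a1).inv_left
    have b2 : a⁻¹ * p = p * a⁻¹ := (show Commute a p from a2).inv_left
    refine ⟨b1, b2, ζ, hζ, ?_⟩
    have : t * a⁻¹ = a⁻¹ * (ζ * t) := by
      calc t * a⁻¹ = a⁻¹ * (a * t) * a⁻¹ := by group
        _ = a⁻¹ * (ζ * t) := by rw [a3]; group
    rw [this, ← mul_assoc, ← zcomm hζ b1 b2, mul_assoc, as2 (h.zsq hζ), one_mul]

theorem Rel.P0_pg (h : Rel r p t v u s) : IsPGroup 2 h.P0 := by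
  rintro ⟨a, a1, a2, ζ, hζ, a3⟩
  refine ⟨2, Subtype.ext ?_⟩
  have e : a * a * t = t * (a * a) := by
    rw [mul_assoc, a3, as2 (zcomm hζ a1 a2), mul_assoc, ← mul_assoc a, a3, mul_assoc, mul_assoc, as2 (h.zsq hζ), one_mul]
  obtain ⟨ξ, hξ, e'⟩ := h.ctz (a * a) e (by rw [mul_assoc, a1, ← mul_assoc, a1, mul_assoc])
    (by rw [mul_assoc, a2, ← mul_assoc, a2, mul_assoc])
  have : a ^ (2 ^ 2) = (a * a) * (a * a) := by rw [show 2 ^ 2 = 1 + 1 + 1 + 1 from rfl]; simp [pow_succ, mul_assoc]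
  show a ^ (2 ^ 2) = 1
  rw [this]
  rcases e' with e' | e' <;> rw [e']
  · exact h.zsq hξ
  · rw [mul_assoc, as2 (zcomm hξ h.tr h.tp), mul_assoc, h.tt, mul_one, h.zsq hξ]

theorem Rel.exists_h [Finite G] (h : Rel r p t v u s) : ∃ g : G, g * r * g⁻¹ = r ∧ g * p * g⁻¹ = r * p := by
  have : Fact (Nat.Prime 2) := ⟨Nat.prime_two⟩
  set C : Subgroup G := C1[r] ⊓ C1[p] with hC
  have mC : ∀ g, g ∈ C ↔ g * r = r * g ∧ g * p = p * g := fun g => by rw [hC, mem_inf, mem_cent1, mem_cent1]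
  obtain ⟨W, hW, hPW⟩ := Sylow_superset (p := 2) (show h.P0 ≤ C from fun g hg => (mC g).2 ⟨hg.1, hg.2.1⟩) h.P0_pg
  obtain ⟨P, hP, hWP⟩ := Sylow_superset (p := 2) (show W ≤ C1[r] from hW.le.trans inf_le_left) hW.pg
  have hne : W ≠ P := by
    rintro rfl
    have hs : s ∈ N[C] := mem_norm_of_cj_le fun x hx => by
      rw [mem_cj, mC] at hx
      obtain ⟨x1, x2⟩ := hx
      rw [inv_of h.ss] at x1 x2
      refine (mC x).2 ⟨?_, ?_⟩
      · calc x * r = s * (s * x * s * p) * s := by simp only [h.nf]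
          _ = r * x := by rw [x2]; simp only [h.nf]
      · calc x * p = s * (s * x * s * r) * s := by simp only [h.nf]
          _ = p * x := by rw [x1]; simp only [h.nf]
    have hn : C ⊴ (C ⊔ zpowers s) := ⟨le_sup_left, sup_le (normG C) (zpowers_le.2 hs)⟩
    have hs2 : IsPGroup 2 (zpowers s) := by
      rintro ⟨x, k, rfl⟩
      refine ⟨1, Subtype.ext ?_⟩
      show (s ^ k) ^ (2 ^ 1) = 1
      rw [pow_one, ← zpow_natCast, ← zpow_mul, mul_comm, zpow_mul, zpow_natCast, pow_two, h.ss, one_zpow]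
    obtain ⟨Q, hQ, hsQ⟩ := Sylow_superset (p := 2) (le_sup_right : zpowers s ≤ C ⊔ zpowers s) hs2
    have h1 := Hall_setI_normal hn hQ
    have h2 : Q ⊓ C < Q := inf_lt_left.2 fun hle => by
      have := ((mC s).1 (hle (hsQ (mem_zpowers s)))).1
      rw [h.sr] at this
      exact h.rp (mul_right_cancel this).symm
    have h3 : Q ≤ C1[r * p] := hQ.le.trans (sup_le (fun g hg => mem_cent1.2
      (zcomm (Or.inr (Or.inr (Or.inr rfl))) ((mC g).1 hg).1 ((mC g).1 hg).2)) (zpowers_le.2 (mem_cent1.2 (by simp only [h.nf]))))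
    have h4 := pgroup_card_dvd h3 hQ.pi
    obtain ⟨c, hc⟩ := isConj_iff.1 h.rj
    rw [← hc, C1_conj, card_cj, ← card_Hall hP, card_Hall_eq hW h1] at h4
    exact absurd (Nat.le_of_dvd (cardG_pos _) h4) (not_le.2 (proper_card h2))
  obtain ⟨g, ⟨gP, gN⟩, gW⟩ := SetLike.exists_of_lt (nilpotent_proper_norm (pgroup_nil hP.pg) (lt_of_le_of_ne hWP hne))
  have gr : g * r = r * g := mem_cent1.1 (hP.le gP)
  have gr' : g * r * g⁻¹ = r := by rw [gr]; group
  refine ⟨g, gr', ?_⟩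
  have hx : ∀ w ∈ W, g * p * g⁻¹ * w = w * (g * p * g⁻¹) := fun w hw => by
    have : g⁻¹ * w * g ∈ W := by
      have := (mem_normalizer_iff''.1 gN w).1 hw
      exact this
    have := ((mC _).1 (hW.le this)).2
    calc g * p * g⁻¹ * w = g * (p * (g⁻¹ * w * g)) * g⁻¹ := by group
      _ = w * (g * p * g⁻¹) := by rw [← this]; group
  have mr : r ∈ W := hPW ⟨rfl, h.pr.symm, 1, Or.inl rfl, by simp only [h.nf]⟩
  have mp : p ∈ W := hPW ⟨h.pr, rfl, 1, Or.inl rfl, by simp only [h.nf]⟩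
  have mt : t ∈ W := hPW ⟨h.tr, h.tp, 1, Or.inl rfl, by simp only [h.nf]⟩
  have mv : v ∈ W := hPW ⟨h.vr, h.vp, r, Or.inr (Or.inl rfl), h.vt⟩
  obtain ⟨ζ, hζ, e | e⟩ := h.ctz _ (hx t mt) (hx r mr) (hx p mp)
  · rcases hζ with rfl | e' | e' | rfl
    · exact absurd (by simpa [mul_inv_eq_one] using e) h.p1
    · rw [e', ← gr'] at e
      exact absurd (by simpa using e) h.rp.symm
    · refine absurd ?_ gW
      have gC : g ∈ C := (mC g).2 ⟨gr, by rw [e'] at e; exact mul_inv_eq_iff_eq_mul.1 e⟩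
      have := Hall_max hW (le_inf hWP hW.le) inf_le_right (pgroupS inf_le_left hP.pi)
      rw [← this]; exact ⟨gP, gC⟩
    · exact e
  · have := hx v mv
    rw [e, as2 (zcomm hζ h.vr h.vp), mul_assoc, mul_assoc, h.vt] at this
    have := mul_left_cancel this
    exact absurd (by simpa using this) h.r1

/-- `x` is a square in `C(w)` -/
def SqJ (w x : G) : Prop := ∃ a : G, a * w = w * a ∧ a * a = x

theorem SqJ.conj {w x : G} (h : SqJ w x) (g : G) : SqJ (g * w * g⁻¹) (g * x * g⁻¹) := by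
  obtain ⟨a, h1, h2⟩ := h
  refine ⟨g * a * g⁻¹, ?_, by rw [← h2]; group⟩
  calc g * a * g⁻¹ * (g * w * g⁻¹) = g * (a * w) * g⁻¹ := by group
    _ = g * w * g⁻¹ * (g * a * g⁻¹) := by rw [h1]; group

theorem SqJ.conj' {w x g : G} (h : SqJ w x) (hg : g * x = x * g) : SqJ (g * w * g⁻¹) x := by
  have := h.conj g
  rwa [hg, mul_inv_cancel_right] at this

theorem Rel.U' (h : Rel r p t v u s) {w : G} (hw : IsConj t w) (h1 : SqJ w (r * p)) (h2 : SqJ w p) : False := by
  obtain ⟨c, rfl⟩ := isConj_iff.1 hw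
  have e : c⁻¹ * (c * t * c⁻¹) * c⁻¹⁻¹ = t := by group
  obtain ⟨a, a1, a2⟩ := h1.conj c⁻¹
  obtain ⟨b, b1, b2⟩ := h2.conj c⁻¹
  rw [e] at a1 b1
  have := h.U a b a1 b1
    (by rw [a2]; calc _ = c⁻¹ * (r * p * (r * p)) * c := by group
          _ = 1 := by simp only [h.nf]; group)
    (by rw [b2]; calc _ = c⁻¹ * (p * p) * c := by group
          _ = 1 := by simp only [h.nf]; group)
    (by rw [a2]; intro e; exact h.j1 (by simpa [mul_inv_eq_one, inv_mul_eq_one] using (conj_eq_one_iff.1 e)))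
    (by rw [b2]; intro e; exact h.p1 (conj_eq_one_iff.1 e))
    (by rw [a2, b2]; calc _ = c⁻¹ * (r * p * p) * c := by group
          _ = c⁻¹ * (p * (r * p)) * c := by simp only [h.nf]
          _ = _ := by group)
  rw [a2, b2] at this
  exact h.jp (mul_left_cancel (mul_right_cancel this))

theorem Rel.sq_t (h : Rel r p t v u s) {ζ : G} (hζ : InZ r p ζ) : SqJ (ζ * t) (r * p) := by
  rcases hζ with e | e | e | e <;> rw [e]
  · exact ⟨s * r, by simp only [h.nf], by simp only [h.nf]⟩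
  · exact ⟨v * (s * r) * v, by simp only [h.nf], by simp only [h.nf]⟩
  · exact ⟨v * (s * r) * v, by simp only [h.nf], by simp only [h.nf]⟩
  · exact ⟨s * r, by simp only [h.nf], by simp only [h.nf]⟩

theorem Rel.sq_X (h : Rel r p t v u s) {ζ : G} (hζ : InZ r p ζ) : SqJ (u * (v * ζ) * t) (r * p) := by
  rcases hζ with e | e | e | e <;> rw [e]
  · exact ⟨v * (s * r) * v, by simp only [h.nf], by simp only [h.nf]⟩
  · exact ⟨s * r, by simp only [h.nf], by simp only [h.nf]⟩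
  · exact ⟨s * r, by simp only [h.nf], by simp only [h.nf]⟩
  · exact ⟨v * (s * r) * v, by simp only [h.nf], by simp only [h.nf]⟩

theorem Rel.key (h : Rel r p t v u s) {w : G} (w1 : w * r = r * w) (w2 : w * p = p * w) (nz : ¬ InZ r p w)
    (hi : t * w * t = w⁻¹) (sq : InZ r p (w * w)) (hc : IsConj t (w * t)) : SqJ (w * t) (r * p) ∧ w * w = r * p := by
  have e0 : w * (t * w) = t := by
    calc w * (t * w) = w * (t * w * t) * t := by simp only [h.nf]
      _ = t := by rw [hi]; group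
  have e : w * t = (w * w) * (t * w) := by rw [mul_assoc, e0]
  have cr : ∀ a : G, a * r = r * a → a * w * r = r * (a * w) := fun a ha => by
    rw [mul_assoc, w1, ← mul_assoc, ha, mul_assoc]
  have cp : ∀ a : G, a * p = p * a → a * w * p = p * (a * w) := fun a ha => by
    rw [mul_assoc, w2, ← mul_assoc, ha, mul_assoc]
  rcases sq with e1 | e1 | e1 | e1 <;> rw [e1] at e
  · obtain ⟨ξ, hξ, e2 | e2⟩ := h.ctz w (by rw [e, one_mul]) w1 w2
    · exact absurd (e2 ▸ hξ) nz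
    · rw [e2, mul_assoc, h.tt, mul_one] at hc
      exact absurd hc (h.c1 ξ hξ)
  · obtain ⟨ξ, hξ, e2 | e2⟩ := h.ctz (v * w) (by rw [mul_assoc, e]; simp only [h.nf]) (cr v h.vr) (cp v h.vp)
    · have e3 : w = v * ξ := by rw [← e2]; simp only [h.nf]
      rw [e3, mul_assoc, as2 (zcomm hξ h.vr h.vp).symm, mul_assoc, h.zsq hξ, mul_one, h.vv] at e1
      exact absurd e1.symm h.r1
    · have e3 : w * t = ξ * v := by
        rw [← zcomm hξ h.vr h.vp]
        calc w * t = v * (v * w) * t := by simp only [h.nf]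
          _ = v * ξ := by rw [e2]; simp only [h.nf]
      exact absurd (e3 ▸ hc) (h.c2 ξ hξ)
  · obtain ⟨ξ, hξ, e2 | e2⟩ := h.ctz (u * w) (by rw [mul_assoc, e]; simp only [h.nf]) (cr u h.ur) (cp u h.up)
    · have e3 : w = u * ξ := by rw [← e2]; simp only [h.nf]
      rw [e3, mul_assoc, as2 (zcomm hξ h.ur h.up).symm, mul_assoc, h.zsq hξ, mul_one, h.uu] at e1
      exact absurd e1.symm h.p1
    · have e3 : w * t = ξ * u := by
        rw [← zcomm hξ h.ur h.up]
        calc w * t = u * (u * w) * t := by simp only [h.nf]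
          _ = u * ξ := by rw [e2]; simp only [h.nf]
      exact absurd (e3 ▸ hc) (h.c3 ξ hξ)
  · refine ⟨?_, e1⟩
    obtain ⟨ξ, hξ, e2 | e2⟩ := h.ctz (v * u * w) (by rw [mul_assoc, e]; simp only [h.nf])
      (cr _ (by simp only [h.nf])) (cp _ (by simp only [h.nf]))
    · have e3 : w = u * (v * ξ) := by
        rw [← e2, mul_assoc v u w, as2 h.vv, one_mul, as2 h.uu, one_mul]
      rw [e3]; exact h.sq_X hξ
    · have e3 : w = u * (v * (ξ * t)) := by
        rw [← e2, mul_assoc v u w, as2 h.vv, one_mul, as2 h.uu, one_mul]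
      rw [e3] at e1
      refine absurd (e1.symm.trans ?_) h.j1
      rcases hξ with e4 | e4 | e4 | e4 <;> rw [e4] <;> simp only [h.nf]

theorem dih_pow {c x : G} (hx : x * x = 1) (h : x * c * x = c⁻¹) (k : ℕ) : x * c ^ k * x = (c ^ k)⁻¹ := by
  have hi := inv_of hx
  have : x * c ^ k * x⁻¹ = (x * c * x⁻¹) ^ k := by rw [conj_pow]
  rw [hi, h, inv_pow] at this
  exact this

theorem dih_conj {c x : G} (hx : x * x = 1) (h : x * c * x = c⁻¹) (k : ℕ) : c ^ k * x * (c ^ k)⁻¹ = c ^ (2 * k) * x := by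
  rw [← dih_pow hx h k, two_mul, pow_add]
  simp only [mul_assoc, as2 hx, one_mul]

theorem Rel.false [Finite G] (h : Rel r p t v u s) : False := by
  classical
  obtain ⟨g, gr, gp⟩ := h.exists_h
  have gj : g * (r * p) * g⁻¹ = p := by
    calc g * (r * p) * g⁻¹ = (g * r * g⁻¹) * (g * p * g⁻¹) := by group
      _ = p := by rw [gr, gp]; simp only [h.nf]
  set t1 := g * t * g⁻¹ with ht1
  have ct1 : IsConj t t1 := isConj_iff.2 ⟨g, rfl⟩
  have s1 : SqJ t1 p := by
    have := (h.sq_t (Or.inl rfl)).conj g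
    rwa [one_mul, gj] at this
  have cm : ∀ a b : G, a * b = b * a → g * a * g⁻¹ * (g * b * g⁻¹) = g * b * g⁻¹ * (g * a * g⁻¹) := fun a b e => by
    calc g * a * g⁻¹ * (g * b * g⁻¹) = g * (a * b) * g⁻¹ := by group
      _ = _ := by rw [e]; group
  have t1r : t1 * r = r * t1 := by have := cm t r h.tr; rwa [gr] at this
  have t1p : t1 * p = p * t1 := by have := cm t (r * p) (by simp only [h.nf]); rwa [gj] at this
  have t11 : t1 * t1 = 1 := by
    calc t1 * t1 = g * (t * t) * g⁻¹ := by rw [ht1]; group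
      _ = 1 := by rw [h.tt]; group
  clear_value t1
  set c := t * t1 with hc
  have cr : Commute c r := (show Commute t r from h.tr).mul_left t1r
  have cp : Commute c p := (show Commute t p from h.tp).mul_left t1p
  have cj' : ∀ k : ℕ, c ^ k * (r * p) = r * p * c ^ k := fun k => (cr.mul_right cp).pow_left k
  have ci : c⁻¹ = t1 * t := by rw [hc, mul_inv_rev, inv_of t11, inv_of h.tt]
  have d0 : t * c * t = c⁻¹ := by rw [ci, hc, as2 h.tt, one_mul]
  have d1 : t1 * c * t1 = c⁻¹ := by rw [ci, hc, mul_assoc, mul_assoc, t11, mul_one]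
  have hex : ∃ n : ℕ, 0 < n ∧ InZ r p (c ^ n) := ⟨orderOf c, orderOf_pos c, Or.inl (pow_orderOf_eq_one c)⟩
  obtain ⟨n0, hz⟩ := Nat.find_spec hex
  have hmin := fun m => @Nat.find_min _ _ hex m
  generalize Nat.find hex = n at n0 hz hmin
  rcases Nat.even_or_odd' n with ⟨m, rfl | rfl⟩
  · have nz : ¬ InZ r p (c ^ m) := fun e => hmin m (by omega) ⟨by omega, e⟩
    have sq : InZ r p (c ^ m * c ^ m) := by rwa [← pow_add, ← two_mul]
    rcases Nat.even_or_odd' m with ⟨k, rfl | rfl⟩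
    · have k1 := (h.key (cr.pow_left _) (cp.pow_left _) nz (dih_pow h.tt d0 _) sq
        (isConj_iff.2 ⟨c ^ k, dih_conj h.tt d0 k⟩)).2
      have i1 := dih_pow t11 d1 (2 * k)
      have i2 := dih_conj t11 d1 k
      have w1 : c ^ (2 * k) * r = r * c ^ (2 * k) := cr.pow_left _
      have w2 := cj' (2 * k)
      generalize c ^ (2 * k) = w at k1 i1 i2 w1 w2 nz
      have k3 : g⁻¹ * w * g * (g⁻¹ * w * g) = p := by
        calc _ = g⁻¹ * (w * w) * g := by group
          _ = p := by rw [k1, ← gp]; group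
      have k2 := (h.key (w := g⁻¹ * w * g)
        (by calc _ = g⁻¹ * (w * (g * r * g⁻¹)) * g := by group
              _ = g⁻¹ * ((g * r * g⁻¹) * w) * g := by rw [gr, w1]
              _ = _ := by group)
        (by calc _ = g⁻¹ * (w * (g * p * g⁻¹)) * g := by group
              _ = g⁻¹ * ((g * p * g⁻¹) * w) * g := by rw [gp, w2]
              _ = _ := by group)
        (fun e => nz (by
          have e' : w = g * (g⁻¹ * w * g) * g⁻¹ := by group
          rcases e with e | e | e | e <;> rw [e] at e'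
          · exact Or.inl (by simpa using e')
          · exact Or.inr (Or.inl (e'.trans gr))
          · exact Or.inr (Or.inr (Or.inr (e'.trans gp)))
          · exact Or.inr (Or.inr (Or.inl (e'.trans gj)))))
        (by calc _ = g⁻¹ * (t1 * w * t1) * g := by rw [ht1]; group
              _ = _ := by rw [i1]; group)
        (k3 ▸ Or.inr (Or.inr (Or.inl rfl)))
        (isConj_iff.2 ⟨g⁻¹ * c ^ k * g, by
          calc _ = g⁻¹ * (c ^ k * t1 * (c ^ k)⁻¹) * g := by rw [ht1]; group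
            _ = g⁻¹ * (w * t1) * g := by rw [i2]
            _ = _ := by rw [ht1]; group⟩)).2
      exact h.jp (k2.symm.trans k3)
    · have x1 : c * t * (c * t) = 1 := by
        calc _ = c * (t * c * t) := by group
          _ = 1 := by rw [d0]; group
      have x2 : c * t * c * (c * t) = c⁻¹ := by
        calc _ = c * (t * c * t) * (t * c * t) := by simp only [mul_assoc, as2 h.tt, one_mul]
          _ = _ := by rw [d0]; group
      have i2 := dih_conj x1 x2 k
      have i3 : c ^ (2 * k + 1) * t = (c ^ k * t) * t1 * (c ^ k * t)⁻¹ := by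
        rw [pow_succ, mul_assoc, ← i2, mul_inv_rev, inv_of h.tt, hc]; simp only [mul_assoc]
      have k1 := (h.key (cr.pow_left _) (cp.pow_left _) nz (dih_pow h.tt d0 _) sq
        (ct1.trans (isConj_iff.2 ⟨_, i3.symm⟩))).1
      have k2 := k1.conj' (g := (c ^ k * t)⁻¹)
        (((show Commute (c ^ k) (r * p) from cj' k).mul_left (show Commute t (r * p) by
          show t * (r * p) = r * p * t; simp only [h.nf])).inv_left)
      rw [i3, show (c ^ k * t)⁻¹ * (c ^ k * t * t1 * (c ^ k * t)⁻¹) * (c ^ k * t)⁻¹⁻¹ = t1 by group] at k2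
      exact h.U' ct1 k2 s1
  · have i2 := dih_conj h.tt d0 m
    have k2 := (h.sq_t hz).conj' (cj' m)
    have : c ^ m * (c ^ (2 * m + 1) * t) * (c ^ m)⁻¹ = c ^ (2 * m + 1) * c ^ (2 * m + 1) * t1 := by
      calc _ = c ^ (2 * m + 1) * (c ^ m * t * (c ^ m)⁻¹) := by group
        _ = c ^ (2 * m + 1) * (c ^ (2 * m + 1) * (c⁻¹ * t)) := by rw [i2]; group
        _ = _ := by rw [ci, mul_assoc t1, h.tt, mul_one, mul_assoc]
    rw [this, h.zsq hz, one_mul] at k2
    exact h.U' ct1 k2 s1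

end Cfsg.Agent.S8R
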