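import Cfsg.Agent.S8R.QE1
import Cfsg.Agent.S8R.QE2a

/-! The commutator `[v', v] = j` is impossible; hence `F4`. -/

set_option autoImplicit false

namespace Cfsg.Agent.S8R

open Equiv Subgroup Cfsg.Agent.BG

variable {G : Type*} [Group G] {ψ : K0 →* G} {s : G}

/-- the nine conjugates of `r q t` under `D` -/
def jj (i j : Fin 3) : K0 := z0 ^ i.1 * y0 ^ j.1 * (r0 * (q0 * t0)) * (z0 ^ i.1 * y0 ^ j.1)⁻¹

theorem qe2_w3 : ∀ a : Perm (Fin 3), ∃ i : Fin 3, ∃ b : Fin 2, a = z0.1 ^ i.1 * r0.1 ^ b.1 := by decide +kernel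

theorem qe2_w5 : ∀ a : Perm (Fin 5), a * t0.2 = t0.2 * a → ∃ i : Fin 3, ∃ b c : Fin 2,
    a = y0.2 ^ i.1 * q0.2 ^ b.1 * t0.2 ^ c.1 := by decide +kernel

theorem qe2_word (k : K0) (h : k * t0 = t0 * k) : ∃ i j : Fin 3, ∃ b d e : Fin 2,
    k = z0 ^ i.1 * r0 ^ b.1 * y0 ^ j.1 * q0 ^ d.1 * t0 ^ e.1 := by
  obtain ⟨i, b, e1⟩ := qe2_w3 k.1
  obtain ⟨j, d, e, e2⟩ := qe2_w5 k.2 (congrArg Prod.snd h)
  refine ⟨i, j, b, d, e, Prod.ext ?_ ?_⟩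
  · rw [e1]; simp [z0, r0, y0, q0, t0]
  · rw [e2]; simp [z0, r0, y0, q0, t0]

theorem qe2_sq1 : ∀ i j : Fin 3, ∀ b d e : Fin 2,
    ((z0 ^ i.1 * r0 ^ b.1 * y0 ^ j.1 * q0 ^ d.1 * t0 ^ e.1) ^ 2) ^ 2 = 1 →
      (z0 ^ i.1 * r0 ^ b.1 * y0 ^ j.1 * q0 ^ d.1 * t0 ^ e.1) ^ 2 = 1 := by decide +kernel

theorem qe2_sq2 : ∀ i j : Fin 3, ∀ b d e : Fin 2,
    ((z0 ^ i.1 * r0 ^ b.1 * y0 ^ j.1 * q0 ^ d.1 * t0 ^ e.1) *
      (y0 ^ i.1 * (q0 * t0) ^ b.1 * z0 ^ j.1 * (r0 * t0) ^ d.1 * t0 ^ e.1)) ^ 2 = 1 →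
    (z0 ^ i.1 * r0 ^ b.1 * y0 ^ j.1 * q0 ^ d.1 * t0 ^ e.1) *
      (y0 ^ i.1 * (q0 * t0) ^ b.1 * z0 ^ j.1 * (r0 * t0) ^ d.1 * t0 ^ e.1) = 1 ∨
    ∃ a c : Fin 3, (z0 ^ i.1 * r0 ^ b.1 * y0 ^ j.1 * q0 ^ d.1 * t0 ^ e.1) *
      (y0 ^ i.1 * (q0 * t0) ^ b.1 * z0 ^ j.1 * (r0 * t0) ^ d.1 * t0 ^ e.1) = jj a c := by decide +kernel

theorem qe2_jj : ∀ a b c d : Fin 3, jj a b * jj c d = jj c d * jj a b → jj a b = jj c d := by decide +kernel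

theorem qe2_cj {a b : K0} (k : K0) (e : k * a * k⁻¹ = b) : IsConj (ψ a) (ψ b) :=
  isConj_iff.2 ⟨ψ k, by rw [← e]; simp⟩

namespace F3

variable (h : F3 ψ s)
include h

theorem qe2_sq {a : G} (h1 : a * ψ t0 = ψ t0 * a) (h2 : a * a * (a * a) = 1) (h3 : a * a ≠ 1) :
    ∃ i j : Fin 3, a * a = ψ (jj i j) := by
  rcases h.ct a h1 with ⟨k, rfl⟩ | ⟨k, e⟩
  · obtain ⟨i, j, b, d, e, rfl⟩ := qe2_word k (h.inj (by simpa using h1))
    refine absurd ?_ h3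
    rw [← map_mul, ← pow_two, qe2_sq1 i j b d e (h.inj (by rw [map_one, ← h2]; simp only [pow_two, map_mul])), map_one]
  · have ea : a = ψ k * s⁻¹ := by rw [e]; group
    have st' : s⁻¹ * ψ t0 = ψ t0 * s⁻¹ := by
      rw [h.qe_si]; exact mul_inv_eq_iff_eq_mul.1 h.st
    have hk : k * t0 = t0 * k := h.inj (by
      rw [map_mul, map_mul, e, mul_assoc, mul_inv_eq_iff_eq_mul.1 h.st, ← mul_assoc, h1, mul_assoc])
    obtain ⟨i, j, b, d, e', rfl⟩ := qe2_word k hk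
    have sq : s * ψ q0 * s⁻¹ = ψ (r0 * t0) := by
      have : ψ q0 = ψ (q0 * t0) * ψ t0 := by rw [← map_mul]; exact congrArg ψ (by decide +kernel)
      rw [this, ← conj_mul, h.qe_back h.sr', h.st, map_mul]
    have e2 : s * ψ (z0 ^ i.1 * r0 ^ b.1 * y0 ^ j.1 * q0 ^ d.1 * t0 ^ e'.1) * s⁻¹ =
        ψ (y0 ^ i.1 * (q0 * t0) ^ b.1 * z0 ^ j.1 * (r0 * t0) ^ d.1 * t0 ^ e'.1) := by
      rw [map_mul, map_mul, map_mul, map_mul, ← conj_mul, ← conj_mul, ← conj_mul, ← conj_mul]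
      simp only [map_pow, ← conj_pow]
      rw [h.sz, h.sr', h.qe_back h.sz, sq, h.st]
      simp only [map_mul, map_pow]
    have e3 : a * a = ψ ((z0 ^ i.1 * r0 ^ b.1 * y0 ^ j.1 * q0 ^ d.1 * t0 ^ e'.1) *
        (y0 ^ i.1 * (q0 * t0) ^ b.1 * z0 ^ j.1 * (r0 * t0) ^ d.1 * t0 ^ e'.1)) := by
      rw [map_mul ψ (z0 ^ i.1 * r0 ^ b.1 * y0 ^ j.1 * q0 ^ d.1 * t0 ^ e'.1), ← e2, ea, h.qe_si]
      simp only [mul_assoc]
    rcases qe2_sq2 i j b d e' (h.inj (by rw [pow_two, map_mul, ← e3, h2, map_one])) with e4 | ⟨x, y, e4⟩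
    · exact absurd (by rw [e3, e4, map_one]) h3
    · exact ⟨x, y, by rw [e3, e4]⟩

theorem nj [Finite G] (e : ψ v0 * (s * ψ v0 * s⁻¹) * ψ v0 * (s * ψ v0 * s⁻¹) = ψ (r0 * (q0 * t0))) : False := by
  have m1 : ∀ a : K0, a * a = 1 → ψ a * ψ a = 1 := fun a e => by rw [← map_mul, e, map_one]
  have m2 : ∀ a b : K0, a * b = b * a → ψ a * ψ b = ψ b * ψ a := fun a b e => by rw [← map_mul, e, map_mul]
  have m3 : ∀ a b : K0, a ≠ b → ψ a ≠ ψ b := fun a b e e' => e (h.inj e')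
  have uu := m1 v0 (by decide +kernel)
  have vv := h.qe_vv
  have tt := m1 t0 (by decide +kernel)
  have sr : s * ψ r0 = ψ (q0 * t0) * s := mul_inv_eq_iff_eq_mul.1 h.sr'
  have sp : s * ψ (q0 * t0) = ψ r0 * s := mul_inv_eq_iff_eq_mul.1 (h.qe_back h.sr')
  have sj : s * ψ (r0 * (q0 * t0)) * s⁻¹ = ψ (r0 * (q0 * t0)) := by
    rw [map_mul, ← conj_mul, h.sr', h.qe_back h.sr']; exact m2 _ _ (by decide +kernel)
  have rp : IsConj (ψ r0) (ψ (q0 * t0)) := isConj_iff.2 ⟨s, h.sr'⟩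
  have up : IsConj (ψ v0) (ψ (q0 * t0)) := qe2_cj (1, swap 1 3) (by decide +kernel)
  have juj : IsConj (ψ (r0 * (q0 * t0) * v0)) (ψ (r0 * (q0 * t0))) := qe2_cj (1, swap 1 4) (by decide +kernel)
  have uv : ψ v0 * (s * ψ v0 * s⁻¹) = ψ (r0 * (q0 * t0)) * ((s * ψ v0 * s⁻¹) * ψ v0) := by
    rw [← e]
    generalize s * ψ v0 * s⁻¹ = v at vv
    simp only [mul_assoc, as2 vv, one_mul, uu, mul_one]
  have rj : IsConj (ψ r0) (ψ (r0 * (q0 * t0))) := by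
    have c1 : IsConj (ψ v0) (s * ψ v0 * s⁻¹) := isConj_iff.2 ⟨s, rfl⟩
    have c2 : IsConj (s * ψ v0 * s⁻¹) (ψ (r0 * (q0 * t0)) * (s * ψ v0 * s⁻¹)) :=
      isConj_iff.2 ⟨ψ v0, by rw [uv]; group⟩
    have c3 : IsConj (ψ (r0 * (q0 * t0) * v0)) (ψ (r0 * (q0 * t0)) * (s * ψ v0 * s⁻¹)) :=
      isConj_iff.2 ⟨s, by rw [map_mul ψ _ v0, ← conj_mul, sj]⟩
    exact ((((rp.trans up.symm).trans c1).trans c2).trans c3.symm).trans juj
  have c3 : ∀ ζ, InZ (ψ r0) (ψ (q0 * t0)) ζ → ¬ IsConj (ψ t0) (ζ * ψ v0) := fun ζ hζ hc => h.nt1 (hc.trans (by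
    rcases hζ with e | e | e | e <;> rw [e]
    · rwa [one_mul]
    · rw [← map_mul]
      exact (qe2_cj (1, swap 1 3) (by decide +kernel)).trans (rj.symm.trans rp)
    · rw [← map_mul]
      exact qe2_cj (1, swap 1 4) (by decide +kernel)
    · rw [← map_mul, ← map_mul]
      exact juj.trans (rj.symm.trans rp)))
  refine Rel.false (r := ψ r0) (p := ψ (q0 * t0)) (t := ψ t0) (v := s * ψ v0 * s⁻¹) (u := ψ v0) (s := s)
    ⟨m1 _ (by decide +kernel), m1 _ (by decide +kernel), tt, vv, uu, h.ss, m2 _ _ (by decide +kernel),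
      m2 _ _ (by decide +kernel), m2 _ _ (by decide +kernel), h.qe_vr, h.qe_vr', m2 _ _ (by decide +kernel),
      m2 _ _ (by decide +kernel), ?_, ?_, ?_, sr, sp, mul_inv_eq_iff_eq_mul.1 h.st, ?_, by group,
      fun e => m3 r0 1 (by decide +kernel) (by rw [e, map_one]),
      fun e => m3 (q0 * t0) 1 (by decide +kernel) (by rw [e, map_one]), m3 _ _ (by decide +kernel), ?_, ?_, ?_, c3,
      by rwa [← map_mul], ?_⟩
  · have rr := m1 r0 (by decide +kernel)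
    rw [h.qe_tv, h.qe_vr.eq]
    simp only [mul_assoc, as2 rr, one_mul]
  · rw [← map_mul, ← map_mul, ← map_mul]; exact congrArg ψ (by decide +kernel)
  · rw [uv, map_mul, mul_assoc]
  · rw [h.qe_si, ← mul_assoc, ← mul_assoc, h.ss, one_mul]
  · intro g h1 h2 h3
    obtain ⟨ζ, hζ, e⟩ := h.qe_cent h1 h2 h3
    refine ⟨ψ ζ, ?_, ?_⟩
    · rcases hζ with rfl | rfl | rfl | rfl
      exacts [Or.inl (map_one ψ), Or.inr (Or.inl rfl), Or.inr (Or.inr (Or.inl rfl)), Or.inr (Or.inr (Or.inr (map_mul ψ _ _)))]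
    · refine e.imp id fun e => ?_
      rw [e, ← map_mul]
      rcases hζ with rfl | rfl | rfl | rfl <;> exact congrArg ψ (by decide +kernel)
  · intro ζ hζ hc
    rcases hζ with e | e | e | e <;> rw [e] at hc
    · exact m3 t0 1 (by decide +kernel) (by rw [map_one]; exact isConj_one_left.1 hc)
    · exact h.nt1 (hc.trans rp)
    · exact h.nt1 hc
    · rw [← map_mul] at hc
      exact h.nt1 (hc.trans (rj.symm.trans rp))
  · intro ζ hζ hc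
    refine c3 (s * ζ * s⁻¹) ?_ (hc.trans (isConj_iff.2 ⟨s, ?_⟩))
    · rcases hζ with e | e | e | e <;> rw [e]
      · exact Or.inl (by group)
      · exact Or.inr (Or.inr (Or.inl h.sr'))
      · exact Or.inr (Or.inl (h.qe_back h.sr'))
      · exact Or.inr (Or.inr (Or.inr (by rw [← map_mul, sj])))
    · rw [← conj_mul, h.qe_back (a := ψ v0) rfl]
  · intro a b a1 b1 a2 b2 a3 b3 hc
    obtain ⟨i, j, ea⟩ := h.qe2_sq a1 a2 a3
    obtain ⟨k, l, eb⟩ := h.qe2_sq b1 b2 b3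
    rw [ea, eb] at hc ⊢
    rw [qe2_jj i j k l (h.inj (by rw [map_mul, map_mul, hc]))]

theorem f4 [Finite G] : F4 ψ s := h.f4_of_nj h.nj

end F3

end Cfsg.Agent.S8R
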