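import Cfsg.Agent.S8R.A

/-! The Boolean model of the Sylow 2-subgroup `(V × V')⟨t, s⟩` of order 64 in the exceptional case. -/

set_option autoImplicit false
set_option linter.unusedSectionVars false

namespace Cfsg.Agent.S8R

open Equiv Subgroup Cfsg.Agent.BG

/-- `⟨a, b, c, d, x, y⟩` stands for `r'^a v'^b r^c v^d t^x s^y`. -/
@[ext] structure M6 where
  a : Bool
  b : Bool
  c : Bool
  d : Bool
  x : Bool
  y : Bool
  deriving DecidableEq

/-- coordinates -/
def eqv6 : M6 ≃ (Bool × Bool) × (Bool × Bool) × Bool × Bool where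
  toFun p := ((p.a, p.b), (p.c, p.d), p.x, p.y)
  invFun q := ⟨q.1.1, q.1.2, q.2.1.1, q.2.1.2, q.2.2.1, q.2.2.2⟩
  left_inv _ := rfl
  right_inv _ := rfl
instance instFintypeM6 : Fintype M6 := Fintype.ofEquiv _ eqv6.symm

instance decAllM6 (P : M6 → Prop) [DecidablePred P] : Decidable (∀ p, P p) :=
  decidable_of_iff (∀ y x d c b a, P ⟨a, b, c, d, x, y⟩) ⟨fun h p => h _ _ _ _ _ _, fun h _ _ _ _ _ _ => h _⟩
instance decExM6 (P : M6 → Prop) [DecidablePred P] : Decidable (∃ p, P p) :=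
  decidable_of_iff (∃ y x d c b a, P ⟨a, b, c, d, x, y⟩)
    ⟨fun ⟨_, _, _, _, _, _, h⟩ => ⟨_, h⟩, fun ⟨_, h⟩ => ⟨_, _, _, _, _, _, h⟩⟩

/-- product -/
def mul6 (p q : M6) : M6 :=
  bif p.y then ⟨p.a ^^ (q.c ^^ (p.x && q.d)), p.b ^^ q.d, p.c ^^ (q.a ^^ (p.x && q.b)), p.d ^^ q.b, p.x ^^ q.x, !q.y⟩
  else ⟨p.a ^^ (q.a ^^ (p.x && q.b)), p.b ^^ q.b, p.c ^^ (q.c ^^ (p.x && q.d)), p.d ^^ q.d, p.x ^^ q.x, q.y⟩
/-- inverse -/
def inv6 (p : M6) : M6 :=
  bif p.y then ⟨p.c ^^ (p.x && p.d), p.d, p.a ^^ (p.x && p.b), p.b, p.x, true⟩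
  else ⟨p.a ^^ (p.x && p.b), p.b, p.c ^^ (p.x && p.d), p.d, p.x, false⟩

theorem mul6_assoc (p q r : M6) : mul6 (mul6 p q) r = mul6 p (mul6 q r) := by
  obtain ⟨a, b, c, d, x, y⟩ := p
  obtain ⟨a', b', c', d', x', y'⟩ := q
  obtain ⟨a'', b'', c'', d'', x'', y''⟩ := r
  have h1 : ∀ a x a' b' x' a'' b'' : Bool, (a ^^ (a' ^^ (x && b')) ^^ (a'' ^^ ((x ^^ x') && b''))) =
      (a ^^ ((a' ^^ (a'' ^^ (x' && b''))) ^^ (x && (b' ^^ b'')))) := by decide +kernel
  cases y <;> cases y' <;> simp only [mul6, cond_true, cond_false, Bool.not_true, Bool.not_false, Bool.not_not, M6.mk.injEq] <;>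
    exact ⟨h1 .., Bool.xor_assoc .., h1 .., Bool.xor_assoc .., Bool.xor_assoc .., trivial⟩

instance instGroupM6 : Group M6 where
  mul := mul6
  one := ⟨false, false, false, false, false, false⟩
  inv := inv6
  mul_assoc := mul6_assoc
  one_mul := by decide +kernel
  mul_one := by decide +kernel
  inv_mul_cancel := by decide +kernel

theorem card_M6 : Nat.card M6 = 64 := by rw [Nat.card_congr eqv6]; simp

def m1 : M6 := ⟨true, false, false, false, false, false⟩
def m2 : M6 := ⟨false, true, false, false, false, false⟩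
def m3 : M6 := ⟨false, false, true, false, false, false⟩
def m4 : M6 := ⟨false, false, false, true, false, false⟩
def mt : M6 := ⟨false, false, false, false, true, false⟩
def ms : M6 := ⟨false, false, false, false, false, true⟩

/-- subgroup of the model from a Boolean predicate -/
def sub6 (P : M6 → Bool) (h1 : P 1 = true) (h2 : ∀ p, P p = true → ∀ q, P q = true → P (p * q⁻¹) = true) : Subgroup M6 :=
  Subgroup.ofDiv {p | P p = true} ⟨1, h1⟩ h2
instance decSub6 (P : M6 → Bool) (h1 h2) : DecidablePred (· ∈ sub6 P h1 h2) := fun p => inferInstanceAs (Decidable (P p = true))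

/-- `E = V × V'` -/
abbrev mE : Subgroup M6 := sub6 (fun p => !p.x && !p.y) rfl (by decide +kernel)

variable {G : Type*} [Group G] [Finite G] {ψ : K0 →* G} {s : G}

/-- the embedding of the model -/
structure FM (ψ : K0 →* G) (s : G) (f : M6 →* G) : Prop where
  inj : Function.Injective f
  e1 : f m1 = ψ (q0 * t0)
  e2 : f m2 = ψ v0
  e3 : f m3 = ψ r0
  e4 : f m4 = s * ψ v0 * s⁻¹
  et : f mt = ψ t0
  es : f ms = s
  eE : mE.map f = VV ψ ⊔ VV' ψ s

/-- the four-group `V` in coordinates -/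
def kv (a b : Bool) : K0 := cond a (q0 * t0) 1 * cond b v0 1

theorem kv_mul : ∀ a b a' b' : Bool, kv a b * kv a' b' = kv (a ^^ a') (b ^^ b') := by decide +kernel
theorem kv_t : ∀ x a b : Bool, cond x t0 1 * kv a b = kv (a ^^ (x && b)) b * cond x t0 1 := by decide +kernel
theorem kv_L (a b : Bool) : kv a b ∈ L0 := by
  refine ⟨?_, Perm.mem_alternatingGroup.2 ?_⟩
  · refine mem_bot.2 ?_; revert a b; decide +kernel
  · revert a b; decide +kernel
theorem ct_mul : ∀ x x' : Bool, cond x t0 1 * cond x' t0 1 = cond (x ^^ x') t0 (1 : K0) := by decide +kernel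

theorem F4.exists_f (h : F4 ψ s) : ∃ f : M6 →* G, FM ψ s f := by
  have si : s⁻¹ = s := inv_eq_of_mul_eq_one_right h.ss
  have sc : ∀ g : G, s * (s * g) = g := fun g => by rw [← mul_assoc, h.ss, one_mul]
  let A : Bool → Bool → G := fun a b => ψ (kv a b)
  let B : Bool → Bool → G := fun a b => s * ψ (kv a b) * s⁻¹
  let T : Bool → G := fun x => ψ (cond x t0 1)
  have AA : ∀ a b a' b' (g : G), A a b * (A a' b' * g) = A (a ^^ a') (b ^^ b') * g := fun a b a' b' g => by
    simp only [A]; rw [← mul_assoc, ← map_mul, kv_mul]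
  have BB : ∀ a b a' b' (g : G), B a b * (B a' b' * g) = B (a ^^ a') (b ^^ b') * g := fun a b a' b' g => by
    simp only [B]; rw [← kv_mul, map_mul]; group
  have BA : ∀ a b a' b' (g : G), B a b * (A a' b' * g) = A a' b' * (B a b * g) := fun a b a' b' g => by
    simp only [A, B]; rw [← mul_assoc, ← h.cm _ (kv_L _ _) _ (kv_L _ _), mul_assoc]
  have sT : ∀ x (g : G), s * (T x * g) = T x * (s * g) := fun x g => by
    cases x
    · simp [T]
    · simp only [T, cond_true]; rw [← mul_assoc, ← mul_assoc, ← mul_inv_eq_iff_eq_mul.1 h.st]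
  have TA : ∀ x a b (g : G), T x * (A a b * g) = A (a ^^ (x && b)) b * (T x * g) := fun x a b g => by
    simp only [A, T]; rw [← mul_assoc, ← map_mul, kv_t, map_mul, mul_assoc]
  have sA : ∀ a b (g : G), s * (A a b * g) = B a b * (s * g) := fun a b g => by simp only [A, B]; group
  have sB : ∀ a b (g : G), s * (B a b * g) = A a b * (s * g) := fun a b g => by
    simp only [A, B]; rw [si, mul_assoc, mul_assoc, sc]
  have TB : ∀ x a b (g : G), T x * (B a b * g) = B (a ^^ (x && b)) b * (T x * g) := fun x a b g => by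
    rw [← sc (T x * (B a b * g)), sT, sB, TA, sA, ← sT, sc]
  have TT : ∀ x x' (g : G), T x * (T x' * g) = T (x ^^ x') * g := fun x x' g => by
    simp only [T]; rw [← mul_assoc, ← map_mul, ct_mul]
  let F : M6 → G := fun p => A p.a p.b * (B p.c p.d * (T p.x * cond p.y s 1))
  have hF : ∀ p q : M6, F (p * q) = F p * F q := by
    rintro ⟨a, b, c, d, x, y⟩ ⟨a', b', c', d', x', y'⟩
    show F (mul6 _ _) = _
    cases y
    · simp only [F, mul6, cond_false, mul_assoc, one_mul]
      rw [TA, TB, TT, BA, AA, BB]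
    · simp only [F, mul6, cond_true, mul_assoc]
      rw [sA, sB, sT, TB, TA, TT, BB, BA, AA]
      cases y'
      · simp
      · simp [h.ss]
  have A0 : A false false = 1 := by simp [A, kv]
  have B0 : B false false = 1 := by simp [B, kv]
  have T0 : T false = 1 := by simp [T]
  let f : M6 →* G := MonoidHom.mk' F hF
  have e1 : f m1 = ψ (q0 * t0) := by show F m1 = _; simp [F, m1, B0, T0, A, kv]
  have e2 : f m2 = ψ v0 := by show F m2 = _; simp [F, m2, B0, T0, A, kv]
  have e3 : f m3 = ψ r0 := by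
    show F m3 = _
    simp only [F, m3, A0, T0, B, kv, cond_true, cond_false, mul_one, one_mul]
    rw [← h.sr', si, mul_assoc, mul_assoc, mul_assoc, h.ss, sc, mul_one]
  have e4 : f m4 = s * ψ v0 * s⁻¹ := by show F m4 = _; simp [F, m4, A0, T0, B, kv]
  have et : f mt = ψ t0 := by show F mt = _; simp [F, mt, A0, B0, T]
  have es : f ms = s := by show F ms = _; simp [F, ms, A0, B0, T0]
  refine ⟨f, ?_, e1, e2, e3, e4, et, es, le_antisymm ?_ (sup_le ?_ ?_)⟩
  · rw [injective_iff_map_eq_one]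
    intro p hp
    by_contra hne
    obtain ⟨q, u, e⟩ := (show ∀ p : M6, p ≠ 1 → ∃ q u : M6, p = m3 * m1 ∨ q * p * q⁻¹ * p⁻¹ = m3 * m1 ∨
      u * (q * p * q⁻¹ * p⁻¹) * u⁻¹ * (q * p * q⁻¹ * p⁻¹)⁻¹ = m3 * m1 by decide +kernel) p hne
    have : f (m3 * m1) = 1 := by
      rcases e with e | e | e <;> rw [← e]
      · exact hp
      · simp [hp]
      · simp [hp]
    rw [map_mul, e1, e3, ← map_mul, ← map_one ψ, h.inj.eq_iff] at this
    exact absurd this (by decide +kernel)
  · rintro _ ⟨p, hp, rfl⟩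
    have k : ∀ (u : Bool) (m : M6), f m ∈ VV ψ ⊔ VV' ψ s → f (cond u m 1) ∈ VV ψ ⊔ VV' ψ s := fun u m hm => by
      cases u
      · simp
      · exact hm
    rw [(show ∀ p ∈ mE, p = cond p.a m1 1 * cond p.b m2 1 * cond p.c m3 1 * cond p.d m4 1 by decide +kernel) p hp,
      map_mul, map_mul, map_mul]
    refine mul_mem (mul_mem (mul_mem (k _ _ ?_) (k _ _ ?_)) (k _ _ ?_)) (k _ _ ?_)
    · exact mem_sup_left (subset_closure (by simp [e1]))
    · exact mem_sup_left (subset_closure (by simp [e2]))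
    · exact mem_sup_right (subset_closure (by simp [e3]))
    · exact mem_sup_right (subset_closure (by simp [e4]))
  · rw [closure_le]
    rintro _ (rfl | rfl)
    exacts [⟨m1, rfl, e1⟩, ⟨m2, rfl, e2⟩]
  · rw [closure_le]
    rintro _ (rfl | rfl)
    exacts [⟨m3, rfl, e3⟩, ⟨m4, rfl, e4⟩]

end Cfsg.Agent.S8R
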