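import Cfsg.Agent.S8R.QF0

/-! The exceptional case: `(V × V')⟨t, s⟩` is a Sylow 2-subgroup and `t, r, j` are pairwise not conjugate. -/

set_option autoImplicit false
set_option linter.unusedSectionVars false

namespace Cfsg.Agent.S8R

open Equiv Subgroup Cfsg.Agent.BG

variable {G : Type*} [Group G] [Finite G] {ψ : K0 →* G} {s : G} {f : M6 →* G}

theorem qf_card {X : Type*} [Group X] [Fintype X] (K : Subgroup X) [DecidablePred (· ∈ K)] :
    Nat.card K = (Finset.univ.filter (fun q : X => q ∈ K)).card := by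
  rw [Nat.card_eq_fintype_card, Fintype.card_subtype]

theorem qf_c12 : Nat.card C1[(swap 3 4 : Perm (Fin 5))] = 12 := by
  classical
  rw [qf_card, ← (show (Finset.univ.filter (fun x : Perm (Fin 5) => x * swap 3 4 = swap 3 4 * x)).card = 12 by decide +kernel)]
  congr 1; ext x; simp only [Finset.mem_filter, mem_cent1]

theorem qf_c2 : Nat.card C1[(swap 0 1 : Perm (Fin 3))] = 2 := by
  classical
  rw [qf_card]
  refine Eq.trans ?_ (show (Finset.univ.filter (fun x : Perm (Fin 3) => x * swap 0 1 = swap 0 1 * x)).card = 2 by decide +kernel)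
  congr 1; ext x; simp only [Finset.mem_filter, mem_cent1]

theorem F3.qf_dvd (h : F3 ψ s) {P : Subgroup G} (A : Subgroup (Perm (Fin 3))) (hP : P ≤ C1[ψ t0])
    (hA : ∀ k : K0, ψ k ∈ P → k.1 ∈ A) : Nat.card (ψ.range ⊓ P : Subgroup G) ∣ Nat.card A * 12 := by
  rw [← qf_c12, ← Nat.card_prod, ← Nat.card_congr (Subgroup.prodEquiv A _).toEquiv,
    ← Subgroup.card_map_of_injective h.inj]
  refine Subgroup.card_dvd_of_le ?_
  rintro _ ⟨⟨k, rfl⟩, hk⟩
  refine ⟨k, ⟨hA k hk, mem_cent1.2 ?_⟩, rfl⟩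
  have := mem_cent1.1 (hP hk)
  rw [← map_mul, ← map_mul, h.inj.eq_iff] at this
  exact congrArg Prod.snd this

theorem F3.qf144 (h : F3 ψ s) {P : Subgroup G} (hP : P ≤ C1[ψ t0]) : Nat.card P ∣ 144 := by
  have h1 := h.qf_dvd ⊤ hP fun _ _ => mem_top _
  have h2 : ψ.range.relIndex P ∣ 2 := by
    refine index_dvd_two_iff.2 ?_
    by_cases hh : ∃ a ∈ P, a * s ∈ ψ.range
    · obtain ⟨a, ha, e⟩ := hh
      refine ⟨⟨a⁻¹, inv_mem ha⟩, fun b => ?_⟩
      rcases h.ct b.1 (mem_cent1.1 (hP b.2)) with e' | e'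
      · exact .inr e'
      · refine .inl ?_
        have := mul_mem e' (inv_mem e)
        rwa [show b.1 * s * (a * s)⁻¹ = b.1 * a⁻¹ by group] at this
    · exact ⟨1, fun b => .inr ((h.ct b.1 (mem_cent1.1 (hP b.2))).resolve_right fun e => hh ⟨_, b.2, e⟩)⟩
  rw [← card_inf_mul_relIndex ψ.range P]
  rw [card_top, Nat.card_perm, Nat.card_fin] at h1
  exact (Nat.mul_dvd_mul h1 h2).trans (by norm_num [Nat.factorial])

theorem F3.qf24 (h : F3 ψ s) {P : Subgroup G} (hP : P ≤ C1[ψ t0]) (hr : P ≤ C1[ψ r0]) : Nat.card P ∣ 24 := by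
  have h1 := h.qf_dvd C1[(swap 0 1 : Perm (Fin 3))] hP fun k hk => by
    have := mem_cent1.1 (hr hk)
    rw [← map_mul, ← map_mul, h.inj.eq_iff] at this
    exact mem_cent1.2 (congrArg Prod.fst this)
  have h2 : P ≤ ψ.range := fun b hb => (h.ct b (mem_cent1.1 (hP hb))).resolve_right fun ⟨k, hk⟩ => by
    have e1 := mem_cent1.1 (hr hb)
    have e2 : ψ (k * (q0 * t0)) = ψ (r0 * k) := by
      rw [map_mul, map_mul ψ r0, hk, ← h.sr', ← mul_assoc (ψ r0), ← e1]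
      calc _ = b * (s * s) * ψ r0 * s⁻¹ * 1 := by group
        _ = b * (s * s) * ψ r0 * s⁻¹ * (s * s) := by rw [h.ss]
        _ = _ := by rw [h.ss, ← h.ss]; nth_rewrite 1 [h.ss]; group
    have e3 := congrArg Prod.fst (h.inj e2)
    exact (show ∀ a : Perm (Fin 3), a * (1 * 1) ≠ swap 0 1 * a by decide +kernel) k.1 e3
  rwa [inf_eq_right.2 h2, qf_c2] at h1

theorem qf_fc (f : M6 →* G) (q p : M6) : f q * f p * (f q)⁻¹ = f (q * p * q⁻¹) := by simp only [map_mul, map_inv]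

theorem qf_zS : f.range ≤ C1[f (m3 * m1)] := by
  rintro _ ⟨p, rfl⟩
  rw [mem_cent1, ← map_mul, ← map_mul, show p * (m3 * m1) = m3 * m1 * p by revert p; decide +kernel]

theorem FM.ej (hf : FM ψ s f) : f (m3 * m1) = ψ (r0 * (q0 * t0)) := by rw [map_mul, hf.e1, hf.e3, map_mul ψ r0]

theorem FM.card (hf : FM ψ s f) : Nat.card f.range = 64 := by
  rw [← Nat.card_congr (MonoidHom.ofInjective hf.inj).toEquiv, card_M6]

theorem F4.ntj (h : F4 ψ s) : ¬ IsConj (ψ t0) (ψ (r0 * (q0 * t0))) := fun c => by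
  obtain ⟨f, hf⟩ := h.exists_f
  obtain ⟨g, hg⟩ := isConj_iff.1 c.symm
  have := h.toF3.qf144 (P := cj g f.range) (by rw [← hg, C1_conj, ← hf.ej]; exact cj_mono g qf_zS)
  rw [card_cj, hf.card] at this
  exact absurd this (by norm_num)

/-- classes of the involutions of `E` -/
theorem F4.qf_cls (h : F4 ψ s) (hf : FM ψ s f) : IsConj (f m2) (f m1) ∧ IsConj (f (m2 * m3)) (f (m3 * m1)) ∧
    IsConj (f (m2 * m4)) (f (m3 * m1)) ∧ IsConj (f (m1 * m2 * m4)) (f (m3 * m1)) := by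
  have si : s⁻¹ = s := inv_eq_of_mul_eq_one_right h.ss
  let k : K0 := (1, swap 1 4 * swap 1 3)
  have kL : k ∈ L0 := ⟨mem_bot.2 rfl, Perm.mem_alternatingGroup.2 (by decide +kernel)⟩
  have l1 : q0 * t0 ∈ L0 := by simpa [kv] using kv_L true false
  have l2 : v0 ∈ L0 := by simpa [kv] using kv_L false true
  have e : ψ k * ψ (q0 * t0) * (ψ k)⁻¹ = ψ v0 := by
    rw [← map_inv, ← map_mul, ← map_mul]; exact congrArg ψ (by decide +kernel)
  have er : ψ r0 = s * ψ (q0 * t0) * s⁻¹ := by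
    rw [← h.sr', si]
    calc _ = (s * s) * ψ r0 * (s * s) := by rw [h.ss]; group
      _ = _ := by group
  have a0 : ∀ a a', ψ k * ψ a * (ψ k)⁻¹ = ψ a' → ∀ b ∈ L0, IsConj (ψ a * (s * ψ b * s⁻¹)) (ψ a' * (s * ψ b * s⁻¹)) :=
    fun a a' e b hb => isConj_iff.2 ⟨ψ k, by
      calc _ = ψ k * ψ a * (ψ k)⁻¹ * (ψ k * (s * ψ b * s⁻¹)) * (ψ k)⁻¹ := by group
        _ = _ := by rw [e, h.cm k kL b hb]; group⟩
  have a1 := a0 _ _ e
  have a3 := a0 v0 (q0 * t0 * v0) (by rw [← map_inv, ← map_mul, ← map_mul]; exact congrArg ψ (by decide +kernel)) _ l2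
  have a2 : IsConj (ψ (q0 * t0) * (s * ψ (q0 * t0) * s⁻¹)) (ψ (q0 * t0) * (s * ψ v0 * s⁻¹)) := isConj_iff.2 ⟨s * ψ k * s⁻¹, by
    rw [← mul_assoc, ← h.cm _ l1 k kL, ← e]; group⟩
  have ej : f (m3 * m1) = ψ (q0 * t0) * (s * ψ (q0 * t0) * s⁻¹) := by
    rw [show m3 * m1 = m1 * m3 by decide, map_mul, hf.e1, hf.e3, er]
  refine ⟨(isConj_iff.2 ⟨ψ k, by rw [hf.e1, hf.e2, e]⟩).symm, ?_, ?_, ?_⟩
  · rw [ej, map_mul f, hf.e2, hf.e3, er]; exact (a1 _ l1).symm
  · rw [ej, map_mul f, hf.e2, hf.e4]; exact (a1 _ l2).symm.trans a2.symm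
  · rw [ej, map_mul f, map_mul f, hf.e1, hf.e2, hf.e4, ← map_mul ψ]; exact a3.symm.trans ((a1 _ l2).symm.trans a2.symm)

/-- the conjugates of `t` in `T₀` -/
theorem F4.clt (h : F4 ψ s) (hf : FM ψ s f) {p : M6} (c : IsConj (f mt) (f p)) : ∃ q ∈ mE, q * p * q⁻¹ = mt := by
  have si : s⁻¹ = s := inv_eq_of_mul_eq_one_right h.ss
  obtain ⟨g, hg⟩ := isConj_iff.1 c
  have p2 : p * p = 1 := hf.inj (by
    rw [map_mul, ← hg, map_one]
    calc _ = g * f (mt * mt) * g⁻¹ := by rw [map_mul]; group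
      _ = 1 := by rw [show mt * mt = 1 by decide, map_one]; group)
  have p1 : p ≠ 1 := fun e => by
    rw [e, map_one, conj_eq_one_iff, ← map_one f, hf.inj.eq_iff] at hg
    exact absurd hg (by decide)
  have n1 : ¬ IsConj (f mt) (f m1) := by rw [hf.et, hf.e1]; exact h.nt1
  have nj : ¬ IsConj (f mt) (f (m3 * m1)) := by rw [hf.et, hf.ej]; exact h.ntj
  have sy : s * ψ (z0 * y0) = ψ (z0 * y0) * s := by
    have e1 : s * ψ z0 = ψ y0 * s := mul_inv_eq_iff_eq_mul.1 h.sz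
    have e2 : s * ψ y0 = ψ z0 * s := by rw [← h.sz, si, ← mul_assoc, ← mul_assoc, h.ss, one_mul]
    rw [map_mul, ← mul_assoc, e1, mul_assoc, e2, ← mul_assoc, ← map_mul, ← map_mul, show y0 * z0 = z0 * y0 by decide +kernel]
  have ns : ¬ IsConj (f mt) (f ms) := fun c => by
    have := h.nt2 _ (hf.et ▸ c) (by rw [hf.es]; exact sy)
    rw [← hf.et, hf.inj.eq_iff] at this
    exact absurd this (by decide)
  have nst : ¬ IsConj (f mt) (f (ms * mt)) := fun c => by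
    have := h.nt2 _ (hf.et ▸ c) (by
      rw [map_mul f, hf.es, hf.et, mul_assoc, ← map_mul, show t0 * (z0 * y0) = z0 * y0 * t0 by decide +kernel, map_mul ψ _ t0,
        ← mul_assoc, sy, mul_assoc])
    rw [← hf.et, hf.inj.eq_iff] at this
    exact absurd this (by decide)
  obtain ⟨c1, c2, c3, c4⟩ := h.qf_cls hf
  rcases (show ∀ p : M6, p * p = 1 → p ≠ 1 → (∃ q ∈ mE, q * p * q⁻¹ = mt) ∨ ∃ q : M6, q * p * q⁻¹ = ms ∨ q * p * q⁻¹ = ms * mt ∨
    q * p * q⁻¹ = m1 ∨ q * p * q⁻¹ = m2 ∨ q * p * q⁻¹ = m3 * m1 ∨ q * p * q⁻¹ = m2 * m3 ∨ q * p * q⁻¹ = m2 * m4 ∨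
    q * p * q⁻¹ = m1 * m2 * m4
    by decide +kernel) p p2 p1 with e | ⟨q, e⟩
  · exact e
  have cq : IsConj (f mt) (f (q * p * q⁻¹)) := c.trans (isConj_iff.2 ⟨f q, qf_fc f q p⟩)
  rcases e with e | e | e | e | e | e | e | e <;> rw [e] at cq
  exacts [absurd cq ns, absurd cq nst, absurd cq n1, absurd (cq.trans c1) n1, absurd cq nj, absurd (cq.trans c2) nj,
    absurd (cq.trans c3) nj, absurd (cq.trans c4) nj]

theorem F4.qf_syl (h : F4 ψ s) (hf : FM ψ s f) {W U : Subgroup M6} {H : Subgroup G} (hH : W.map f ≤ H) (hE : mE ≤ W)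
    (ht : mt ∈ W) (hU : U ≤ W) (hUt : ∀ p ∈ U, p * mt = mt * p) {n : ℕ} (hn : Nat.card U = 2 ^ n)
    (hc : ∀ Q : Subgroup G, Q ≤ H → Q ≤ C1[ψ t0] → ¬ 2 ^ (n + 1) ∣ Nat.card Q) : SylowIn 2 (W.map f) H := by
  have := Nat.fact_prime_two
  have pW : IsPGroup 2 (W.map f) :=
    ((IsPGroup.of_card (n := 6) card_M6).to_subgroup W).map f
  refine max_pgroup_Sylow hH pW fun Q hQ h1 h2 => ?_
  by_contra hne
  have := hQ.isNilpotent
  obtain ⟨g, hg, hg'⟩ := SetLike.exists_of_lt (Group.normalizerCondition_of_isNilpotent ((W.map f).subgroupOf Q)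
    (lt_top_iff_ne_top.2 fun e => hne (le_antisymm (subgroupOf_eq_top.1 e) h1)))
  rw [← subgroupOf_normalizer_eq h1, mem_subgroupOf] at hg
  rw [mem_subgroupOf] at hg'
  obtain ⟨p, -, ep⟩ := conj_mem_of_norm hg (show f mt ∈ W.map f from ⟨mt, ht, rfl⟩)
  obtain ⟨q, hq, eq⟩ := h.clt hf (isConj_iff.2 ⟨g.1, ep.symm⟩)
  have hq' : f q ∈ W.map f := ⟨q, hE hq, rfl⟩
  have l1 : U.map f ≤ Q ⊓ C1[ψ t0] := le_inf ((map_mono hU).trans h1) (by
    rintro _ ⟨u, hu, rfl⟩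
    rw [mem_cent1, ← hf.et, ← map_mul, ← map_mul, hUt u hu])
  have l2 : U.map f = Q ⊓ C1[ψ t0] := by
    refine Subgroup.eq_of_le_of_card_ge l1 ?_
    obtain ⟨m, hm⟩ := IsPGroup.iff_card.1 (hQ.to_inf_left (K := C1[ψ t0]))
    have := hc (Q ⊓ C1[ψ t0]) (inf_le_left.trans h2) inf_le_right
    rw [hm] at this
    rw [hm, Subgroup.card_map_of_injective hf.inj, hn]
    refine Nat.pow_le_pow_right (by norm_num) ?_
    by_contra hlt
    exact this (pow_dvd_pow 2 (by omega))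
  have l3 : f q * g.1 ∈ U.map f := by
    rw [l2]
    refine ⟨mul_mem (h1 hq') g.2, mem_cent1.2 (mul_inv_eq_iff_eq_mul.1 ?_)⟩
    rw [← hf.et]
    calc _ = f q * (g.1 * f mt * g.1⁻¹) * (f q)⁻¹ := by group
      _ = _ := by rw [← ep, qf_fc, eq]
  exact hg' ((mul_mem_cancel_left hq').1 (map_mono hU l3))

theorem F4.sylR (h : F4 ψ s) (hf : FM ψ s f) : SylowIn 2 f.range ⊤ := by
  rw [MonoidHom.range_eq_map]
  exact h.qf_syl hf (U := sub6 (fun p => !p.b && !p.d) rfl (by decide +kernel)) (n := 4) le_top le_top (mem_top _) le_top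
    (by decide +kernel) (by rw [qf_card]; decide +kernel)
    fun Q _ hQ hd => absurd (hd.trans (h.toF3.qf144 hQ)) (by norm_num)

theorem FM.range_eq (hf : FM ψ s f) : f.range = VV ψ ⊔ VV' ψ s ⊔ closure {ψ t0, s} := by
  rw [← hf.eE]
  refine le_antisymm ?_ (sup_le (map_le_range _ _) ?_)
  · rintro _ ⟨p, rfl⟩
    have a1 : f mt ∈ closure {ψ t0, s} := subset_closure (by simp [hf.et])
    have a2 : f ms ∈ closure {ψ t0, s} := subset_closure (by simp [hf.es])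
    obtain ⟨e, he, h⟩ := (show ∀ p : M6, ∃ e ∈ mE, p = e ∨ p = e * mt ∨ p = e * ms ∨ p = e * (mt * ms) by decide +kernel) p
    have a0 : f e ∈ mE.map f ⊔ closure {ψ t0, s} := mem_sup_left ⟨e, he, rfl⟩
    rcases h with rfl | rfl | rfl | rfl <;> try simp only [map_mul]
    exacts [a0, mul_mem a0 (mem_sup_right a1), mul_mem a0 (mem_sup_right a2), mul_mem a0 (mem_sup_right (mul_mem a1 a2))]
  · rw [closure_le]
    rintro _ (rfl | rfl)
    exacts [⟨mt, hf.et⟩, ⟨ms, hf.es⟩]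

theorem F4.syl0 (h : F4 ψ s) : SylowIn 2 (VV ψ ⊔ VV' ψ s ⊔ closure {ψ t0, s}) ⊤ := by
  obtain ⟨f, hf⟩ := h.exists_f
  rw [← hf.range_eq]; exact h.sylR hf

theorem F4.nrj (h : F4 ψ s) : ¬ IsConj (ψ r0) (ψ (r0 * (q0 * t0))) := fun c => by
  have := Nat.fact_prime_two
  obtain ⟨f, hf⟩ := h.exists_f
  have hS : SylowIn 2 ((sub6 (fun p => !p.y) rfl (by decide +kernel)).map f) C1[ψ r0] :=
    h.qf_syl hf (U := sub6 (fun p => !p.b && !p.d && !p.y) rfl (by decide +kernel)) (n := 3) (by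
        rintro _ ⟨p, hp, rfl⟩
        rw [mem_cent1, ← hf.e3, ← map_mul, ← map_mul, (show ∀ p : M6, (!p.y) = true → p * m3 = m3 * p by decide +kernel) p hp])
      (show ∀ p ∈ mE, _ by decide +kernel) rfl (fun p => by revert p; decide +kernel)
      (by decide +kernel) (by rw [qf_card]; decide +kernel)
      fun Q h1 hQ hd => absurd (hd.trans (h.toF3.qf24 hQ h1)) (by norm_num)
  obtain ⟨g, hg⟩ := isConj_iff.1 c.symm
  obtain ⟨k, -, hk⟩ := Sylow_Jsub hS (Q := cj g f.range) (by rw [← hg, C1_conj, ← hf.ej]; exact cj_mono g qf_zS)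
    (IsPGroup.of_card (n := 6) (by rw [card_cj, hf.card]; rfl))
  have := Subgroup.card_le_of_le hk
  rw [card_cj, card_cj, hf.card, Subgroup.card_map_of_injective hf.inj, qf_card] at this
  exact absurd this (by decide +kernel)

end Cfsg.Agent.S8R
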