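import Cfsg.Agent.S8R.QF2a

/-! The classes of involutions of `T₀ = V V' ⟨t, s⟩` and the normal subgroup of index four. -/

set_option autoImplicit false
set_option linter.unusedSectionVars false

namespace Cfsg.Agent.S8R

open Equiv Subgroup Cfsg.Agent.BG

variable {G : Type*} [Group G] [Finite G] {ψ : K0 →* G} {s : G}

theorem qf_sup {V W : Subgroup G} (c : ∀ a ∈ V, ∀ b ∈ W, a * b = b * a) {x : G} (hx : x ∈ V ⊔ W) :
    ∃ a ∈ V, ∃ b ∈ W, a * b = x := by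
  let P : Subgroup G :=
    { carrier := {x | ∃ a ∈ V, ∃ b ∈ W, a * b = x}
      one_mem' := ⟨1, V.one_mem, 1, W.one_mem, mul_one 1⟩
      mul_mem' := by
        rintro _ _ ⟨a, ha, b, hb, rfl⟩ ⟨a', ha', b', hb', rfl⟩
        refine ⟨_, V.mul_mem ha ha', _, W.mul_mem hb hb', ?_⟩
        calc a * a' * (b * b') = a * (a' * b) * b' := by group
          _ = _ := by rw [c a' ha' b hb]; group
      inv_mem' := by
        rintro _ ⟨a, ha, b, hb, rfl⟩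
        exact ⟨_, V.inv_mem ha, _, W.inv_mem hb, by rw [c a ha b hb, mul_inv_rev]⟩ }
  have : V ⊔ W ≤ P := sup_le (fun a ha => ⟨a, ha, 1, W.one_mem, mul_one a⟩) fun b hb => ⟨1, V.one_mem, b, hb, one_mul b⟩
  exact this hx

theorem qf_swap {V W : Subgroup G} (c : ∀ a ∈ V, ∀ b ∈ W, a * b = b * a) (d : ∀ a ∈ V, ∀ b ∈ W, a * b = 1 → b = 1)
    {w x : G} (ww : w * w = 1) (h1 : ∀ a ∈ V, w * a * w⁻¹ ∈ W) (h2 : ∀ b ∈ W, w * b * w⁻¹ ∈ V) (xx : x * x = 1)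
    (hx : x * w ∈ V ⊔ W) : IsConj w x := by
  obtain ⟨a, ha, b, hb, e⟩ := qf_sup c hx
  have iw : w⁻¹ = w := inv_eq_of_mul_eq_one_right ww
  have ex : x = a * b * w := by rw [e, mul_assoc, ww, mul_one]
  have k := d _ (V.mul_mem ha (h2 b hb)) _ (W.mul_mem hb (h1 a ha)) (by
    rw [mul_assoc, c _ (h2 b hb) _ (W.mul_mem hb (h1 a ha))]
    calc _ = a * b * w * (a * (w⁻¹ * w) * b * w⁻¹) := by group
      _ = 1 := by rw [inv_mul_cancel, mul_one, iw, ← ex, xx])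
  refine isConj_iff.2 ⟨a, ?_⟩
  rw [ex, eq_inv_of_mul_eq_one_left k]
  calc a * w * a⁻¹ = a * w * a⁻¹ * (w⁻¹ * w) := by group
    _ = _ := by group

/-- the four-group of `L0` -/
def QfV (a : K0) : Prop := a = 1 ∨ a = q0 * t0 ∨ a = v0 ∨ a = q0 * t0 * v0

theorem QfV.mul {a b : K0} (ha : QfV a) (hb : QfV b) : QfV (a * b) := by
  unfold QfV at *
  rcases ha with rfl | rfl | rfl | rfl <;> rcases hb with rfl | rfl | rfl | rfl <;> decide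
theorem QfV.sq {a : K0} (ha : QfV a) : a * a = 1 := by
  rcases ha with rfl | rfl | rfl | rfl <;> decide
theorem QfV.cm {a : K0} (ha : QfV a) : a * (q0 * t0) = q0 * t0 * a := by
  rcases ha with rfl | rfl | rfl | rfl <;> decide
theorem QfV.ct {a : K0} (ha : QfV a) : QfV (t0 * a * t0⁻¹) := by
  unfold QfV at *
  rcases ha with rfl | rfl | rfl | rfl <;> decide
theorem QfV.fx {a : K0} (ha : QfV a) (h : a * (t0 * a * t0⁻¹) = 1) : a = 1 ∨ a = q0 * t0 := by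
  revert h
  rcases ha with rfl | rfl | rfl | rfl <;> decide
theorem QfV.cy {a : K0} (ha : QfV a) (h : a * y0 = y0 * a) : a = 1 := by
  revert h
  rcases ha with rfl | rfl | rfl | rfl <;> decide
theorem qf2_L0 {a : K0} : a ∈ L0 ↔ a.1 = 1 ∧ Perm.sign a.2 = 1 := by
  simp [L0, mem_prod, Perm.mem_alternatingGroup]
theorem QfV.mem {a : K0} (ha : QfV a) : a ∈ L0 := by
  rw [qf2_L0]
  rcases ha with rfl | rfl | rfl | rfl <;> decide
theorem QfV.cj {a : K0} (ha : QfV a) : a = 1 ∨ ∃ c ∈ L0, c * a * c⁻¹ = q0 * t0 := by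
  rcases ha with rfl | rfl | rfl | rfl
  · exact Or.inl rfl
  · exact Or.inr ⟨1, one_mem _, by decide⟩
  · exact Or.inr ⟨(1, swap 1 3 * swap 0 3), qf2_L0.2 (by decide), by decide⟩
  · exact Or.inr ⟨(1, swap 1 4 * swap 1 3), qf2_L0.2 (by decide), by decide⟩

theorem qf_memV {a : G} : a ∈ VV ψ ↔ ∃ a0, QfV a0 ∧ ψ a0 = a := by
  constructor
  · intro h
    induction h using closure_induction with
    | mem x hx =>
      rcases hx with rfl | rfl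
      · exact ⟨_, Or.inr (Or.inl rfl), rfl⟩
      · exact ⟨_, Or.inr (Or.inr (Or.inl rfl)), rfl⟩
    | one => exact ⟨1, Or.inl rfl, map_one ψ⟩
    | mul x y _ _ hx hy =>
      obtain ⟨a, ha, rfl⟩ := hx
      obtain ⟨b, hb, rfl⟩ := hy
      exact ⟨_, ha.mul hb, map_mul ψ a b⟩
    | inv x _ hx =>
      obtain ⟨a, ha, rfl⟩ := hx
      exact ⟨a, ha, by rw [← map_inv, inv_eq_of_mul_eq_one_right ha.sq]⟩
  · have h1 : ψ (q0 * t0) ∈ VV ψ := subset_closure (Or.inl rfl)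
    have h2 : ψ v0 ∈ VV ψ := subset_closure (Or.inr rfl)
    rintro ⟨a, rfl | rfl | rfl | rfl, rfl⟩
    · rw [map_one]; exact one_mem _
    · exact h1
    · exact h2
    · rw [map_mul]; exact mul_mem h1 h2

theorem F4.q2s2 (h : F4 ψ s) (x : G) : s * (s * x * s⁻¹) * s⁻¹ = x := by
  have is : s⁻¹ = s := inv_eq_of_mul_eq_one_right h.ss
  rw [is]
  calc _ = s * s * x * (s * s) := by group
    _ = x := by rw [h.ss]; group

theorem F4.q2sr2 (h : F4 ψ s) : s * ψ (q0 * t0) * s⁻¹ = ψ r0 := by rw [← h.sr', h.q2s2]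

theorem F4.q2vv' (h : F4 ψ s) : VV' ψ s = cj s (VV ψ) := by
  rw [cj_closure, Set.image_pair, h.q2sr2]

theorem F4.q2memV' (h : F4 ψ s) {b : G} : b ∈ VV' ψ s ↔ ∃ b0, QfV b0 ∧ s * ψ b0 * s⁻¹ = b := by
  rw [h.q2vv', mem_cj']
  constructor
  · rintro ⟨a, ha, rfl⟩
    obtain ⟨a0, h0, rfl⟩ := qf_memV.1 ha
    exact ⟨a0, h0, rfl⟩
  · rintro ⟨a0, h0, rfl⟩
    exact ⟨_, qf_memV.2 ⟨a0, h0, rfl⟩, rfl⟩

theorem F4.q2cmV (h : F4 ψ s) : ∀ a ∈ VV ψ, ∀ b ∈ VV' ψ s, a * b = b * a := fun a ha b hb => by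
  obtain ⟨a, h1, rfl⟩ := qf_memV.1 ha
  obtain ⟨b, h2, rfl⟩ := h.q2memV'.1 hb
  exact h.cm a h1.mem b h2.mem

theorem F4.q2djV (h : F4 ψ s) : ∀ a ∈ VV ψ, ∀ b ∈ VV' ψ s, a * b = 1 → a = 1 ∧ b = 1 := fun a ha b hb e => by
  obtain ⟨a, h1, rfl⟩ := qf_memV.1 ha
  obtain ⟨b, h2, rfl⟩ := h.q2memV'.1 hb
  have c := h.cm y0 (qf2_L0.2 (by decide)) b h2.mem
  have e1 : s * ψ b * s⁻¹ = ψ a := by
    rw [eq_inv_of_mul_eq_one_right e, ← map_inv, inv_eq_of_mul_eq_one_right h1.sq]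
  rw [e1, ← map_mul, ← map_mul] at c
  rw [e1, h1.cy (h.inj c).symm, map_one]
  exact ⟨rfl, rfl⟩

theorem F4.q2tt (_ : F4 ψ s) : ψ t0 * ψ t0 = 1 := by rw [← map_mul, show t0 * t0 = 1 by decide, map_one]
theorem F4.q2ts (h : F4 ψ s) : ψ t0 * s = s * ψ t0 := by
  conv_lhs => rw [← h.st]
  group

theorem F4.q2tσ (h : F4 ψ s) (b : K0) : ψ t0 * (s * ψ b * s⁻¹) * (ψ t0)⁻¹ = s * ψ (t0 * b * t0⁻¹) * s⁻¹ := by
  rw [map_mul, map_mul, map_inv]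
  calc _ = ψ t0 * s * ψ b * (ψ t0 * s)⁻¹ := by group
    _ = _ := by rw [h.q2ts]; group

theorem F4.q2tV (_ : F4 ψ s) : ∀ a ∈ VV ψ, ψ t0 * a * (ψ t0)⁻¹ ∈ VV ψ := fun a ha => by
  obtain ⟨a, h1, rfl⟩ := qf_memV.1 ha
  exact qf_memV.2 ⟨_, h1.ct, by rw [map_mul, map_mul, map_inv]⟩
theorem F4.q2tV' (h : F4 ψ s) : ∀ a ∈ VV' ψ s, ψ t0 * a * (ψ t0)⁻¹ ∈ VV' ψ s := fun a ha => by
  obtain ⟨a, h1, rfl⟩ := h.q2memV'.1 ha
  exact h.q2memV'.2 ⟨_, h1.ct, (h.q2tσ a).symm⟩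
theorem F4.q2sV (h : F4 ψ s) : ∀ a ∈ VV ψ, s * a * s⁻¹ ∈ VV' ψ s := fun a ha => by
  rw [h.q2vv']; exact conj_mem_cj s ha
theorem F4.q2sV' (h : F4 ψ s) : ∀ a ∈ VV' ψ s, s * a * s⁻¹ ∈ VV ψ := fun a ha => by
  obtain ⟨a, h1, rfl⟩ := h.q2memV'.1 ha
  rw [h.q2s2]; exact qf_memV.2 ⟨a, h1, rfl⟩

theorem F4.q2tE (h : F4 ψ s) : ∀ e ∈ VV ψ ⊔ VV' ψ s, ψ t0 * e * (ψ t0)⁻¹ ∈ VV ψ ⊔ VV' ψ s := fun e he => by
  obtain ⟨a, ha, b, hb, rfl⟩ := qf_sup h.q2cmV he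
  have := mul_mem (mem_sup_left (h.q2tV a ha) : _ ∈ VV ψ ⊔ VV' ψ s) (mem_sup_right (h.q2tV' b hb))
  convert this using 1; group
theorem F4.q2sE (h : F4 ψ s) : ∀ e ∈ VV ψ ⊔ VV' ψ s, s * e * s⁻¹ ∈ VV ψ ⊔ VV' ψ s := fun e he => by
  obtain ⟨a, ha, b, hb, rfl⟩ := qf_sup h.q2cmV he
  have := mul_mem (mem_sup_right (h.q2sV a ha) : _ ∈ VV ψ ⊔ VV' ψ s) (mem_sup_left (h.q2sV' b hb))
  convert this using 1; group

theorem F4.q2dec (h : F4 ψ s) : ∀ x ∈ VV ψ ⊔ VV' ψ s ⊔ closure {ψ t0, s}, x ∈ VV ψ ⊔ VV' ψ s ∨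
    x * ψ t0 ∈ VV ψ ⊔ VV' ψ s ∨ x * s ∈ VV ψ ⊔ VV' ψ s ∨ x * (ψ t0 * s) ∈ VV ψ ⊔ VV' ψ s := fun x hx => by
  have hn : ∀ e ∈ qfExt _ _ h.q2tt h.q2tE, s * e * s⁻¹ ∈ qfExt _ _ h.q2tt h.q2tE := by
    rintro e (he | he)
    · exact Or.inl (h.q2sE e he)
    · refine Or.inr ?_
      have := h.q2sE _ he
      convert this using 1
      conv_lhs => rw [← h.st]
      group
  have : VV ψ ⊔ VV' ψ s ⊔ closure {ψ t0, s} ≤ qfExt _ s h.ss hn := by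
    refine sup_le (fun x hx => Or.inl (Or.inl hx)) ((closure_le _).2 ?_)
    rintro _ (rfl | rfl)
    · exact Or.inl (Or.inr (by rw [h.q2tt]; exact one_mem _))
    · exact Or.inr (by rw [h.ss]; exact one_mem _)
  rcases this hx with (h1 | h1) | (h1 | h1)
  · exact Or.inl h1
  · exact Or.inr (Or.inl h1)
  · exact Or.inr (Or.inr (Or.inl h1))
  · exact Or.inr (Or.inr (Or.inr (by rw [h.q2ts, ← mul_assoc]; exact h1)))

theorem F4.q2cE (h : F4 ψ s) : ∀ e ∈ VV ψ ⊔ VV' ψ s, e * ψ (q0 * t0) = ψ (q0 * t0) * e := fun e he => by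
  obtain ⟨a, ha, b, hb, rfl⟩ := qf_sup h.q2cmV he
  have c := h.q2cmV _ (qf_memV.2 ⟨q0 * t0, Or.inr (Or.inl rfl), rfl⟩) b hb
  obtain ⟨a, h1, rfl⟩ := qf_memV.1 ha
  rw [mul_assoc, ← c, ← mul_assoc, ← map_mul, h1.cm, map_mul ψ (q0 * t0), mul_assoc]

theorem F4.q2ns (h : F4 ψ s) : s * ψ (q0 * t0) ≠ ψ (q0 * t0) * s := fun e => by
  have := h.q2sr2
  rw [e, mul_inv_cancel_right] at this
  exact absurd (h.inj this) (by decide)

theorem qf_ψconj {a b : K0} (c : K0) (e : c * a * c⁻¹ = b) : IsConj (ψ a) (ψ b) :=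
  isConj_iff.2 ⟨ψ c, by rw [← e, map_mul, map_mul, map_inv]⟩

/-- classes in `E` -/
theorem F4.q2clsE (h : F4 ψ s) : ∀ e ∈ VV ψ ⊔ VV' ψ s,
    e = 1 ∨ IsConj e (ψ (q0 * t0)) ∨ IsConj e (ψ (r0 * (q0 * t0))) := fun e he => by
  obtain ⟨a, ha, b, hb, rfl⟩ := qf_sup h.q2cmV he
  obtain ⟨a, h1, rfl⟩ := qf_memV.1 ha
  obtain ⟨b, h2, rfl⟩ := h.q2memV'.1 hb
  rcases h1.cj with rfl | ⟨c, hc, ec⟩ <;> rcases h2.cj with rfl | ⟨d, hd, ed⟩
  · left; simp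
  · right; left
    rw [map_one, one_mul]
    exact (qf_conj s _).symm.trans (qf_ψconj d ed)
  · right; left
    rw [map_one, mul_one, mul_inv_cancel, mul_one]
    exact qf_ψconj c ec
  · right; right
    refine isConj_iff.2 ⟨ψ c * (s * ψ d * s⁻¹), ?_⟩
    have k1 := h.cm a h1.mem d hd
    have k2 := h.cm c hc (q0 * t0) (qf2_L0.2 (by decide))
    have k3 : s * ψ d * s⁻¹ * (s * ψ b * s⁻¹) * (s * ψ d * s⁻¹)⁻¹ = s * ψ (q0 * t0) * s⁻¹ := by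
      rw [← ed, map_mul, map_mul, map_inv]; group
    calc _ = ψ c * (s * ψ d * s⁻¹ * ψ a) * (s * ψ b * s⁻¹) * (s * ψ d * s⁻¹)⁻¹ * (ψ c)⁻¹ := by group
      _ = ψ c * ψ a * (s * ψ d * s⁻¹ * (s * ψ b * s⁻¹) * (s * ψ d * s⁻¹)⁻¹) * (ψ c)⁻¹ := by rw [← k1]; group
      _ = ψ c * ψ a * (ψ c)⁻¹ * (ψ c * (s * ψ (q0 * t0) * s⁻¹) * (ψ c)⁻¹) := by rw [k3]; group
      _ = ψ (q0 * t0) * ψ r0 := by
        rw [k2, mul_inv_cancel_right, h.q2sr2, ← map_inv, ← map_mul, ← map_mul, ec]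
      _ = _ := by rw [← map_mul, show q0 * t0 * r0 = r0 * (q0 * t0) by decide]

/-- involutions of `E t` -/
theorem F4.q2clsT (h : F4 ψ s) (x : G) (xx : x * x = 1) (hx : x * ψ t0 ∈ VV ψ ⊔ VV' ψ s) : IsConj (ψ t0) x := by
  obtain ⟨a, ha, b, hb, e⟩ := qf_sup h.q2cmV hx
  have it : (ψ t0)⁻¹ = ψ t0 := inv_eq_of_mul_eq_one_right h.q2tt
  have ex : x = a * b * ψ t0 := by rw [e, mul_assoc, h.q2tt, mul_one]
  obtain ⟨k1, k2⟩ := h.q2djV _ (mul_mem ha (h.q2tV a ha)) _ (mul_mem hb (h.q2tV' b hb)) (by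
    calc _ = a * (ψ t0 * a * (ψ t0)⁻¹ * b) * (ψ t0 * b * (ψ t0)⁻¹) := by group
      _ = a * b * ψ t0 * (a * b * (ψ t0)⁻¹) := by rw [h.q2cmV _ (h.q2tV a ha) b hb]; group
      _ = 1 := by rw [it, ← ex, xx])
  obtain ⟨a, h1, rfl⟩ := qf_memV.1 ha
  obtain ⟨b, h2, rfl⟩ := h.q2memV'.1 hb
  have e1 := h1.fx (h.inj (by rw [map_mul, map_mul, map_mul, map_inv, k1, map_one]))
  have e2 := h2.fx (h.inj (by
    rw [h.q2tσ] at k2
    rw [map_mul ψ b, map_one]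
    calc _ = s⁻¹ * (s * ψ b * s⁻¹ * (s * ψ (t0 * b * t0⁻¹) * s⁻¹)) * s := by group
      _ = 1 := by rw [k2]; group))
  have c1 : IsConj (ψ t0) (ψ q0) := qf_ψconj v0 (by decide)
  have c2 : IsConj (ψ t0) (ψ (r0 * t0)) := by
    refine c1.trans (isConj_iff.2 ⟨s, ?_⟩)
    rw [map_mul, ← h.q2sr2, show q0 = q0 * t0 * t0 by decide, map_mul ψ (q0 * t0)]
    conv_rhs => rw [← h.st, show q0 * t0 * t0 * t0 = q0 * t0 by decide]
    group
  rw [ex]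
  rcases e1 with rfl | rfl <;> rcases e2 with rfl | rfl
  · rw [map_one, mul_one, mul_inv_cancel, mul_one, one_mul]
  · rw [h.q2sr2, map_one, one_mul, ← map_mul]; exact c2
  · rw [map_one, mul_one, mul_inv_cancel, mul_one, ← map_mul, show q0 * t0 * t0 = q0 by decide]; exact c1
  · rw [h.q2sr2, ← map_mul, ← map_mul]; exact c2.trans (qf_ψconj v0 (by decide))

theorem F4.q2sy (h : F4 ψ s) : s * ψ (z0 * y0) = ψ (z0 * y0) * s := by
  have e2 : s * ψ y0 * s⁻¹ = ψ z0 := by rw [← h.sz, h.q2s2]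
  have : s * ψ (z0 * y0) * s⁻¹ = ψ (z0 * y0) := by
    calc _ = s * ψ z0 * s⁻¹ * (s * ψ y0 * s⁻¹) := by rw [map_mul]; group
      _ = _ := by rw [h.sz, e2, ← map_mul, show y0 * z0 = z0 * y0 by decide]
  conv_rhs => rw [← this]
  group

theorem F4.q2nts (h : F4 ψ s) : ¬ IsConj (ψ t0) s := fun c => by
  have e := h.nt2 s c h.q2sy
  have := h.q2ns
  rw [e, ← map_mul, ← map_mul, show t0 * (q0 * t0) = q0 * t0 * t0 by decide] at this
  exact this rfl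

theorem F4.q2ntts (h : F4 ψ s) : ¬ IsConj (ψ t0) (ψ t0 * s) := fun c => by
  have e := h.nt2 _ c (by
    rw [mul_assoc, h.q2sy, ← mul_assoc, ← mul_assoc, ← map_mul, ← map_mul, show t0 * (z0 * y0) = z0 * y0 * t0 by decide])
  have := h.q2ns
  rw [mul_eq_left.1 e] at this
  exact this (by simp)

theorem qf_NG : NN ψ s ≤ commutator G := by
  have h1 : L0.map ψ ≤ commutator G := by
    rintro _ ⟨a, ha, rfl⟩
    obtain ⟨e1, e2⟩ := qf2_L0.1 ha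
    let f : alternatingGroup (Fin 5) →* G := (ψ.comp (MonoidHom.inr _ _)).comp (Subgroup.subtype _)
    have k : (⟨a.2, Perm.mem_alternatingGroup.2 e2⟩ : alternatingGroup (Fin 5)) ∈ commutator _ := by
      rw [commutator_alternatingGroup_eq_top (by simp)]; exact mem_top _
    have k2 : (commutator (alternatingGroup (Fin 5))).map f ≤ commutator G := by
      rw [_root_.commutator_def, map_commutator]; exact commutator_mono le_top le_top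
    have k3 : ψ a = f ⟨a.2, Perm.mem_alternatingGroup.2 e2⟩ := congrArg ψ (Prod.ext e1 rfl)
    rw [k3]; exact k2 (mem_map_of_mem f k)
  refine sup_le h1 fun x hx => ?_
  obtain ⟨a, ha, rfl⟩ := mem_cj'.1 hx
  exact (inferInstance : (commutator G).Normal).conj_mem a (h1 ha) s

theorem F4.q2EN (h : F4 ψ s) : VV ψ ⊔ VV' ψ s ≤ NN ψ s := by
  refine sup_le (fun a ha => ?_) fun a ha => ?_
  · obtain ⟨a, h1, rfl⟩ := qf_memV.1 ha
    exact mem_sup_left (mem_map_of_mem ψ h1.mem)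
  · obtain ⟨a, h1, rfl⟩ := h.q2memV'.1 ha
    exact mem_sup_right (conj_mem_cj s (mem_map_of_mem ψ h1.mem))

theorem F4.trans (h : F4 ψ s) (hS : SylowIn 2 (VV ψ ⊔ VV' ψ s ⊔ closure {ψ t0, s}) ⊤)
    (ntj : ¬ IsConj (ψ t0) (ψ (r0 * (q0 * t0)))) :
    ∃ H : Subgroup G, H.Normal ∧ H.index = 4 ∧ (∀ g : G, g ^ 2 ∈ H) ∧ NN ψ s ≤ H ∧
      SylowIn 2 (VV ψ ⊔ VV' ψ s) H := by
  have tsq : ψ t0 * s * (ψ t0 * s) = 1 := by
    calc ψ t0 * s * (ψ t0 * s) = ψ t0 * (s * ψ t0) * s := by group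
      _ = ψ t0 * ψ t0 * (s * s) := by rw [← h.q2ts]; group
      _ = 1 := by rw [h.q2tt, h.ss, mul_one]
  have cj2 : ∀ a : G, ψ t0 * s * a * (ψ t0 * s)⁻¹ = ψ t0 * (s * a * s⁻¹) * (ψ t0)⁻¹ := fun a => by group
  obtain ⟨H, h1, h2, h3, h4, h5⟩ := qf_abs (t := ψ t0) (s := s) hS le_sup_left
    (mem_sup_right (subset_closure (Or.inl rfl))) (mem_sup_right (subset_closure (Or.inr rfl))) h.q2tt h.ss h.q2ts
    h.q2tE h.q2sE h.q2dec (fun e => h.q2ns (h.q2cE _ e))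
    (fun e => h.q2ns (by
      have := h.q2cE _ e
      rw [mul_assoc, ← map_mul, show t0 * (q0 * t0) = q0 * t0 * t0 by decide, map_mul ψ (q0 * t0), ← mul_assoc,
        ← mul_assoc] at this
      exact mul_right_cancel this))
    (fun e he c => by
      rcases h.q2clsE e he with rfl | c2 | c2
      · exact absurd (h.inj ((isConj_one_left.1 c).trans (map_one ψ).symm)) (by decide)
      · exact h.nt1 (c.trans c2)
      · exact ntj (c.trans c2))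
    h.q2clsT
    (fun x xx hx c => h.q2nts (c.trans (qf_swap h.q2cmV (fun a ha b hb e => (h.q2djV a ha b hb e).2) h.ss h.q2sV h.q2sV' xx hx).symm))
    (fun x xx hx c => h.q2ntts (c.trans (qf_swap h.q2cmV (fun a ha b hb e => (h.q2djV a ha b hb e).2) tsq
      (fun a ha => cj2 a ▸ h.q2tV' _ (h.q2sV a ha)) (fun a ha => cj2 a ▸ h.q2tV _ (h.q2sV' a ha)) xx hx).symm))
    (h.q2EN.trans qf_NG)
  exact ⟨H, h1, h2, h3, qf_NG.trans h4, h5⟩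

end Cfsg.Agent.S8R
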