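import Cfsg.Agent.S8R.A
import Cfsg.Agent.Loc.TT

/-! Three Thompson transfers give a normal subgroup of index four. -/

set_option autoImplicit false
set_option linter.unusedSectionVars false

namespace Cfsg.Agent.S8R

open Equiv Subgroup Cfsg.Agent.BG

variable {G : Type*} [Group G] [Finite G]

/-- `E ⟨a⟩` -/
def qfExt (E : Subgroup G) (a : G) (aa : a * a = 1) (hn : ∀ e ∈ E, a * e * a⁻¹ ∈ E) : Subgroup G where
  carrier := {x | x ∈ E ∨ x * a ∈ E}
  one_mem' := Or.inl E.one_mem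
  mul_mem' := by
    have ia : a⁻¹ = a := inv_eq_of_mul_eq_one_right aa
    rintro x y (hx | hx) (hy | hy)
    · exact Or.inl (E.mul_mem hx hy)
    · exact Or.inr (by rw [mul_assoc]; exact E.mul_mem hx hy)
    · refine Or.inr ?_
      have e : x * y * a = x * a * (a * y * a⁻¹) := by
        rw [ia]
        calc x * y * a = x * (a * a) * y * a := by rw [aa, mul_one]
          _ = _ := by group
      rw [e]; exact E.mul_mem hx (hn _ hy)
    · refine Or.inl ?_
      have e : x * y = x * a * (a * (y * a) * a⁻¹) := by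
        calc x * y = x * (a * a) * y := by rw [aa, mul_one]
          _ = _ := by group
      rw [e]; exact E.mul_mem hx (hn _ hy)
  inv_mem' := by
    have ia : a⁻¹ = a := inv_eq_of_mul_eq_one_right aa
    rintro x (hx | hx)
    · exact Or.inl (E.inv_mem hx)
    · refine Or.inr ?_
      have e : x⁻¹ * a = a * (x * a)⁻¹ * a⁻¹ := by
        calc x⁻¹ * a = x⁻¹ * a⁻¹ := by rw [ia]
          _ = _ := by group
      rw [e]; exact hn _ (E.inv_mem hx)

theorem qf_tr1 {E S R : Subgroup G} {a b y : G} (hS : Odd S.index) (ES : E ≤ S) (aS : a ∈ S) (bS : b ∈ S)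
    (aa : a * a = 1) (ab : a * b = b * a) (hn : ∀ e ∈ E, a * e * a⁻¹ ∈ E)
    (dec : ∀ x ∈ S, x ∈ E ∨ x * a ∈ E ∨ x * b ∈ E ∨ x * (a * b) ∈ E) (b1 : b ∉ E) (b2 : b * a ∉ E)
    (yy : y * y = 1) (yS : y ∈ S) (y1 : y ∉ E) (y2 : y * a ∉ E) (yG : y ∈ commutator G) (hR : IsPGroup 2 R)
    (hRy : R ≤ centralizer ({y} : Set G)) :
    ∃ g : G, (g * y * g⁻¹ ∈ E ∨ g * y * g⁻¹ * a ∈ E) ∧ cj g R ≤ S := by
  have hT : (qfExt E a aa hn).relIndex S = 2 := by
    refine relIndex_eq_two_iff.2 ⟨b, bS, fun x hx => ?_⟩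
    by_cases h : x ∈ qfExt E a aa hn
    · refine Or.inr ⟨h, fun h' => ?_⟩
      rcases ((qfExt E a aa hn).mul_mem_cancel_left h).1 h' with h2 | h2
      · exact b1 h2
      · exact b2 h2
    · refine Or.inl ⟨?_, h⟩
      rcases dec x hx with h2 | h2 | h2 | h2
      · exact absurd (Or.inl h2) h
      · exact absurd (Or.inr h2) h
      · exact Or.inl h2
      · exact Or.inr (by rw [mul_assoc, ← ab]; exact h2)
  have hle : qfExt E a aa hn ≤ S := by
    rintro x (hx | hx)
    · exact ES hx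
    · exact (S.mul_mem_cancel_right aS).1 (ES hx)
  haveI : ((qfExt E a aa hn).subgroupOf S).Normal := normal_of_index_eq_two hT
  haveI := Fact.mk Nat.prime_two
  exact Loc.thompson_transfer_cyclic (T := qfExt E a aa hn) hS (isCyclic_of_prime_card (p := 2) hT) yy yS
    (fun h => h.elim y1 y2) hle yG hR hRy

theorem qf_sq {x : G} (g : G) (h : x * x = 1) : g * x * g⁻¹ * (g * x * g⁻¹) = 1 := by
  calc g * x * g⁻¹ * (g * x * g⁻¹) = g * (x * x) * g⁻¹ := by group
    _ = 1 := by rw [h]; group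

theorem qf_conj (g x : G) : IsConj x (g * x * g⁻¹) := isConj_iff.2 ⟨g, rfl⟩

/-- `s ∉ G'` -/
theorem qf_tr2 {E S : Subgroup G} {t s : G} (hS : Odd S.index) (ES : E ≤ S) (tS : t ∈ S) (sS : s ∈ S)
    (tt : t * t = 1) (ss : s * s = 1) (ts : t * s = s * t) (hn : ∀ e ∈ E, t * e * t⁻¹ ∈ E)
    (dec : ∀ x ∈ S, x ∈ E ∨ x * t ∈ E ∨ x * s ∈ E ∨ x * (t * s) ∈ E) (s1 : s ∉ E) (s2 : s * t ∉ E)
    (c0 : ∀ e ∈ E, ¬ IsConj t e) (c1 : ∀ x, x * x = 1 → x * t ∈ E → IsConj t x)
    (c2 : ∀ x, x * x = 1 → x * s ∈ E → ¬ IsConj t x) (c3 : ∀ x, x * x = 1 → x * (t * s) ∈ E → ¬ IsConj t x) :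
    s ∉ commutator G := by
  intro hG
  haveI := Fact.mk Nat.prime_two
  have hR : IsPGroup 2 (zpowers t) := by
    rintro ⟨x, k, rfl⟩
    refine ⟨1, Subtype.ext ?_⟩
    show (t ^ k) ^ 2 ^ 1 = 1
    rw [pow_one, ← zpow_natCast, ← zpow_mul, mul_comm, zpow_mul, zpow_natCast, pow_two, tt, one_zpow]
  obtain ⟨g, h1, h2⟩ := qf_tr1 hS ES tS sS tt ts hn dec s1 s2 ss sS s1 s2 hG hR
    (zpowers_le.2 (mem_centralizer_singleton_iff.2 ts))
  have h3 : g * t * g⁻¹ ∈ S := h2 (by rw [cj_zpowers]; exact mem_zpowers _)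
  have tsq : t * s * (t * s) = 1 := by
    calc t * s * (t * s) = t * (s * t) * s := by group
      _ = t * t * (s * s) := by rw [← ts]; group
      _ = 1 := by rw [tt, ss, mul_one]
  rcases h1 with h1 | h1
  · rcases dec _ h3 with h | h | h | h
    · exact c0 _ h (qf_conj g t)
    · have e : g * (t * s) * g⁻¹ * t = g * s * g⁻¹ * (g * t * g⁻¹ * t) := by rw [ts]; group
      have h4 := c1 _ (qf_sq g tsq) (by rw [e]; exact E.mul_mem h1 h)
      exact c3 (t * s) tsq (by rw [tsq]; exact E.one_mem) (h4.trans (qf_conj g _).symm)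
    · exact c2 _ (qf_sq g tt) h (qf_conj g t)
    · exact c3 _ (qf_sq g tt) h (qf_conj g t)
  · exact c2 s ss (by rw [ss]; exact E.one_mem) ((c1 _ (qf_sq g ss) h1).trans (qf_conj g _).symm)

theorem qf_abs {E S : Subgroup G} {t s : G} (hS : SylowIn 2 S ⊤) (ES : E ≤ S) (tS : t ∈ S) (sS : s ∈ S)
    (tt : t * t = 1) (ss : s * s = 1) (ts : t * s = s * t) (hn : ∀ e ∈ E, t * e * t⁻¹ ∈ E)
    (hn' : ∀ e ∈ E, s * e * s⁻¹ ∈ E)
    (dec : ∀ x ∈ S, x ∈ E ∨ x * t ∈ E ∨ x * s ∈ E ∨ x * (t * s) ∈ E) (s1 : s ∉ E) (s2 : s * t ∉ E)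
    (c0 : ∀ e ∈ E, ¬ IsConj t e) (c1 : ∀ x, x * x = 1 → x * t ∈ E → IsConj t x)
    (c2 : ∀ x, x * x = 1 → x * s ∈ E → ¬ IsConj t x) (c3 : ∀ x, x * x = 1 → x * (t * s) ∈ E → ¬ IsConj t x)
    (EG : E ≤ commutator G) :
    ∃ H : Subgroup G, H.Normal ∧ H.index = 4 ∧ (∀ g : G, g ^ 2 ∈ H) ∧ commutator G ≤ H ∧ SylowIn 2 E H := by
  haveI := Fact.mk Nat.prime_two
  have hO : Odd S.index := Nat.odd_iff.2 (Nat.two_dvd_ne_zero.1 (relIndex_top_right S ▸ hS.not_dvd))
  have tsq : t * s * (t * s) = 1 := by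
    calc t * s * (t * s) = t * (s * t) * s := by group
      _ = t * t * (s * s) := by rw [← ts]; group
      _ = 1 := by rw [tt, ss, mul_one]
  have tts : t * (t * s) = s := by rw [← mul_assoc, tt, one_mul]
  have tst : t * s * t = s := by rw [mul_assoc, ← ts, tts]
  have n1 : s ∉ commutator G := qf_tr2 hO ES tS sS tt ss ts hn dec s1 s2 c0 c1 c2 c3
  have n2 : t * s ∉ commutator G := qf_tr2 hO ES tS (S.mul_mem tS sS) tt tsq (by rw [tts, tst]) hn
    (fun x hx => by rw [tts]; rcases dec x hx with h | h | h | h <;> simp only [h, true_or, or_true])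
    (by rw [ts]; exact s2) (by rw [tst]; exact s1) c0 c1 c3 (by rw [tts]; exact c2)
  have t1 : t ∉ E := fun h => c0 t h (IsConj.refl t)
  have n3 : t ∉ commutator G := fun hG => by
    obtain ⟨g, h1, -⟩ := qf_tr1 (R := ⊥) hO ES sS tS ss ts.symm hn'
      (fun x hx => by rw [← ts]; rcases dec x hx with h | h | h | h <;> simp only [h, true_or, or_true])
      t1 (by rw [ts]; exact s2) tt tS t1 (by rw [ts]; exact s2) hG IsPGroup.of_bot bot_le
    rcases h1 with h1 | h1
    · exact c0 _ h1 (qf_conj g t)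
    · exact c2 _ (qf_sq g tt) h1 (qf_conj g t)
  let π : G →* Abelianization G := Abelianization.of
  have kπ : ∀ x, π x = 1 ↔ x ∈ commutator G := fun x => by
    rw [← MonoidHom.mem_ker, Abelianization.ker_of]
  have sπ : Function.Surjective π := fun x => Quotient.inductionOn' x fun y => ⟨y, rfl⟩
  have im : ∀ x ∈ S, π x = 1 ∨ π x = π t ∨ π x = π s ∨ π x = π (t * s) := fun x hx => by
    have key : ∀ a : G, a * a = 1 → x * a ∈ E → π x = π a := fun a aa h => by
      have := (kπ _).2 (EG h)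
      rw [map_mul] at this
      rw [eq_inv_of_mul_eq_one_left this, ← map_inv, inv_eq_of_mul_eq_one_right aa]
    rcases dec x hx with h | h | h | h
    · exact Or.inl ((kπ _).2 (EG h))
    · exact Or.inr (Or.inl (key _ tt h))
    · exact Or.inr (Or.inr (Or.inl (key _ ss h)))
    · exact Or.inr (Or.inr (Or.inr (key _ tsq h)))
  have sq : ∀ x ∈ S, π x * π x = 1 := fun x hx => by
    rcases im x hx with h | h | h | h <;> rw [h]
    · exact mul_one 1
    all_goals rw [← map_mul]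
    · rw [tt, map_one]
    · rw [ss, map_one]
    · rw [tsq, map_one]
  have pw : ∀ x ∈ S, π x ^ S.index = π x := fun x hx => by
    obtain ⟨k, hk⟩ := hO
    rw [hk, pow_succ, pow_mul, pow_two, sq x hx, one_pow, one_mul]
  let f : G →* Abelianization G := (powMonoidHom S.index).comp π
  have hf : ∀ x, f x = π x ^ S.index := fun _ => rfl
  have rng : ∀ g, ∃ x ∈ S, π x = f g := fun g => by
    obtain ⟨k, hk⟩ := S.index_map_dvd sπ
    have : π g ^ S.index ∈ S.map π := by
      rw [hk, pow_mul]; exact pow_mem (Subgroup.pow_index_mem (S.map π) (π g)) k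
    exact this
  have hE : f.ker ⊓ S = E := by
    refine le_antisymm (fun x hx => ?_) (le_inf (fun x hx => ?_) ES)
    · have h1 : x ∈ commutator G := (kπ x).1 (by rw [← pw x hx.2]; exact hx.1)
      rcases dec x hx.2 with h | h | h | h
      · exact h
      · exact absurd (((commutator G).mul_mem_cancel_left h1).1 (EG h)) n3
      · exact absurd (((commutator G).mul_mem_cancel_left h1).1 (EG h)) n1
      · exact absurd (((commutator G).mul_mem_cancel_left h1).1 (EG h)) n2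
    · rw [MonoidHom.mem_ker, hf, (kπ x).2 (EG hx), one_pow]
  refine ⟨f.ker, inferInstance, ?_, fun g => ?_, fun x hx => ?_, ?_⟩
  · have e : (f.range : Set (Abelianization G)) = {1, π t, π s, π (t * s)} := by
      ext y
      simp only [SetLike.mem_coe, MonoidHom.mem_range, Set.mem_insert_iff, Set.mem_singleton_iff]
      constructor
      · rintro ⟨g, rfl⟩
        obtain ⟨x, hx, e⟩ := rng g
        rw [← e]; exact im x hx
      · rintro (rfl | rfl | rfl | rfl)
        · exact ⟨1, map_one f⟩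
        · exact ⟨t, pw t tS⟩
        · exact ⟨s, pw s sS⟩
        · exact ⟨t * s, pw _ (S.mul_mem tS sS)⟩
    have d1 : π t ≠ 1 := fun h => n3 ((kπ _).1 h)
    have d2 : π s ≠ 1 := fun h => n1 ((kπ _).1 h)
    have d3 : π (t * s) ≠ 1 := fun h => n2 ((kπ _).1 h)
    have d4 : π t ≠ π s := fun h => d3 (by rw [map_mul, h, ← map_mul, ss, map_one])
    have d5 : π t ≠ π (t * s) := fun h => d2 (by rw [map_mul] at h; exact (mul_eq_left.1 h.symm))
    have d6 : π s ≠ π (t * s) := fun h => d1 (by rw [map_mul] at h; exact (mul_eq_right.1 h.symm))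
    rw [index_ker]
    change Nat.card (f.range : Set (Abelianization G)) = 4
    rw [e, Nat.card_coe_set_eq, Set.ncard_insert_of_notMem (by simp [d1.symm, d2.symm, d3.symm, -map_mul]),
      Set.ncard_insert_of_notMem (by simp [d4, d5, -map_mul]), Set.ncard_pair d6]
  · obtain ⟨x, hx, e⟩ := rng g
    rw [MonoidHom.mem_ker, map_pow, ← e, pow_two, sq x hx]
  · rw [MonoidHom.mem_ker, hf, (kπ x).2 hx, one_pow]
  · rw [← hE]
    exact Sylow_setI_normal ⟨le_top, by rw [normalizer_eq_top]⟩ hS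

end Cfsg.Agent.S8R
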