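import Cfsg.Agent.S8R.A

/-! Fusion in the abelian Sylow subgroup `V × V'` (helper27). -/

set_option autoImplicit false

namespace Cfsg.Agent.S8R

open Equiv Subgroup Cfsg.Agent.BG

variable {G : Type*} [Group G]

theorem qf3_or {A V W : Subgroup G} (h : ∀ a ∈ A, a ∈ V ∨ a ∈ W) : A ≤ V ∨ A ≤ W := by
  by_contra hc
  rw [not_or, SetLike.not_le_iff_exists, SetLike.not_le_iff_exists] at hc
  obtain ⟨⟨a, ha, aV⟩, ⟨b, hb, bW⟩⟩ := hc
  have aW := (h a ha).resolve_left aV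
  have bV := (h b hb).resolve_right bW
  rcases h _ (A.mul_mem ha hb) with m | m
  · exact aV ((V.mul_mem_cancel_right bV).1 m)
  · exact bW ((W.mul_mem_cancel_left aW).1 m)

theorem qf3_abs [Finite G] {V W H : Subgroup G} {r : G} (hS : SylowIn 2 (V ⊔ W) H)
    (vv : V ≤ C[V]) (ww : W ≤ C[W]) (vw : V ≤ C[W])
    (hV : ∀ a ∈ V, a ≠ 1 → IsConj r a) (hW : ∀ a ∈ W, a ≠ 1 → IsConj r a)
    (hVW : ∀ a ∈ V, ∀ b ∈ W, a ≠ 1 → b ≠ 1 → ¬ IsConj r (a * b))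
    (nVW : ¬ V ≤ W) (nWV : ¬ W ≤ V) :
    ∀ g ∈ H, ∀ a ∈ V ⊔ W, g * a * g⁻¹ ∈ V ⊔ W →
      (a ∈ V → g * a * g⁻¹ ∈ V) ∧ (a ∈ W → g * a * g⁻¹ ∈ W) := by
  haveI : Fact (Nat.Prime 2) := ⟨Nat.prime_two⟩
  have wv : W ≤ C[V] := le_centralizer_iff.1 vw
  have ab : V ⊔ W ≤ C[V ⊔ W] := by
    refine sup_le ?_ ?_ <;> rw [le_centralizer_iff] <;> refine sup_le ?_ ?_ <;> assumption
  have dec : ∀ x ∈ V ⊔ W, ∃ a ∈ V, ∃ b ∈ W, a * b = x := by
    intro x hx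
    have : (x : G) ∈ ((V ⊔ W : Subgroup G) : Set G) := hx
    rw [coe_mul_of_left_le_normalizer_right V W (vw.trans (centralizer_le_normalizer _))] at this
    obtain ⟨a, ha, b, hb, e⟩ := this
    exact ⟨a, ha, b, hb, e⟩
  have un : ∀ x ∈ V ⊔ W, (x = 1 ∨ IsConj r x) → x ∈ V ∨ x ∈ W := by
    intro x hx hc
    obtain ⟨a, ha, b, hb, rfl⟩ := dec x hx
    rcases hc with hc | hc
    · rw [hc]; exact Or.inl (one_mem _)
    by_cases a1 : a = 1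
    · right; rwa [a1, one_mul]
    by_cases b1 : b = 1
    · left; rwa [b1, mul_one]
    exact absurd hc (hVW a ha b hb a1 b1)
  have blk : ∀ n ∈ N[V ⊔ W], ∀ U : Subgroup G, U ≤ V ⊔ W → (∀ a ∈ U, a ≠ 1 → IsConj r a) →
      cj n U ≤ V ∨ cj n U ≤ W := by
    intro n hn U hU hc
    refine qf3_or ?_
    rintro _ ⟨a, ha, rfl⟩
    refine un _ (conj_mem_of_norm hn (hU ha)) ?_
    by_cases a1 : a = 1
    · left; simp [a1]
    · right; exact (hc a ha a1).trans (isConj_iff.2 ⟨n, rfl⟩)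
  have key : ∀ n ∈ H ⊓ N[V ⊔ W], cj n V ≤ V ∧ cj n W ≤ W := by
    intro n hn
    have e := cj_of_norm hn.2
    rw [cj_sup] at e
    rcases blk n hn.2 V le_sup_left hV with h1 | h1 <;>
      rcases blk n hn.2 W le_sup_right hW with h2 | h2
    · exact absurd (le_sup_right.trans (e ▸ sup_le h1 h2)) nWV
    · exact ⟨h1, h2⟩
    · exfalso
      have hle : V ⊔ W ≤ H ⊓ N[V ⊔ W] := le_inf hS.le (normG _)
      have hS' : SylowIn 2 (V ⊔ W) (H ⊓ N[V ⊔ W]) := pHall_subl hle inf_le_left hS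
      haveI : ((V ⊔ W).subgroupOf (H ⊓ N[V ⊔ W])).Normal :=
        (normal_subgroupOf_iff_le_normalizer hle).2 inf_le_right
      have m : n ^ ((V ⊔ W).relIndex (H ⊓ N[V ⊔ W])) ∈ V ⊔ W :=
        pow_index_mem (H := (V ⊔ W).subgroupOf (H ⊓ N[V ⊔ W])) ⟨n, hn⟩
      obtain ⟨k, hk⟩ : Odd ((V ⊔ W).relIndex (H ⊓ N[V ⊔ W])) :=
        Nat.not_even_iff_odd.1 fun he => hS'.not_dvd he.two_dvd
      have it : ∀ j : ℕ, cj (n ^ (2 * j + 1)) V ≤ W := by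
        intro j
        induction j with
        | zero => simpa using h1
        | succ j ih =>
          rw [show 2 * (j + 1) + 1 = 1 + 1 + (2 * j + 1) by ring, pow_add, pow_add, pow_one, cj_mul,
            cj_mul]
          exact (cj_mono n ((cj_mono n ih).trans h2)).trans h1
      have := it k
      rw [← hk, cj_of_cent (centralizer_le (show (V : Set G) ⊆ (V ⊔ W : Subgroup G) from
        (le_sup_left : V ≤ V ⊔ W)) (ab m))] at this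
      exact nVW this
    · exact absurd (le_sup_left.trans (e ▸ sup_le h1 h2)) nVW
  intro g hg a ha hb
  have l1 : V ⊔ W ≤ H ⊓ C1[g * a * g⁻¹] :=
    le_inf hS.le fun x hx => mem_cent1.2 (mem_cent.1 (ab hb) x hx)
  have l2 : cj g (V ⊔ W) ≤ H ⊓ C1[g * a * g⁻¹] := by
    refine le_inf (cj_le_of_mem hg hS.le) ?_
    rintro _ ⟨x, hx, rfl⟩
    refine mem_cent1.2 ?_
    change g * x * g⁻¹ * (g * a * g⁻¹) = g * a * g⁻¹ * (g * x * g⁻¹)
    calc g * x * g⁻¹ * (g * a * g⁻¹) = g * (x * a) * g⁻¹ := by group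
      _ = _ := by rw [mem_cent.1 (ab ha) x hx]; group
  obtain ⟨c, hc, e⟩ := Sylow_trans (pHall_subl l2 inf_le_left (pHallJsub hg hS))
    (pHall_subl l1 inf_le_left hS)
  rw [← cj_mul] at e
  obtain ⟨k1, k2⟩ := key (c * g) ⟨H.mul_mem hc.1 hg, mem_norm.2 e.symm⟩
  have e2 : c * g * a * (c * g)⁻¹ = g * a * g⁻¹ := by
    calc c * g * a * (c * g)⁻¹ = c * (g * a * g⁻¹) * c⁻¹ := by group
      _ = _ := by rw [mem_cent1.1 hc.2, mul_inv_cancel_right]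
  exact ⟨fun m => e2 ▸ k1 (conj_mem_cj _ m), fun m => e2 ▸ k2 (conj_mem_cj _ m)⟩

/-- `V₀ = ⟨q t, v⟩` as a finite set. -/
def qf3V : Subgroup K0 where
  carrier := {x | x = 1 ∨ x = q0 * t0 ∨ x = v0 ∨ x = q0 * t0 * v0}
  one_mem' := Or.inl rfl
  mul_mem' := by
    rintro _ _ (rfl | rfl | rfl | rfl) (rfl | rfl | rfl | rfl) <;>
      simp only [Set.mem_ofPred_eq] <;> decide +kernel
  inv_mem' := by
    rintro _ (rfl | rfl | rfl | rfl) <;> simp only [Set.mem_ofPred_eq] <;> decide +kernel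

theorem qf3_L {x : K0} (h1 : x.1 = 1) (h2 : Perm.sign x.2 = 1) : x ∈ L0 :=
  ⟨mem_bot.2 h1, Perm.mem_alternatingGroup.2 h2⟩

theorem qf3_mem {x : K0} (hx : x ∈ qf3V) : x ∈ L0 ∧ (x ≠ 1 → ∃ c ∈ L0, c * (q0 * t0) * c⁻¹ = x) := by
  have c1 : ((1, swap 0 1 * swap 1 3) : K0) ∈ L0 := qf3_L rfl (by decide +kernel)
  rcases hx with rfl | rfl | rfl | rfl
  · exact ⟨one_mem _, fun h => absurd rfl h⟩
  · exact ⟨qf3_L (by decide +kernel) (by decide +kernel), fun _ => ⟨1, one_mem _, by simp⟩⟩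
  · refine ⟨qf3_L (by decide +kernel) (by decide +kernel), fun _ => ?_⟩
    first
    | exact ⟨_, c1, by decide +kernel⟩
    | exact ⟨_, inv_mem c1, by decide +kernel⟩
  · refine ⟨qf3_L (by decide +kernel) (by decide +kernel), fun _ => ?_⟩
    first
    | exact ⟨_, c1, by decide +kernel⟩
    | exact ⟨_, inv_mem c1, by decide +kernel⟩

theorem qf3_VV (ψ : K0 →* G) {a : G} (ha : a ∈ VV ψ) : ∃ x ∈ qf3V, ψ x = a := by
  have : VV ψ ≤ qf3V.map ψ := by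
    rw [closure_le]
    rintro _ (rfl | rfl)
    · exact ⟨_, Or.inr (Or.inl rfl), rfl⟩
    · exact ⟨_, Or.inr (Or.inr (Or.inl rfl)), rfl⟩
  exact this ha

theorem F4.fus_of [Finite G] {ψ : K0 →* G} {s : G} (h : F4 ψ s) {H : Subgroup G}
    (hS : SylowIn 2 (VV ψ ⊔ VV' ψ s) H) (nrj : ¬ IsConj (ψ r0) (ψ (r0 * (q0 * t0)))) :
    ∀ g ∈ H, ∀ a ∈ VV ψ ⊔ VV' ψ s, g * a * g⁻¹ ∈ VV ψ ⊔ VV' ψ s →
      (a ∈ VV ψ → g * a * g⁻¹ ∈ VV ψ) ∧ (a ∈ VV' ψ s → g * a * g⁻¹ ∈ VV' ψ s) := by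
  have si : s⁻¹ = s := inv_eq_of_mul_eq_one_right h.ss
  have sr : s * ψ (q0 * t0) * s⁻¹ = ψ r0 := by
    rw [← h.sr', si]
    calc s * (s * ψ r0 * s) * s = (s * s) * ψ r0 * (s * s) := by group
      _ = _ := by rw [h.ss, one_mul, mul_one]
  have hW : ∀ b ∈ VV' ψ s, ∃ x ∈ qf3V, s * ψ x * s⁻¹ = b := by
    have : VV' ψ s ≤ qf3V.map ((MulAut.conj s).toMonoidHom.comp ψ) := by
      rw [closure_le]
      rintro _ (rfl | rfl)
      · exact ⟨_, Or.inr (Or.inl rfl), sr⟩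
      · exact ⟨_, Or.inr (Or.inr (Or.inl rfl)), rfl⟩
    exact fun b hb => this hb
  have cV : ∀ x ∈ qf3V, ∀ y ∈ qf3V, x * y = y * x := by
    rintro _ (rfl | rfl | rfl | rfl) _ (rfl | rfl | rfl | rfl) <;> decide +kernel
  have cr : ∀ x ∈ qf3V, x ≠ 1 → IsConj (ψ r0) (ψ x) := by
    intro x hx x1
    obtain ⟨c, -, e⟩ := (qf3_mem hx).2 x1
    exact (isConj_iff.2 ⟨s, h.sr'⟩).trans (ψ.map_isConj (isConj_iff.2 ⟨c, e⟩))
  have nr : ψ r0 ∉ VV ψ := by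
    intro hm
    obtain ⟨x, hx, e⟩ := qf3_VV ψ hm
    rw [h.inj e] at hx
    revert hx
    change ¬ (_ ∨ _ ∨ _ ∨ _)
    decide +kernel
  refine qf3_abs (r := ψ r0) hS ?_ ?_ ?_ ?_ ?_ ?_ ?_ ?_
  · refine le_cent_iff.2 fun a ha b hb => ?_
    obtain ⟨x, hx, rfl⟩ := qf3_VV ψ ha
    obtain ⟨y, hy, rfl⟩ := qf3_VV ψ hb
    rw [← map_mul, cV x hx y hy, map_mul]
  · refine le_cent_iff.2 fun a ha b hb => ?_
    obtain ⟨x, hx, rfl⟩ := hW a ha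
    obtain ⟨y, hy, rfl⟩ := hW b hb
    calc s * ψ x * s⁻¹ * (s * ψ y * s⁻¹) = s * (ψ x * ψ y) * s⁻¹ := by group
      _ = _ := by rw [← map_mul, cV x hx y hy, map_mul]; group
  · refine le_cent_iff.2 fun a ha b hb => ?_
    obtain ⟨x, hx, rfl⟩ := qf3_VV ψ ha
    obtain ⟨y, hy, rfl⟩ := hW b hb
    exact h.cm x (qf3_mem hx).1 y (qf3_mem hy).1
  · intro a ha a1
    obtain ⟨x, hx, rfl⟩ := qf3_VV ψ ha
    exact cr x hx fun e => a1 (by rw [e, map_one])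
  · intro a ha a1
    obtain ⟨x, hx, rfl⟩ := hW a ha
    exact (cr x hx fun e => a1 (by simp [e])).trans (isConj_iff.2 ⟨s, rfl⟩)
  · intro a ha b hb a1 b1 hc
    obtain ⟨x, hx, rfl⟩ := qf3_VV ψ ha
    obtain ⟨y, hy, rfl⟩ := hW b hb
    obtain ⟨c, hc1, rfl⟩ := (qf3_mem hx).2 fun e => a1 (by rw [e, map_one])
    obtain ⟨d, hd1, rfl⟩ := (qf3_mem hy).2 fun e => b1 (by simp [e])
    have m0 : q0 * t0 ∈ L0 := qf3_L (by decide +kernel) (by decide +kernel)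
    have e1 := h.cm _ m0 d hd1
    have e2 := h.cm c⁻¹ (inv_mem hc1) _ (qf3_mem hy).1
    apply nrj
    refine hc.trans (isConj_iff.2 ⟨ψ c * (s * ψ d * s⁻¹), ?_⟩).symm
    rw [show r0 * (q0 * t0) = q0 * t0 * r0 by decide +kernel, map_mul ψ _ r0, ← sr]
    simp only [map_mul ψ _ c⁻¹, map_mul ψ c, map_mul ψ _ d⁻¹, map_mul ψ d, map_inv] at e2 ⊢
    generalize ψ (q0 * t0) = u at e1 e2 ⊢
    calc ψ c * (s * ψ d * s⁻¹) * (u * (s * u * s⁻¹)) * (ψ c * (s * ψ d * s⁻¹))⁻¹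
        = ψ c * ((s * ψ d * s⁻¹) * u) * (s * u * s⁻¹) * (s * ψ d * s⁻¹)⁻¹ * (ψ c)⁻¹ := by group
      _ = ψ c * u * (s * (ψ d * u * (ψ d)⁻¹) * s⁻¹ * (ψ c)⁻¹) := by rw [← e1]; group
      _ = _ := by rw [← e2]; group
  · intro hle
    obtain ⟨x, hx, e⟩ := hW _ (hle (subset_closure (Or.inl rfl)))
    rw [← h.sr'] at e
    have e' : ψ x = ψ r0 := by simpa using e
    rw [h.inj e'] at hx
    revert hx
    change ¬ (_ ∨ _ ∨ _ ∨ _)
    decide +kernel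
  · exact fun hle => nr (hle (subset_closure (Or.inl rfl)))

end Cfsg.Agent.S8R
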