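import Cfsg.Agent.S8R.QF2
import Cfsg.Agent.S8R.QF3

/-! From the Sylow 2-subgroup and the non-fusion facts to the frame `F5`. -/

set_option autoImplicit false

namespace Cfsg.Agent.S8R

open Equiv Subgroup Cfsg.Agent.BG

theorem F4.f5_of {G : Type*} [Group G] [Finite G] {ψ : K0 →* G} {s : G} (h : F4 ψ s)
    (hS : SylowIn 2 (VV ψ ⊔ VV' ψ s ⊔ closure {ψ t0, s}) ⊤) (ntj : ¬ IsConj (ψ t0) (ψ (r0 * (q0 * t0))))
    (nrj : ¬ IsConj (ψ r0) (ψ (r0 * (q0 * t0)))) : ∃ H : Subgroup G, F5 ψ s H := by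
  obtain ⟨H, h1, h2, h3, h4, h5⟩ := h.trans hS ntj
  exact ⟨H, h, h1, h2, h3, h4, h5, nrj, h.fus_of h5 nrj⟩

end Cfsg.Agent.S8R
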