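import Cfsg.Agent.S8R.QI
import Cfsg.Agent.BG.S1
import Cfsg.Agent.A8R.PE5
import Cfsg.Agent.A8R.PB0

/-! The exceptional case of the 3-local recognition of `Sym(8)`: `H = N` (`F5.eqN`). -/

set_option autoImplicit false
set_option linter.unusedSectionVars false

namespace Cfsg.Agent.S8R

open Equiv Subgroup Cfsg.Agent.BG

variable {G : Type*} [Group G] [Finite G] {ψ : K0 →* G} {s : G} {H : Subgroup G}

theorem qh_cls : ∀ w : Perm (Fin 5), Perm.sign w = 1 → w * w = 1 →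
    w = 1 ∨ ∃ c : Perm (Fin 5), Perm.sign c = 1 ∧ c * w * c⁻¹ = (q0 * t0).2 := by decide +kernel

theorem qh_cen : ∀ c : Perm (Fin 5), Perm.sign c = 1 → c * (q0 * t0).2 = (q0 * t0).2 * c → c * v0.2 = v0.2 * c := by
  decide +kernel

theorem qh_ctr : ∀ c : Perm (Fin 5), c * (q0 * t0).2 = (q0 * t0).2 * c → c * y0.2 = y0.2 * c → c * v0.2 = v0.2 * c →
    c = 1 := by decide +kernel

theorem F5.eqN (h : F5 ψ s H) (cr : ∀ g ∈ H, g * ψ r0 = ψ r0 * g → g ∈ NN ψ s) : H = NN ψ s := by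
  have nH := h.nH
  have si : s⁻¹ = s := inv_eq_of_mul_eq_one_right h.ss
  let α : alternatingGroup (Fin 5) →* G := ψ.comp qiι
  let β : alternatingGroup (Fin 5) →* G := (MulAut.conj s).toMonoidHom.comp α
  have αi : Function.Injective α := h.inj.comp qi_inj
  have βi : Function.Injective β := (MulAut.conj s).injective.comp αi
  have cm : ∀ a b, Commute (α a) (β b) := fun a b =>
    h.cm _ (qi_range ▸ ⟨a, rfl⟩) _ (qi_range ▸ ⟨b, rfl⟩)
  let μ := α.noncommCoprod β cm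
  have hμ : ∀ a b, μ (a, b) = α a * β b := fun a b => rfl
  let ρ : alternatingGroup (Fin 5) := ⟨(q0 * t0).2, qi_qt.2⟩
  let ν : alternatingGroup (Fin 5) := ⟨v0.2, qi_v0.2⟩
  let η : alternatingGroup (Fin 5) := ⟨y0.2, qi_y0.2⟩
  have ρ1 : ρ ≠ 1 := fun e => absurd (congrArg Subtype.val e) (by decide +kernel)
  have e1 : α ρ = ψ (q0 * t0) := congrArg ψ (by decide +kernel)
  have e2 : α ν = ψ v0 := rfl
  have ss : ∀ x, s * (s * x * s⁻¹) * s⁻¹ = x := fun x => by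
    calc _ = (s * s) * x * (s * s)⁻¹ := by group
      _ = x := by rw [h.ss]; group
  have e3 : β ρ = ψ r0 := by
    show s * α ρ * s⁻¹ = _
    rw [e1, ← h.sr', ss]
  have e4 : β ν = s * ψ v0 * s⁻¹ := rfl
  have rα : α.range = L0.map ψ := by rw [← qi_range, MonoidHom.map_range]
  have rN : μ.range = NN ψ s := by
    rw [MonoidHom.noncommCoprod_range, show β.range = cj s α.range from (MonoidHom.map_range _ _).symm, rα]
  have μi : Function.Injective μ := (injective_iff_map_eq_one μ).2 <| by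
    rintro ⟨a, b⟩ e
    rw [hμ, mul_eq_one_iff_eq_inv, ← map_inv] at e
    have k : ∀ c, a * c = c * a := fun c => αi (by rw [map_mul, map_mul, e]; exact (cm c _).symm)
    have a1 : a = 1 := Subtype.ext (qh_ctr a (congrArg Subtype.val (k ρ)) (congrArg Subtype.val (k η))
      (congrArg Subtype.val (k ν)))
    rw [a1, map_one, eq_comm, map_eq_one_iff _ βi, inv_eq_one] at e
    rw [a1, e]; rfl
  have Vα : VV ψ ≤ α.range := (closure_le _).2 (by rintro _ (rfl | rfl); exacts [⟨ρ, e1⟩, ⟨ν, e2⟩])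
  have Vβ : VV' ψ s ≤ β.range := (closure_le _).2 (by rintro _ (rfl | rfl); exacts [⟨ρ, e3⟩, ⟨ν, e4⟩])
  have m1 : α ρ ∈ VV ψ := e1 ▸ subset_closure (.inl rfl)
  have m2 : α ν ∈ VV ψ := subset_closure (.inr rfl)
  have m3 : β ρ ∈ VV' ψ s := e3 ▸ subset_closure (.inl rfl)
  have ej : ψ (r0 * (q0 * t0)) = α ρ * β ρ := by rw [map_mul, ← e1, ← e3, (cm ρ ρ).eq]
  have nj : ¬ IsConj (β ρ) (α ρ * β ρ) := by rw [← ej, e3]; exact h.nrj
  have ab : IsConj (α ρ) (β ρ) := isConj_iff.2 ⟨s, rfl⟩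
  rw [← rN, ← e3] at cr
  rw [← rN]
  have NH : μ.range ≤ H := rN ▸ h.NH
  have sN : ∀ x ∈ μ.range, s * x * s⁻¹ ∈ μ.range := by
    rintro _ ⟨⟨a, b⟩, rfl⟩
    refine ⟨(b, a), ?_⟩
    rw [hμ, hμ, (cm b a).eq, ← conj_mul]
    exact congrArg _ (ss _).symm
  have cr' : ∀ g ∈ H, g * α ρ = α ρ * g → g ∈ μ.range := fun g hg e => by
    rw [← ss g]
    refine sN _ (cr _ (nH.conj_mem g hg s) ?_)
    show _ * (s * α ρ * s⁻¹) = s * α ρ * s⁻¹ * _
    rw [conj_mul, conj_mul, e]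
  have tr : ∀ {x n : G}, n ∈ μ.range → (∀ g ∈ H, g * (n * x * n⁻¹) = n * x * n⁻¹ * g → g ∈ μ.range) →
      ∀ g ∈ H, g * x = x * g → g ∈ μ.range := fun {x n} hn k g hg e => by
    have := k _ (nH.conj_mem g hg n) (by rw [conj_mul, conj_mul, e])
    have := mul_mem (mul_mem (inv_mem hn) this) hn
    simpa [mul_assoc] using this
  have cls : ∀ w : alternatingGroup (Fin 5), w * w = 1 → w = 1 ∨ ∃ c, c * w * c⁻¹ = ρ := fun w e =>
    (qh_cls w (Perm.mem_alternatingGroup.1 w.2) (congrArg Subtype.val e)).imp Subtype.ext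
      fun ⟨c, h1, h2⟩ => ⟨⟨c, Perm.mem_alternatingGroup.2 h1⟩, Subtype.ext h2⟩
  have cα : ∀ w, w * w = 1 → w ≠ 1 → ∀ g ∈ H, g * α w = α w * g → g ∈ μ.range := fun w e w1 => by
    obtain ⟨c, hc⟩ := (cls w e).resolve_left w1
    refine tr (n := α c) ⟨(c, 1), by simp [hμ]⟩ ?_
    rw [← map_inv, ← map_mul, ← map_mul, hc]
    exact cr'
  have key : ∀ n ∈ μ.range, n * α ρ = α ρ * n → n * β ρ = β ρ * n → VV ψ ⊔ VV' ψ s ≤ C1[n] := by
    rintro _ ⟨⟨c, d⟩, rfl⟩ h1 h2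
    have a1 : ∀ a, α a = μ (a, 1) := fun a => by simp [hμ]
    have b1 : ∀ a, β a = μ (1, a) := fun a => by simp [hμ]
    rw [a1, ← map_mul, ← map_mul] at h1
    rw [b1, ← map_mul, ← map_mul] at h2
    have c1 : c * ρ = ρ * c := congrArg Prod.fst (μi h1)
    have d1 : d * ρ = ρ * d := congrArg Prod.snd (μi h2)
    have c2 : c * ν = ν * c := Subtype.ext (qh_cen c (Perm.mem_alternatingGroup.1 c.2) (congrArg Subtype.val c1))
    have d2 : d * ν = ν * d := Subtype.ext (qh_cen d (Perm.mem_alternatingGroup.1 d.2) (congrArg Subtype.val d1))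
    refine sup_le ((closure_le _).2 ?_) ((closure_le _).2 ?_) <;> rintro _ (rfl | rfl) <;>
      refine mem_centralizer_singleton_iff.2 ?_
    · rw [← e1, a1, ← map_mul, ← map_mul]; simp [c1]
    · rw [← e2, a1, ← map_mul, ← map_mul]; simp [c2]
    · rw [← e3, b1, ← map_mul, ← map_mul]; simp [d1]
    · rw [← e4, b1, ← map_mul, ← map_mul]; simp [d2]
  have ρρ : ρ * ρ = 1 := Subtype.ext (by decide +kernel)
  have νν : ν * ν = 1 := Subtype.ext (by decide +kernel)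
  have EN : VV ψ ⊔ VV' ψ s ≤ μ.range := sup_le (Vα.trans fun _ ⟨a, e⟩ => ⟨(a, 1), by simp [hμ, e]⟩)
    (Vβ.trans fun _ ⟨a, e⟩ => ⟨(1, a), by simp [hμ, e]⟩)
  have cj' : ∀ g ∈ H, g * (α ρ * β ρ) = α ρ * β ρ * g → g ∈ μ.range := by
    have : Fact (Nat.Prime 2) := ⟨Nat.prime_two⟩
    have EM : VV ψ ⊔ VV' ψ s ≤ H ⊓ C1[α ρ * β ρ] := le_inf h.syl.le (key _ ⟨(ρ, ρ), rfl⟩
      (by rw [mul_assoc, (cm ρ ρ).eq]) (by rw [← mul_assoc, (cm ρ ρ).eq]))
    have sd := Burnside_normal_complement (pHall_subl EM inf_le_left h.syl) fun n ⟨⟨hn, hc⟩, hN⟩ => by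
      obtain ⟨a, ha⟩ := Vα ((h.fus n hn _ (mem_sup_left m1) (conj_mem_of_norm hN (mem_sup_left m1))).1 m1)
      obtain ⟨b, hb⟩ := Vβ ((h.fus n hn _ (mem_sup_right m3) (conj_mem_of_norm hN (mem_sup_right m3))).2 m3)
      have e : μ (a, b) = μ (ρ, ρ) := by
        rw [hμ, hμ, ha, hb, conj_mul, mem_centralizer_singleton_iff.1 hc, mul_inv_cancel_right]
      obtain ⟨rfl, rfl⟩ := Prod.mk.inj (μi e)
      rw [eq_mul_inv_iff_mul_eq, eq_comm] at ha hb
      exact mem_centralizer_iff.2 fun x hx => mem_centralizer_singleton_iff.1 (key n (cr n hn hb) ha hb hx)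
    have nO := pcore_normal ({2}ᶜ : Set ℕ) (H ⊓ C1[α ρ * β ρ])
    have OH : Op' 2 (H ⊓ C1[α ρ * β ρ]) ≤ H := nO.le.trans inf_le_left
    have ON : Op' 2 (H ⊓ C1[α ρ * β ρ]) ≤ μ.range := A8R.gen2 (e := α ρ) (f := α ν)
      (by rw [← map_mul, ρρ, map_one]) (by rw [← map_mul, νν, map_one])
      ((show Commute ρ ν from Subtype.ext (by decide +kernel)).map α)
      (fun e => ρ1 (αi (e.trans (map_one α).symm)))
      (fun e => absurd (congrArg Subtype.val (αi (e.trans (map_one α).symm))) (by decide +kernel))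
      (fun e => absurd (congrArg Subtype.val (αi e)) (by decide +kernel))
      (by
        rw [← Nat.not_even_iff_odd, even_iff_two_dvd]
        exact fun d => (pcore_pgroup _ _) 2 Nat.prime_two d rfl)
      (fun r hr => conj_mem_of_norm (nO.norm (EM (mem_sup_left m1))) hr)
      (fun r hr => conj_mem_of_norm (nO.norm (EM (mem_sup_left m2))) hr)
      (fun r hr => cr' r (OH hr))
      (fun r hr => cα ν νν (fun e => absurd (congrArg Subtype.val e) (by decide +kernel)) r (OH hr))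
      (fun r hr => by
        rw [← map_mul]
        exact cα (ρ * ν) (Subtype.ext (by decide +kernel))
          (fun e => absurd (congrArg Subtype.val e) (by decide +kernel)) r (OH hr))
    exact fun g hg e => (sd.sup.ge.trans (sup_le ON EN)) ⟨hg, mem_centralizer_singleton_iff.2 e⟩
  have inv : ∀ c ∈ μ.range, c * c = 1 → c ≠ 1 → ∃ n ∈ μ.range,
      n * c * n⁻¹ = α ρ ∨ n * c * n⁻¹ = β ρ ∨ n * c * n⁻¹ = α ρ * β ρ := by
    rintro _ ⟨⟨a, b⟩, rfl⟩ e c1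
    rw [← map_mul, map_eq_one_iff _ μi] at e
    rcases cls a (congrArg Prod.fst e) with rfl | ⟨x, hx⟩ <;> rcases cls b (congrArg Prod.snd e) with rfl | ⟨y, hy⟩
    · exact absurd (map_one μ) c1
    · exact ⟨_, ⟨(1, y), rfl⟩, .inr (.inl (by rw [← map_inv, ← map_mul, ← map_mul]; simp [hμ, hy]))⟩
    · exact ⟨_, ⟨(x, 1), rfl⟩, .inl (by rw [← map_inv, ← map_mul, ← map_mul]; simp [hμ, hx])⟩
    · exact ⟨_, ⟨(x, y), rfl⟩, .inr (.inr (by rw [← map_inv, ← map_mul, ← map_mul]; simp [hμ, hx, hy]))⟩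
  refine le_antisymm (fun g hg => ?_) NH
  have jH : α ρ * β ρ ∈ H := NH ⟨(ρ, ρ), rfl⟩
  have rH : β ρ ∈ H := NH (EN (mem_sup_right m3))
  obtain ⟨⟨c, cH⟩, c2, c3, c4⟩ := A8R.pe5_dih (G := H) (u := ⟨_, jH⟩) (s := ⟨_, nH.conj_mem _ rH g⟩)
    (Subtype.ext (by
      show μ (ρ, ρ) * μ (ρ, ρ) = 1
      rw [← map_mul, Prod.mk_mul_mk, ρρ]; exact map_one μ))
    (Subtype.ext (by
      show g * β ρ * g⁻¹ * (g * β ρ * g⁻¹) = 1
      rw [conj_mul, ← map_mul, ρρ, map_one]; group))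
    fun e => nj ((isConj_iff.2 ⟨g, rfl⟩).trans (H.subtype.map_isConj e).symm)
  have c1 : c ≠ 1 := fun e => by
    rw [show (⟨c, cH⟩ : H) = 1 from Subtype.ext e, orderOf_one] at c2; omega
  have cc : c * c = 1 := by
    have := pow_orderOf_eq_one (⟨c, cH⟩ : H)
    rw [c2, pow_two] at this
    exact congrArg Subtype.val this
  have c4' : c * (g * β ρ * g⁻¹) = g * β ρ * g⁻¹ * c := congrArg Subtype.val c4
  obtain ⟨n, hn, h1⟩ := inv c (cj' c cH (congrArg Subtype.val c3)) cc c1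
  obtain ⟨m, hm, h2⟩ := inv (g⁻¹ * c * g) (cr _ (nH.conj_mem' c cH g) (by
    calc g⁻¹ * c * g * β ρ = g⁻¹ * (c * (g * β ρ * g⁻¹)) * g := by group
      _ = _ := by rw [c4']; group)) (by
    calc g⁻¹ * c * g * (g⁻¹ * c * g) = g⁻¹ * (c * c) * g := by group
      _ = 1 := by rw [cc]; group) fun e => c1 (by
    calc c = g * (g⁻¹ * c * g) * g⁻¹ := by group
      _ = 1 := by rw [e]; group)
  have kH : n * g * m⁻¹ ∈ H := mul_mem (mul_mem (NH hn) hg) (inv_mem (NH hm))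
  have ek : n * g * m⁻¹ * (m * (g⁻¹ * c * g) * m⁻¹) * (n * g * m⁻¹)⁻¹ = n * c * n⁻¹ := by group
  suffices n * g * m⁻¹ ∈ μ.range by simpa [mul_assoc] using mul_mem (mul_mem (inv_mem hn) this) hm
  generalize n * g * m⁻¹ = k at kH ek
  have nab : ∀ a b, α a = β b → a = 1 ∧ b = 1 := fun a b e => by
    have : μ (a, 1) = μ (1, b) := by simp [hμ, e]
    obtain ⟨x, y⟩ := Prod.mk.inj (μi this)
    exact ⟨x, y.symm⟩
  have ck := isConj_iff.2 ⟨k, ek⟩
  rcases h1 with h1 | h1 | h1 <;> rcases h2 with h2 | h2 | h2 <;> rw [h1, h2] at ek ck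
  · exact cr' k kH (mul_inv_eq_iff_eq_mul.1 ek)
  · obtain ⟨b, hb⟩ := Vβ ((h.fus k kH _ (mem_sup_right m3) (ek ▸ mem_sup_left m1)).2 m3)
    exact absurd (nab _ _ (hb.trans ek).symm).1 ρ1
  · exact absurd (ab.symm.trans ck.symm) nj
  · obtain ⟨b, hb⟩ := Vα ((h.fus k kH _ (mem_sup_left m1) (ek ▸ mem_sup_right m3)).1 m1)
    exact absurd (nab _ _ (hb.trans ek)).2 ρ1
  · exact cr k kH (mul_inv_eq_iff_eq_mul.1 ek)
  · exact absurd ck.symm nj
  · exact absurd (ab.symm.trans ck) nj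
  · exact absurd ck nj
  · exact cj' k kH (mul_inv_eq_iff_eq_mul.1 ek)

end Cfsg.Agent.S8R
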