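import Cfsg.Agent.S8R.A
import Cfsg.Agent.Sig.FStar

/-! The exceptional case of the 3-local recognition of `Sym(8)`: structure of `N = L L' ≅ A₅ × A₅` (`F5.fin`). -/

set_option autoImplicit false

namespace Cfsg.Agent.S8R

open Equiv Subgroup Cfsg.Agent.BG Cfsg.Agent.Sig
open scoped commutatorElement

variable {G : Type*} [Group G] [Finite G] {ψ : K0 →* G} {s : G} {H : Subgroup G}

/-- `A₅ → S₃ × S₅` -/
def qiι : alternatingGroup (Fin 5) →* K0 := (MonoidHom.inr _ _).comp (alternatingGroup (Fin 5)).subtype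

theorem qi_inj : Function.Injective qiι := fun _ _ e => Subtype.ext (congrArg Prod.snd e)

theorem qi_range : qiι.range = L0 := by
  ext ⟨a, b⟩
  exact ⟨fun ⟨x, hx⟩ => ⟨(congrArg Prod.fst hx).symm, (congrArg Prod.snd hx) ▸ x.2⟩,
    fun ⟨h1, h2⟩ => ⟨⟨b, h2⟩, Prod.ext (mem_bot.1 h1).symm rfl⟩⟩

theorem qi_y0 : y0 ∈ L0 := ⟨rfl, Perm.mem_alternatingGroup.2 (by decide +kernel)⟩
theorem qi_v0 : v0 ∈ L0 := ⟨rfl, Perm.mem_alternatingGroup.2 (by decide +kernel)⟩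
theorem qi_qt : q0 * t0 ∈ L0 := ⟨rfl, Perm.mem_alternatingGroup.2 (by decide +kernel)⟩

theorem qi_cent : ∀ k : K0, z0 * k = k * z0 → y0 * k = k * y0 → v0 * k = k * v0 → q0 * t0 * k = k * (q0 * t0) →
    k = 1 ∨ k = z0 ∨ k = z0⁻¹ := by
  have h1 : ∀ a : Perm (Fin 3), z0.1 * a = a * z0.1 → a = 1 ∨ a = z0.1 ∨ a = z0.1⁻¹ := by decide +kernel
  have h2 : ∀ b : Perm (Fin 5), y0.2 * b = b * y0.2 → v0.2 * b = b * v0.2 → (q0 * t0).2 * b = b * (q0 * t0).2 →
    b = 1 := by decide +kernel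
  rintro ⟨a, b⟩ e1 e2 e3 e4
  obtain rfl := h2 b (congrArg Prod.snd e2) (congrArg Prod.snd e3) (congrArg Prod.snd e4)
  rcases h1 a (congrArg Prod.fst e1) with rfl | rfl | rfl
  · exact Or.inl rfl
  · exact Or.inr (Or.inl rfl)
  · exact Or.inr (Or.inr rfl)

theorem F4.qi_C (h : F4 ψ s) : C[NN ψ s] = ⊥ := by
  refine eq_bot_iff.2 fun g hg => ?_
  have si : s⁻¹ = s := inv_eq_of_mul_eq_one_right h.ss
  have c1 : ∀ a ∈ L0, ψ a * g = g * ψ a := fun a ha => hg _ (mem_sup_left (mem_map_of_mem ψ ha))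
  have c2 : ∀ a ∈ L0, s * ψ a * s⁻¹ * g = g * (s * ψ a * s⁻¹) := fun a ha =>
    hg _ (mem_sup_right (mem_map_of_mem (MulAut.conj s).toMonoidHom (mem_map_of_mem ψ ha)))
  have ez : s * ψ y0 * s⁻¹ = ψ z0 := by
    rw [← h.sz, si]
    calc s * (s * ψ z0 * s) * s = (s * s) * ψ z0 * (s * s) := by group
      _ = _ := by rw [h.ss, one_mul, mul_one]
  have c3 := c2 _ qi_y0
  rw [ez] at c3
  obtain ⟨k, rfl⟩ := h.nz g (by rw [← c3, mul_inv_cancel_right]; exact mem_zpowers _)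
  have f : ∀ a : K0, ψ a * ψ k = ψ k * ψ a → a * k = k * a := fun a e => h.inj (by rw [map_mul, map_mul, e])
  have c4 : ψ v0 * (s * ψ k * s⁻¹) = s * ψ k * s⁻¹ * ψ v0 := by
    have := c2 _ qi_v0
    rw [si] at this ⊢
    calc ψ v0 * (s * ψ k * s) = (s * s) * ψ v0 * (s * ψ k * s) := by rw [h.ss, one_mul]
      _ = s * (s * ψ v0 * s * ψ k) * s := by group
      _ = s * ψ k * s * ψ v0 * (s * s) := by rw [this]; group
      _ = _ := by rw [h.ss, mul_one]
  have n1 : v0 * y0 ≠ y0 * v0 := by decide +kernel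
  have n2 : v0 * y0⁻¹ ≠ y0⁻¹ * v0 := by decide +kernel
  rcases qi_cent k (f _ c3) (f _ (c1 _ qi_y0)) (f _ (c1 _ qi_v0)) (f _ (c1 _ qi_qt)) with rfl | rfl | rfl
  · exact map_one ψ
  · rw [h.sz] at c4
    exact absurd (h.inj (by rw [map_mul, map_mul, c4])) n1
  · rw [map_inv, show s * (ψ z0)⁻¹ * s⁻¹ = (s * ψ z0 * s⁻¹)⁻¹ by group, h.sz, ← map_inv] at c4
    exact absurd (h.inj (by rw [map_mul, map_mul, c4])) n2

theorem F5.fin (h : F5 ψ s H) (e : H = NN ψ s) : ∃ N : Subgroup G, N.Normal ∧ Cfsg.generalizedFittingSubgroup G = N ∧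
    Nonempty (N ≃* alternatingGroup (Fin 5) × alternatingGroup (Fin 5)) ∧
    (∀ K : Subgroup G, K.Normal → K ≤ N → K = ⊥ ∨ K = N) ∧ N.index = 4 ∧ ∀ g : G, g ^ 2 ∈ N := by
  have hC := h.toF4.qi_C
  have nH := h.nH
  have idx := h.idx
  have sq := h.sq
  subst e
  let f1 : alternatingGroup (Fin 5) →* G := ψ.comp qiι
  let f2 : alternatingGroup (Fin 5) →* G := (MulAut.conj s).toMonoidHom.comp f1
  have i1 : Function.Injective f1 := h.inj.comp qi_inj
  have i2 : Function.Injective f2 := (MulAut.conj s).injective.comp i1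
  have r1 : f1.range = L0.map ψ := by rw [MonoidHom.range_comp, qi_range]
  have r2 : f2.range = cj s (L0.map ψ) := by rw [MonoidHom.range_comp, r1]; rfl
  have cm : ∀ a b, Commute (f1 a) (f2 b) := fun a b =>
    h.cm _ (qi_range.le ⟨a, rfl⟩) _ (qi_range.le ⟨b, rfl⟩)
  have ss : cj s (cj s (L0.map ψ)) = L0.map ψ := by rw [← cj_mul, h.ss, cj_one]
  have q1 : IsQuasisimple (L0.map ψ) := r1 ▸ qs_of_mulEquiv (qs_of_simple fun hc => by
    have := hc.1.1 ⟨swap 0 2 * swap 0 1, Perm.mem_alternatingGroup.2 (by decide +kernel)⟩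
      ⟨swap 0 3 * swap 1 4, Perm.mem_alternatingGroup.2 (by decide +kernel)⟩
    revert this
    decide +kernel) (MonoidHom.ofInjective i1)
  have q2 : IsQuasisimple (cj s (L0.map ψ)) := qs_map_of_injective q1 (MulAut.conj s).injective
  have cL : L0.map ψ ≤ C[cj s (L0.map ψ)] := by
    rw [← r2, ← r1]
    rintro _ ⟨a, rfl⟩ _ ⟨b, rfl⟩
    exact (cm a b).eq.symm
  have cL' := cents_symm cL
  have eN : NN ψ s = L0.map ψ ⊔ cj s (L0.map ψ) := rfl
  rw [eN] at hC nH idx sq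
  clear eN
  generalize L0.map ψ = L at *
  have n1 : L ⊔ cj s L ≤ N[L] := sup_le (normG _) (cents_norm cL')
  have n2 : L ⊔ cj s L ≤ N[cj s L] := sup_le (cents_norm cL) (normG _)
  have nN : (⊤ : Subgroup G) ≤ N[L ⊔ cj s L] := (normalizer_eq_top _).ge
  have sN : SubnIn (L ⊔ cj s L) ⊤ := SubnIn.of_normal le_top nN
  have k1 : CompIn L ⊤ := ⟨SubnIn.step le_sup_left n1 sN, q1⟩
  have k2 : CompIn (cj s L) ⊤ := ⟨SubnIn.step le_sup_right n2 sN, q2⟩
  have hl : L ⊔ cj s L ≤ layerIn ⊤ := sup_le k1.le_layerIn k2.le_layerIn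
  have z1 : L ⊓ C[L] = ⊥ := eq_bot_iff.2 (hC ▸ by
    rw [BG.cent_sup]
    exact le_inf inf_le_right (inf_le_left.trans cL))
  refine ⟨_, nH, ?_, ⟨?_⟩, fun K hK hle => ?_, idx, sq⟩
  · rw [← fstarIn_top, fstarIn_eq]
    refine le_antisymm (sup_le (layerIn_le_iff.2 fun K hK => (hK.le_or_commutator sN).resolve_right fun e =>
      hK.ne_bot (eq_bot_iff.2 (hC ▸ commutator_eq_bot_iff_le_centralizer.1 e))) ?_) (hl.trans le_sup_left)
    exact ((commutator_eq_bot_iff_le_centralizer'.1 commutator_layerIn_fitIn).trans (centS hl)).trans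
      (hC.le.trans bot_le)
  · have inj : Function.Injective (f1.noncommCoprod f2 cm) := by
      rw [injective_iff_map_eq_one]
      rintro ⟨a, b⟩ e
      have e' : f1 a * f2 b = 1 := e
      have m1 : f1 a ∈ L := r1.le ⟨a, rfl⟩
      have m2 : f1 a ∈ cj s L := eq_inv_of_mul_eq_one_left e' ▸ inv_mem (r2.le ⟨b, rfl⟩)
      have e1 : f1 a = 1 := z1.le ⟨m1, cL' m2⟩
      rw [e1, one_mul] at e'
      exact Prod.ext (i1 (e1.trans f1.map_one.symm)) (i2 (e'.trans f2.map_one.symm))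
    have : (f1.noncommCoprod f2 cm).range = L ⊔ cj s L := by rw [MonoidHom.noncommCoprod_range, r1, r2]
    exact this ▸ (MonoidHom.ofInjective inj).symm
  · have nK : ∀ X : Subgroup G, X ≤ N[K] := fun X => le_top.trans (normalizer_eq_top K).ge
    have cK : cj s K = K := cj_of_norm (nK ⊤ (mem_top s))
    rcases qs_normal q1 (inf_le_right : K ⊓ L ≤ L) (normsI (nK L) (normG L)) with h1 | h1
    · have h2 : L ≤ K := h1.ge.trans inf_le_left
      exact Or.inr (le_antisymm hle (sup_le h2 (cK ▸ cj_mono s h2)))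
    · have h2 : K ⊓ L = ⊥ := eq_bot_iff.2 (z1 ▸ le_inf inf_le_right h1)
      have h3 : K ⊓ cj s L = ⊥ := by rw [← cK, ← cj_inf, h2, cj_bot]
      refine Or.inl (eq_bot_iff.2 (hC ▸ ?_))
      rw [BG.cent_sup]
      exact le_inf (commutator_eq_bot_iff_le_centralizer.1 (eq_bot_iff.2 (h2 ▸ le_inf (commg_subl (nK _))
          (commg_subr (hle.trans n1)))))
        (commutator_eq_bot_iff_le_centralizer.1 (eq_bot_iff.2 (h3 ▸ le_inf (commg_subl (nK _))
          (commg_subr (hle.trans n2)))))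

end Cfsg.Agent.S8R
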